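import Mathlib
import Cfsg.Prelude.Def_Classical
import Cfsg.Agent.Lib.Helper18.UEDefs
import Cfsg.Agent.Lib.Helper88.LSPSI
import Cfsg.Agent.Lib.Helper7.GUOrder
import Cfsg.Agent.Lib.Helper60.U3Base

/-! S2335 (helper18, project UE), piece PSI0: an additive character `ψ₀` of `F` (`|F| = q ^ 2`)
such that every additive character is `y ↦ ψ₀ (a y + (a y) ^ q)` and `ψ₀` is nontrivial on
every nonzero multiple of the fixed field. -/

set_option autoImplicit false

namespace Cfsg.Agent.Lib.Helper18.UE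

open Matrix

universe u

variable {F : Type u} [Field F] {m : ℕ}

theorem exists_psi0 [Fintype F] {q : ℕ} (hF : Fintype.card F = q ^ 2) :
    ∃ ψ₀ : AddChar F ℂ,
      (∀ φ : AddChar F ℂ, ∃ a : F, ∀ y : F, φ y = ψ₀ (a * y + (a * y) ^ q)) ∧
      (∀ w : F, w ^ q = w → (∀ t : F, t ^ q = t → ψ₀ (t * w) = 1) → w = 0) := by
  classical
  obtain ⟨ψ₁, -, hψ₁'⟩ := Cfsg.Agent.Lib.Helper18.LS.exists_psi (F := F)
  obtain ⟨e, he⟩ : ∃ e : F, ψ₁ e ≠ 1 := by
    by_contra hcon
    push Not at hcon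
    have h1 : (1 : F) = 0 := hψ₁' 1 (fun c => by rw [mul_one]; exact hcon c)
    exact one_ne_zero h1
  have hq0 : q ≠ 0 := Cfsg.Agent.Lib.Helper7.herm_q_ne_zero hF
  have hadd : ∀ x y : F, (x + y) ^ q = x ^ q + y ^ q :=
    Cfsg.Agent.Lib.Helper7.herm_add_pow hF
  have hψ₀ : ∀ x : F, ψ₁.mulShift e x = ψ₁ (e * x) := fun x => rfl
  -- the parametrisation
  let Φ : F → AddChar F ℂ := fun a =>
    { toFun := fun y => ψ₁.mulShift e (a * y + (a * y) ^ q)
      map_zero_eq_one' := by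
        rw [mul_zero, zero_pow hq0, add_zero]
        exact AddChar.map_zero_eq_one _
      map_add_eq_mul' := fun x y => by
        rw [← AddChar.map_add_eq_mul]
        congr 1
        rw [mul_add, hadd]
        ring }
  have hΦ : ∀ a y : F, Φ a y = ψ₁.mulShift e (a * y + (a * y) ^ q) := fun a y => rfl
  have hone : ψ₁.mulShift e 1 ≠ 1 := by
    rw [hψ₀, mul_one]
    exact he
  have hinj : Function.Injective Φ := by
    intro a a' haa
    by_contra hne
    have hd : a - a' ≠ 0 := sub_ne_zero.mpr hne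
    obtain ⟨u, hu⟩ := Cfsg.Agent.Lib.Helper60.trace_surj hF (1 : F) (one_pow q)
    have h1 := congrArg (fun φ : AddChar F ℂ => φ ((a - a')⁻¹ * u)) haa
    simp only [hΦ] at h1
    apply hone
    have h3 : a * ((a - a')⁻¹ * u) = a' * ((a - a')⁻¹ * u) + u := by
      field_simp
      ring
    have h2 : a * ((a - a')⁻¹ * u) + (a * ((a - a')⁻¹ * u)) ^ q =
        (a' * ((a - a')⁻¹ * u) + (a' * ((a - a')⁻¹ * u)) ^ q) + 1 := by
      rw [h3, hadd, ← hu]
      ring
    rw [h2, AddChar.map_add_eq_mul] at h1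
    exact (mul_eq_left₀ (AddChar.val_isUnit _ _).ne_zero).mp h1
  have hbij : Function.Bijective Φ := by
    rw [Fintype.bijective_iff_injective_and_card]
    exact ⟨hinj, AddChar.card_eq.symm⟩
  refine ⟨ψ₁.mulShift e, ?_, ?_⟩
  · intro φ
    obtain ⟨a, ha⟩ := hbij.2 φ
    refine ⟨a, fun y => ?_⟩
    rw [← ha]
    rfl
  · intro w hw hall
    by_contra hw0
    apply hone
    have h1 := hall w⁻¹ (by rw [inv_pow, hw])
    rwa [inv_mul_cancel₀ hw0] at h1

end Cfsg.Agent.Lib.Helper18.UE
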