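import Cfsg.Agent.Lib.Helper32.BG10Basic

/-!
# S1384 project NF (helper41), piece NF-SUP (helper43)

An element normalizing one Sylow `q`-subgroup of `H` for each prime `q ∣ |H|` normalizes `H`.
-/

set_option autoImplicit false

open Cfsg Cfsg.Agent.Lib.Helper32 Cfsg.Agent.Lib.Helper32.BG10

namespace Cfsg.Agent.Lib.Helper43.NF

universe u

variable {G : Type u} [Group G] [Finite G]

/-- NF-SUP: an element normalizing one Sylow `q`-subgroup of `H` for each prime `q ∣ |H|`
normalizes `H` (they generate `H`). -/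
theorem mem_normalizer_of_sylows {H : Subgroup G} (P : ℕ → Subgroup G)
    (hP : ∀ q : ℕ, q.Prime → q ∣ Nat.card H → P q ∈ sylSet q H) {g : G}
    (hg : ∀ q : ℕ, q.Prime → q ∣ Nat.card H → g ∈ Subgroup.normalizer (P q : Set G)) :
    g ∈ Subgroup.normalizer (H : Set G) := by
  classical
  have key : ∀ K : Subgroup G, (∀ q : ℕ, q.Prime → q ∣ Nat.card H → P q ≤ K) →
      Nat.card H ∣ Nat.card K := by
    intro K hK
    have hH0 : Nat.card H ≠ 0 := Nat.card_pos.ne'
    have hK0 : Nat.card K ≠ 0 := Nat.card_pos.ne'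
    rw [← Nat.factorization_le_iff_dvd hH0 hK0]
    intro q
    by_cases hq : q.Prime
    · by_cases hd : q ∣ Nat.card H
      · have h1 : Nat.card (P q) ∣ Nat.card K := Subgroup.card_dvd_of_le (hK q hq hd)
        rw [(hP q hq hd).2] at h1
        exact (hq.pow_dvd_iff_le_factorization hK0).mp h1
      · rw [Nat.factorization_eq_zero_of_not_dvd hd]
        exact Nat.zero_le _
    · rw [Nat.factorization_eq_zero_of_not_prime _ hq]
      exact Nat.zero_le _
  have h1 : Nat.card H ∣ Nat.card (H ⊓ cj g H : Subgroup G) := by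
    apply key
    intro q hq hd
    apply le_inf (hP q hq hd).1
    have h2 : cj g (P q) = P q := cj_eq_self_iff.mpr (hg q hq hd)
    rw [← h2]
    exact cj_mono g (hP q hq hd).1
  have h3 : H ⊓ cj g H = H :=
    Subgroup.eq_of_le_of_card_ge inf_le_left (Nat.le_of_dvd Nat.card_pos h1)
  have h4 : H ≤ cj g H := inf_eq_left.mp h3
  have h5 : H = cj g H := Subgroup.eq_of_le_of_card_ge h4 (by rw [card_cj])
  exact cj_eq_self_iff.mp h5.symm

end Cfsg.Agent.Lib.Helper43.NF
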