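import Cfsg.Agent.Lib.Helper3.BG12Pieces

/-!
# B&G 13.3(a), piece P27C (helper43, for helper3's S1427 project)

If `q ∈ σ(M) ∩ α(L)` for maximal subgroups `M`, `L` of a minimal simple group of odd order then
`L` is conjugate to `M`.
-/

set_option autoImplicit false

open Cfsg Cfsg.Agent.Lib.Helper32 Cfsg.Agent.Lib.Helper32.BG10 Cfsg.Agent.Lib.Helper3.BG12 Cfsg.Agent.Lib.Helper3.BG12S

namespace Cfsg.Agent.Lib.Helper43.BG13

universe u

variable {G : Type u} [Group G] [Finite G]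

theorem exists_cj_of_sigma_alpha (hG : IsMinSimpleOddOrder G) {M L : Subgroup G}
    (hM : IsCoatom M) (hL : IsCoatom L) {q : ℕ} [Fact q.Prime] (hqM : q ∈ sigma M)
    (hqL : q ∈ alpha L) : ∃ g : G, L = cj g M := by
  have hq : q.Prime := Fact.out
  obtain ⟨F, hFL, hFc, hFp, hFcard⟩ := exists_of_not_prankLE hqL.2
  have hF3 : ¬ PRankLE q 2 ↥F := not_prankLE_of_le (le_refl F) hFc hFp hFcard
  have hU : UniqIn L F := uniqIn_of_rank3 (ut_of hG) hL hFL hq hF3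
  have hFq : IsPGroup q F := by
    intro x
    refine ⟨1, ?_⟩
    rw [pow_one]
    exact Subtype.ext (hFp x.1 x.2)
  obtain ⟨g, hg⟩ := exists_cj_le_sigmaCore hG hM hqM hFq
  have hsM : sigmaCore M ≤ M := by
    rintro x ⟨y, -, rfl⟩
    exact y.2
  have h1 : F ≤ cj g⁻¹ M := by
    have h2 := cj_mono g⁻¹ (hg.trans hsM)
    rwa [cj_inv_cj] at h2
  exact ⟨g⁻¹, (hU (cj g⁻¹ M) (isCoatom_cj g⁻¹ hM) h1).symm⟩

end Cfsg.Agent.Lib.Helper43.BG13
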