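import Mathlib
import Cfsg.Prelude.Def_Blocks
import Cfsg.Agent.Lib.Helper83.Ct2
import Cfsg.Agent.Lib.Helper83.Central

/-!
# S4561, piece FIN-A2 (for helper83)

An irreducible character vanishing off a subgroup `Z` on which it is "central" (a multiple of a
linear character) has `θ(1)² · |Z| = |K|`.
-/

set_option autoImplicit false

open scoped ComplexConjugate
open Cfsg Cfsg.Agent.Lib Cfsg.Agent.Lib.Helper83

namespace Cfsg.Agent.Lib.Helper43.Ct

theorem fin_a2 {K : Type*} [Group K] [Finite K] (θ : IrrCharacter K) (Z : Subgroup K)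
    (lam : Z →* ℂˣ)
    (hcen : ∀ (z : Z) (h : K), (θ : K → ℂ) ((z : K) * h) = ((lam z : ℂˣ) : ℂ) * (θ : K → ℂ) h)
    (hvan : ∀ h : K, h ∉ Z → (θ : K → ℂ) h = 0) :
    charDegree (θ : K → ℂ) ^ 2 * Nat.card Z = Nat.card K := by
  classical
  cases nonempty_fintype K
  obtain ⟨hpos, hdeg⟩ := irr_degree θ.2
  have horth := irr_orthonormal θ θ
  rw [if_pos rfl] at horth
  unfold classInner at horth
  have hK0 : (Nat.card K : ℂ) ≠ 0 := by
    exact_mod_cast (Nat.card_pos (α := K)).ne'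
  have hsum : ∑ g : K, (θ : K → ℂ) g * conj ((θ : K → ℂ) g) = (Nat.card K : ℂ) := by
    have h1 := congrArg (fun t => (Nat.card K : ℂ) * t) horth
    simp only [mul_one] at h1
    rw [← mul_assoc, mul_inv_cancel₀ hK0, one_mul] at h1
    exact h1
  -- each term
  have hterm : ∀ g : K, (θ : K → ℂ) g * conj ((θ : K → ℂ) g)
      = if g ∈ Z then ((charDegree (θ : K → ℂ) : ℂ)) ^ 2 else 0 := by
    intro g
    by_cases hg : g ∈ Z
    · rw [if_pos hg]
      have h1 := hcen ⟨g, hg⟩ 1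
      rw [mul_one] at h1
      have h1' : (θ : K → ℂ) g = ((lam ⟨g, hg⟩ : ℂˣ) : ℂ) * (θ : K → ℂ) 1 := h1
      have hnorm : ‖((lam ⟨g, hg⟩ : ℂˣ) : ℂ)‖ = 1 := by
        apply Complex.norm_eq_one_of_pow_eq_one (n := orderOf (⟨g, hg⟩ : Z))
        · rw [← Units.val_pow_eq_pow_val, ← map_pow, pow_orderOf_eq_one, map_one, Units.val_one]
        · exact (orderOf_pos _).ne'
      have h2 : ((lam ⟨g, hg⟩ : ℂˣ) : ℂ) * conj ((lam ⟨g, hg⟩ : ℂˣ) : ℂ) = 1 := by
        rw [Complex.mul_conj, Complex.normSq_eq_norm_sq, hnorm]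
        simp
      rw [h1', hdeg, map_mul, Complex.conj_natCast]
      calc ((lam ⟨g, hg⟩ : ℂˣ) : ℂ) * (charDegree (θ : K → ℂ) : ℂ)
            * (conj ((lam ⟨g, hg⟩ : ℂˣ) : ℂ) * (charDegree (θ : K → ℂ) : ℂ))
          = (((lam ⟨g, hg⟩ : ℂˣ) : ℂ) * conj ((lam ⟨g, hg⟩ : ℂˣ) : ℂ))
            * (charDegree (θ : K → ℂ) : ℂ) ^ 2 := by ring
        _ = (charDegree (θ : K → ℂ) : ℂ) ^ 2 := by rw [h2, one_mul]
    · rw [if_neg hg, hvan g hg, zero_mul]
  have hcount : ∑ g : K, (if g ∈ Z then ((charDegree (θ : K → ℂ) : ℂ)) ^ 2 else 0)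
      = (Nat.card Z : ℂ) * ((charDegree (θ : K → ℂ) : ℂ)) ^ 2 := by
    rw [Finset.sum_ite, Finset.sum_const_zero, add_zero, Finset.sum_const, nsmul_eq_mul]
    congr 2
    rw [Nat.card_eq_fintype_card, Fintype.card_subtype]
  rw [Finset.sum_congr rfl (fun g _ => hterm g), hcount] at hsum
  have hfin : ((charDegree (θ : K → ℂ) ^ 2 * Nat.card Z : ℕ) : ℂ) = ((Nat.card K : ℕ) : ℂ) := by
    push_cast
    rw [← hsum]
    ring
  exact_mod_cast hfin

end Cfsg.Agent.Lib.Helper43.Ct
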