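import Mathlib
import Cfsg.Agent.Lib.Helper43.DihSyl2

/-!
# Dihedral Sylow 2-subgroups III (helper43)

* `dihPar`: the parity characters `χ_c : DihedralGroup m →* Multiplicative (ZMod 2)` (`m` even),
  `χ_c (r j) = j mod 2`, `χ_c (sr i) = (i - c) mod 2`.
* `npc_of_no_fusion`: no fusion of `S \ M` into a cyclic maximal subgroup `M` of the Sylow
  2-subgroup `S` gives a normal 2-complement.
* `conj_in_sylow_of_complement`: with a normal complement, fusion in `S` is `S`-conjugacy.
-/

set_option autoImplicit false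

namespace Cfsg.Agent.Lib.Helper43

open Cfsg.Agent.Lib.Helper42 Cfsg.Agent.Lib.Helper75 Cfsg.Agent.Lib.Helper14

theorem zmod2_aux1 : ∀ x y z : ZMod 2, y - x - z = x + (y - z) := by decide

theorem zmod2_aux2 : ∀ x y z : ZMod 2, y - x = (x - z) + (y - z) := by decide

/-- The underlying function of the parity character. -/
noncomputable def dihParFun (m : ℕ) (hm : 2 ∣ m) (c : ZMod m) :
    DihedralGroup m → Multiplicative (ZMod 2)
  | DihedralGroup.r j => Multiplicative.ofAdd (ZMod.castHom hm (ZMod 2) j)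
  | DihedralGroup.sr i => Multiplicative.ofAdd (ZMod.castHom hm (ZMod 2) (i - c))

/-- The parity character `χ_c` of the dihedral group of order `2m`, `m` even. -/
noncomputable def dihPar (m : ℕ) (hm : 2 ∣ m) (c : ZMod m) :
    DihedralGroup m →* Multiplicative (ZMod 2) where
  toFun := dihParFun m hm c
  map_one' := by
    show dihParFun m hm c (DihedralGroup.r 0) = 1
    simp [dihParFun]
  map_mul' := by
    rintro (i | i) (j | j)
    · show dihParFun m hm c (DihedralGroup.r (i + j)) = _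
      simp only [dihParFun, map_add, ofAdd_add]
    · show dihParFun m hm c (DihedralGroup.sr (j - i)) = _
      simp only [dihParFun, ← ofAdd_add, map_sub]
      exact congrArg _ (zmod2_aux1 _ _ _)
    · show dihParFun m hm c (DihedralGroup.sr (i + j)) = _
      simp only [dihParFun, ← ofAdd_add, map_sub, map_add]
      congr 1; ring
    · show dihParFun m hm c (DihedralGroup.r (j - i)) = _
      simp only [dihParFun, ← ofAdd_add, map_sub]
      exact congrArg _ (zmod2_aux2 _ _ _)

theorem dihPar_r (m : ℕ) (hm : 2 ∣ m) (c j : ZMod m) :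
    dihPar m hm c (DihedralGroup.r j) = Multiplicative.ofAdd (ZMod.castHom hm (ZMod 2) j) := rfl

theorem dihPar_sr (m : ℕ) (hm : 2 ∣ m) (c i : ZMod m) :
    dihPar m hm c (DihedralGroup.sr i) =
      Multiplicative.ofAdd (ZMod.castHom hm (ZMod 2) (i - c)) := rfl

/-- An element of `ZMod m` (`m` even) of even parity is a double. -/
theorem zpar_eq_zero {m : ℕ} [NeZero m] (hm : 2 ∣ m) (x : ZMod m)
    (hx : ZMod.castHom hm (ZMod 2) x = 0) : ∃ j : ZMod m, x = j + j := by
  have h1 : ZMod.castHom hm (ZMod 2) x = ((x.val : ℕ) : ZMod 2) := by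
    conv_lhs => rw [← ZMod.natCast_zmod_val x]
    rw [map_natCast]
  rw [h1, ZMod.natCast_eq_zero_iff] at hx
  obtain ⟨t, ht⟩ := hx
  refine ⟨(t : ZMod m), ?_⟩
  conv_lhs => rw [← ZMod.natCast_zmod_val x, ht]
  push_cast; ring

/-- Every element of `ZMod m` (`m` even) is a double or a double plus one. -/
theorem zpar_cases {m : ℕ} [NeZero m] (hm : 2 ∣ m) (x : ZMod m) :
    (∃ j : ZMod m, x = j + j) ∨ ∃ j : ZMod m, x = 1 + (j + j) := by
  have h : ∀ y : ZMod 2, y = 0 ∨ y = 1 := by decide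
  rcases h (ZMod.castHom hm (ZMod 2) x) with h0 | h1
  · exact Or.inl (zpar_eq_zero hm x h0)
  · right
    have h2 : ZMod.castHom hm (ZMod 2) (x - 1) = 0 := by rw [map_sub, h1, map_one, sub_self]
    obtain ⟨j, hj⟩ := zpar_eq_zero hm (x - 1) h2
    exact ⟨j, by rw [← hj]; ring⟩

open DihedralGroup in
/-- Reflections `sr c` and `sr (c + 2j)` are conjugate in the dihedral group. -/
theorem dih_sr_conj {m : ℕ} (c j : ZMod m) :
    r (-j) * sr c * (r (-j))⁻¹ = (sr (c + (j + j)) : DihedralGroup m) := by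
  rw [dih_conj_sr, sr_mul_r]; congr 1; ring

/-- With a normal complement to `S`, conjugacy of elements of `S` is `S`-conjugacy. -/
theorem conj_in_sylow_of_complement {X : Type*} [Group X] (S N : Subgroup X) [hN : N.Normal]
    (hc : N.IsComplement' S) (x y : X) (hx : x ∈ S) (hy : y ∈ S) (g : X)
    (hg : g * x * g⁻¹ = y) : ∃ s ∈ S, s * x * s⁻¹ = y := by
  obtain ⟨⟨⟨n, hn⟩, ⟨s, hs⟩⟩, hns⟩ := hc.2 g
  simp only at hns
  refine ⟨s, hs, ?_⟩
  obtain ⟨w, hw⟩ : ∃ w, w = s * x * s⁻¹ := ⟨_, rfl⟩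
  have hwS : w ∈ S := by rw [hw]; exact S.mul_mem (S.mul_mem hs hx) (S.inv_mem hs)
  have hy' : y = n * w * n⁻¹ := by rw [← hg, ← hns, hw]; group
  have h1 : y * w⁻¹ ∈ N := by
    have : y * w⁻¹ = n * (w * n⁻¹ * w⁻¹) := by rw [hy']; group
    rw [this]
    exact N.mul_mem hn (hN.conj_mem _ (N.inv_mem hn) w)
  have h2 : y * w⁻¹ ∈ S := S.mul_mem hy (S.inv_mem hwS)
  have hdisj := hc.disjoint
  rw [Subgroup.disjoint_def] at hdisj
  have h3 := hdisj h1 h2
  rw [mul_inv_eq_one] at h3
  rw [← hw, h3]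

/-- If no element of `S \ M` (all involutions) is conjugate into the cyclic maximal subgroup `M`
of the Sylow 2-subgroup `S`, the group has a normal 2-complement. -/
theorem npc_of_no_fusion {X : Type*} [Group X] [Finite X] (S : Sylow 2 X) (M : Subgroup X)
    (hMc : IsCyclic M)
    (hinv : ∀ u ∈ (S : Subgroup X), u ∉ M → orderOf u = 2)
    (hfus : ∀ u ∈ (S : Subgroup X), u ∉ M → ∀ g : X, g * u * g⁻¹ ∉ M)
    (hS0111 : ∀ u : X, orderOf u = 2 → u ∈ (S : Subgroup X) → u ∉ M →
      (∃ N : Subgroup X, N.Normal ∧ N.index = 2 ∧ u ∉ N) ∨ ∃ g : X, g * u * g⁻¹ ∈ M) :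
    NPC 2 X := by
  obtain ⟨X0, hX0n, ⟨i0, hi0⟩, hX0le⟩ := exists_normal_two_pow_index X
  have hSX0 : (S : Subgroup X) ⊓ X0 ≤ M := by
    intro u hu
    by_contra huM
    have huS := (Subgroup.mem_inf.mp hu).1
    rcases hS0111 u (hinv u huS huM) huS huM with ⟨N, hN, hNi, huN⟩ | ⟨g, hg⟩
    · exact huN (hX0le N hN hNi (Subgroup.mem_inf.mp hu).2)
    · exact hfus u huS huM g hg
  have := hX0n
  obtain ⟨T0, hT0⟩ := exists_sylow_map_eq_inf X0 S
  have hT0c : IsCyclic (T0 : Subgroup X0) := by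
    have hle : ∀ x : (T0 : Subgroup X0), ((x : X0) : X) ∈ M := fun x =>
      hSX0 (hT0 ▸ Subgroup.mem_map_of_mem _ x.2)
    let f : (T0 : Subgroup X0) →* M :=
      (X0.subtype.comp (T0 : Subgroup X0).subtype).codRestrict M hle
    have hf : Function.Injective f := by
      intro a b hab
      have := congrArg (fun y : M => (y : X)) hab
      exact Subtype.ext (Subtype.ext this)
    exact isCyclic_of_injective f hf
  have hnpc0 : NPC 2 X0 := npc_of_cyclic_sylow T0 hT0c
  exact npc_of_normal_index_pow X0 i0 hi0 hnpc0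

end Cfsg.Agent.Lib.Helper43
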