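import Mathlib

set_option autoImplicit false

namespace Cfsg.Agent.Lib.Helper43

section EqOrd

open Subgroup

variable {Q : Type*} [Group Q]

/-- the double centralizer of a commuting set is commutative -/
theorem dc_comm (S : Set Q) (hS : ∀ a ∈ S, ∀ b ∈ S, a * b = b * a) :
    ∀ a ∈ centralizer (centralizer S : Set Q), ∀ b ∈ centralizer (centralizer S : Set Q),
      a * b = b * a := by
  intro a ha b hb
  have hSC : S ⊆ (centralizer S : Set Q) := fun s hs => by
    rw [SetLike.mem_coe, mem_centralizer_iff]; intro t ht; exact hS t ht s hs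
  have hb' : b ∈ centralizer S := centralizer_le hSC hb
  exact (mem_centralizer_iff.mp ha b hb').symm

theorem subset_dc (S : Set Q) : S ⊆ (centralizer (centralizer S : Set Q) : Set Q) :=
  fun s hs => by
    rw [SetLike.mem_coe, mem_centralizer_iff]; intro t ht
    exact (mem_centralizer_iff.mp ht s hs).symm

theorem exists_second_center [Finite Q] {p : ℕ} [Fact p.Prime] (hQ : IsPGroup p Q)
    (hnc : center Q ≠ ⊤) :
    ∃ x : Q, x ∉ center Q ∧ ∀ g : Q, g * x * g⁻¹ * x⁻¹ ∈ center Q := by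
  have hnt : Nontrivial (Q ⧸ center Q) := by
    rw [← Finite.one_lt_card_iff_nontrivial]
    have h1 : (center Q).index ≠ 1 := fun h => hnc (index_eq_one.mp h)
    have h0 : (center Q).index ≠ 0 := index_ne_zero_of_finite
    rw [← Subgroup.index_eq_card]
    omega
  have hQ' : IsPGroup p (Q ⧸ center Q) := hQ.to_quotient (center Q)
  have hnt2 : Nontrivial (center (Q ⧸ center Q)) := hQ'.center_nontrivial
  obtain ⟨⟨xb, hxb⟩, hne⟩ := exists_ne (1 : center (Q ⧸ center Q))
  obtain ⟨x, rfl⟩ := QuotientGroup.mk_surjective xb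
  refine ⟨x, ?_, ?_⟩
  · intro hx
    apply hne
    ext
    exact (QuotientGroup.eq_one_iff x).mpr hx
  · intro g
    rw [← QuotientGroup.eq_one_iff]
    simp only [QuotientGroup.mk_mul, QuotientGroup.mk_inv]
    have := mem_center_iff.mp hxb (g : Q ⧸ center Q)
    rw [this]; group

theorem zpow_red {x : Q} {p : ℕ} (hp : 0 < p) (hx : x ^ p = 1) (i : ℤ) :
    ∃ n : ℕ, n < p ∧ x ^ i = x ^ n := by
  have h0 : (0 : ℤ) ≤ i % (p : ℤ) := Int.emod_nonneg _ (by exact_mod_cast hp.ne')
  have h1 : i % (p : ℤ) < p := Int.emod_lt_of_pos _ (by exact_mod_cast hp)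
  refine ⟨(i % (p : ℤ)).toNat, by omega, ?_⟩
  rw [zpow_eq_zpow_emod' i hx, ← zpow_natCast, Int.toNat_of_nonneg h0]


/-- a nonabelian `p`-group of exponent `p` has a nonabelian subgroup of order at most `p ^ 3` -/
theorem exists_nonabelian_le_cube [Finite Q] {p : ℕ} [Fact p.Prime] (hQ : IsPGroup p Q)
    (hexp : ∀ x : Q, x ^ p = 1) (hnc : center Q ≠ ⊤) :
    ∃ T : Subgroup Q, (∃ a ∈ T, ∃ b ∈ T, a * b ≠ b * a) ∧ Nat.card T ≤ p ^ 3 := by
  have hp : 0 < p := (Fact.out : p.Prime).pos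
  obtain ⟨x, hxZ, hx⟩ := exists_second_center hQ hnc
  obtain ⟨y, hy⟩ : ∃ y, y * x ≠ x * y := by
    by_contra h; push Not at h; exact hxZ (mem_center_iff.mpr h)
  set c := x * y * x⁻¹ * y⁻¹ with hc
  have hcZ : c ∈ center Q := by
    have := (center Q).inv_mem (hx y)
    convert this using 1
    rw [hc]; group
  have hck : ∀ (k : ℤ) (g : Q), Commute (c ^ k) g := fun k g =>
    (mem_center_iff.mp ((center Q).zpow_mem hcZ k) g).symm
  have mv : ∀ (u v : Q) (k : ℤ), u * c ^ k * v = u * v * c ^ k := by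
    intro u v k
    rw [mul_assoc, (hck k v).eq, ← mul_assoc]
  have h1 : x * y * x⁻¹ = c * y := by rw [hc]; group
  have h2 : ∀ j : ℤ, x * y ^ j * x⁻¹ = c ^ j * y ^ j := by
    intro j
    have := map_zpow (MulAut.conj x) y j
    simp only [MulAut.conj_apply] at this
    have hcy : Commute c y := by have := hck 1 y; rwa [zpow_one] at this
    rw [this, h1, hcy.mul_zpow]
  have h3 : ∀ j : ℤ, (y ^ j)⁻¹ * x * y ^ j = c ^ j * x := by
    intro j
    have e := h2 j
    have e' : x * y ^ j = c ^ j * y ^ j * x := by rw [← e]; group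
    calc (y ^ j)⁻¹ * x * y ^ j = (y ^ j)⁻¹ * (x * y ^ j) := by group
      _ = (y ^ j)⁻¹ * (c ^ j * y ^ j * x) := by rw [e']
      _ = (y ^ j)⁻¹ * (y ^ j * c ^ j * x) := by rw [(hck j (y ^ j)).eq]
      _ = c ^ j * x := by group
  have h4 : ∀ i j : ℤ, (y ^ j)⁻¹ * x ^ i * y ^ j = c ^ (j * i) * x ^ i := by
    intro i j
    have := map_zpow (MulAut.conj (y ^ j)⁻¹) x i
    simp only [MulAut.conj_apply, inv_inv] at this
    rw [this, h3, (hck j x).mul_zpow, ← zpow_mul]
  have h5 : ∀ i j : ℤ, y ^ j * x ^ i = x ^ i * y ^ j * c ^ (-(j * i)) := by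
    intro i j
    have e := h4 i j
    have e' : x ^ i * y ^ j = y ^ j * (c ^ (j * i) * x ^ i) := by rw [← e]; group
    have e2 : x ^ i * y ^ j = y ^ j * x ^ i * c ^ (j * i) := by
      rw [e', (hck (j * i) (x ^ i)).eq, mul_assoc]
    rw [e2]; group
  let T : Subgroup Q :=
    { carrier := {g | ∃ i j k : ℤ, g = x ^ i * y ^ j * c ^ k}
      one_mem' := ⟨0, 0, 0, by simp⟩
      mul_mem' := by
        rintro _ _ ⟨i, j, k, rfl⟩ ⟨i', j', k', rfl⟩
        refine ⟨i + i', j + j', k + k' - j * i', ?_⟩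
        calc x ^ i * y ^ j * c ^ k * (x ^ i' * y ^ j' * c ^ k')
            = x ^ i * y ^ j * (x ^ i' * y ^ j' * c ^ k') * c ^ k := mv _ _ _
          _ = x ^ i * (y ^ j * x ^ i') * (y ^ j' * c ^ k' * c ^ k) := by group
          _ = x ^ i * (x ^ i' * y ^ j * c ^ (-(j * i'))) * (y ^ j' * c ^ k' * c ^ k) := by
              rw [h5]
          _ = x ^ (i + i') * y ^ j * c ^ (-(j * i')) * y ^ j' * c ^ (k' + k) := by group
          _ = x ^ (i + i') * y ^ j * y ^ j' * c ^ (-(j * i')) * c ^ (k' + k) := by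
              rw [mv (x ^ (i + i') * y ^ j) (y ^ j') (-(j * i'))]
          _ = x ^ (i + i') * y ^ (j + j') * c ^ (k + k' - j * i') := by group
      inv_mem' := by
        rintro _ ⟨i, j, k, rfl⟩
        refine ⟨-i, -j, -(j * i) - k, ?_⟩
        calc (x ^ i * y ^ j * c ^ k)⁻¹ = c ^ (-k) * (y ^ (-j) * x ^ (-i)) := by group
          _ = c ^ (-k) * (x ^ (-i) * y ^ (-j) * c ^ (-((-j) * (-i)))) := by rw [h5]
          _ = (x ^ (-i) * y ^ (-j) * c ^ (-((-j) * (-i)))) * c ^ (-k) := (hck (-k) _).eq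
          _ = x ^ (-i) * y ^ (-j) * c ^ (-(j * i) - k) := by group }
  have hxT : x ∈ T := ⟨1, 0, 0, by simp⟩
  have hyT : y ∈ T := ⟨0, 1, 0, by simp⟩
  refine ⟨T, ⟨y, hyT, x, hxT, hy⟩, ?_⟩
  let F : Fin p × Fin p × Fin p → Q := fun v => x ^ (v.1 : ℕ) * y ^ (v.2.1 : ℕ) * c ^ (v.2.2 : ℕ)
  have hsub : (T : Set Q) ⊆ Set.range F := by
    rintro _ ⟨i, j, k, rfl⟩
    obtain ⟨a, ha, hxa⟩ := zpow_red hp (hexp x) i
    obtain ⟨b, hb, hyb⟩ := zpow_red hp (hexp y) j
    obtain ⟨d, hd, hcd⟩ := zpow_red hp (hexp c) k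
    exact ⟨(⟨a, ha⟩, ⟨b, hb⟩, ⟨d, hd⟩), by simp only [F]; rw [hxa, hyb, hcd]⟩
  calc Nat.card T = (T : Set Q).ncard := Nat.card_coe_set_eq (T : Set Q)
    _ ≤ (Set.range F).ncard := Set.ncard_le_ncard hsub (Set.toFinite _)
    _ = (F '' Set.univ).ncard := by rw [Set.image_univ]
    _ ≤ (Set.univ : Set (Fin p × Fin p × Fin p)).ncard := Set.ncard_image_le (Set.toFinite _)
    _ = p ^ 3 := by
        rw [Set.ncard_univ, Nat.card_eq_fintype_card]
        simp only [Fintype.card_prod, Fintype.card_fin]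
        ring


theorem card_lt_of_lt' [Finite Q] {A B : Subgroup Q} (h : A < B) : Nat.card A < Nat.card B := by
  by_contra hc
  exact h.ne (Subgroup.eq_of_le_of_card_ge h.le (not_lt.mp hc))

/-- a nonabelian `p`-group of order at least `p ^ 4` has an abelian subgroup of order at least
`p ^ 3` -/
theorem exists_abelian_ge_cube [Finite Q] {p : ℕ} [Fact p.Prime] (hQ : IsPGroup p Q)
    (hnc : center Q ≠ ⊤) (hcard : p ^ 4 ≤ Nat.card Q) :
    ∃ A : Subgroup Q, (∀ a ∈ A, ∀ b ∈ A, a * b = b * a) ∧ p ^ 3 ≤ Nat.card A := by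
  have hp : p.Prime := Fact.out
  obtain ⟨x, hxZ, hx⟩ := exists_second_center hQ hnc
  set A₀ := centralizer (centralizer ({x} : Set Q) : Set Q) with hA₀
  have hA₀c := dc_comm ({x} : Set Q) (by simp)
  have hxA₀ : x ∈ A₀ := subset_dc _ (Set.mem_singleton x)
  have hZA₀ : center Q ≤ A₀ := center_le_centralizer _
  by_cases h3 : p ^ 3 ≤ Nat.card A₀
  · exact ⟨A₀, hA₀c, h3⟩
  have hZlt : Nat.card (center Q) < Nat.card A₀ :=
    card_lt_of_lt' (lt_of_le_of_ne hZA₀ (fun h => hxZ (h ▸ hxA₀)))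
  obtain ⟨a, ha⟩ := (IsPGroup.iff_card).mp (hQ.to_subgroup A₀)
  obtain ⟨z, hz⟩ := (IsPGroup.iff_card).mp (hQ.to_subgroup (center Q))
  have hQnt : Nontrivial Q := by
    by_contra hn
    rw [not_nontrivial_iff_subsingleton] at hn
    exact hnc (Subsingleton.elim _ _)
  have hZnt : Nontrivial (center Q) := hQ.center_nontrivial
  have hz1 : 1 ≤ z := by
    rcases Nat.eq_zero_or_pos z with h0 | h0
    · rw [h0, pow_zero] at hz
      have := (Finite.one_lt_card_iff_nontrivial).mpr hZnt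
      omega
    · exact h0
  have ha3 : a < 3 := by
    rw [ha] at h3
    by_contra hcon
    exact h3 (Nat.pow_le_pow_right hp.pos (not_lt.mp hcon))
  have hza : z < a := by
    rw [ha, hz] at hZlt
    exact (Nat.pow_lt_pow_iff_right hp.one_lt).mp hZlt
  have ha2 : a = 2 := by omega
  have hz1' : z = 1 := by omega
  rw [hz1', pow_one] at hz
  rw [ha2] at ha
  -- the commutator homomorphism
  let φ : Q →* center Q := MonoidHom.mk' (fun g => ⟨g * x * g⁻¹ * x⁻¹, hx g⟩) (by
    intro g h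
    ext
    simp only [Subgroup.coe_mul]
    have hc := mem_center_iff.mp (hx h)
    calc g * h * x * (g * h)⁻¹ * x⁻¹ = g * (h * x * h⁻¹ * x⁻¹) * x * g⁻¹ * x⁻¹ := by group
      _ = (h * x * h⁻¹ * x⁻¹) * g * x * g⁻¹ * x⁻¹ := by rw [hc g]
      _ = (h * x * h⁻¹ * x⁻¹) * (g * x * g⁻¹ * x⁻¹) := by group
      _ = (g * x * g⁻¹ * x⁻¹) * (h * x * h⁻¹ * x⁻¹) := (hc _).symm)
  have hker : φ.ker = centralizer ({x} : Set Q) := by
    ext g
    rw [MonoidHom.mem_ker, mem_centralizer_iff]
    constructor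
    · intro h t ht
      rw [Set.mem_singleton_iff] at ht
      subst ht
      have h' : g * t * g⁻¹ * t⁻¹ = 1 := congrArg Subtype.val h
      have : g * t = (g * t * g⁻¹ * t⁻¹) * (t * g) := by group
      rw [this, h', one_mul]
    · intro h
      have h' := h x (Set.mem_singleton x)
      apply Subtype.ext
      show g * x * g⁻¹ * x⁻¹ = 1
      rw [← h']; group
  have hidx : (centralizer ({x} : Set Q)).index ≤ p := by
    rw [← hker, Subgroup.index_ker]
    calc Nat.card φ.range ≤ Nat.card (center Q) := Subgroup.card_le_card_group _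
      _ = p := hz
  have hCcard : p ^ 3 ≤ Nat.card (centralizer ({x} : Set Q)) := by
    have h1 := Subgroup.card_mul_index (centralizer ({x} : Set Q))
    by_contra hcon
    push Not at hcon
    have : Nat.card (centralizer ({x} : Set Q)) * (centralizer ({x} : Set Q)).index < p ^ 3 * p := by
      calc Nat.card (centralizer ({x} : Set Q)) * (centralizer ({x} : Set Q)).index
          ≤ Nat.card (centralizer ({x} : Set Q)) * p := Nat.mul_le_mul_left _ hidx
        _ < p ^ 3 * p := Nat.mul_lt_mul_of_pos_right hcon hp.pos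
    rw [h1] at this
    have e : p ^ 3 * p = p ^ 4 := by ring
    omega
  obtain ⟨y', hy'C, hy'A⟩ : ∃ y' ∈ centralizer ({x} : Set Q), y' ∉ A₀ := by
    by_contra hcon
    push Not at hcon
    have hle : centralizer ({x} : Set Q) ≤ A₀ := hcon
    have := Subgroup.card_le_of_le hle
    rw [ha] at this
    have e : p ^ 2 < p ^ 3 := Nat.pow_lt_pow_right hp.one_lt (by norm_num)
    omega
  have hxy' : y' * x = x * y' := by
    have := mem_centralizer_iff.mp hy'C x (Set.mem_singleton x)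
    exact this.symm
  refine ⟨centralizer (centralizer ({x, y'} : Set Q) : Set Q), dc_comm _ ?_, ?_⟩
  · intro u hu v hv
    simp only [Set.mem_insert_iff, Set.mem_singleton_iff] at hu hv
    rcases hu with rfl | rfl <;> rcases hv with rfl | rfl
    · rfl
    · exact hxy'.symm
    · exact hxy'
    · rfl
  · have hle : A₀ ≤ centralizer (centralizer ({x, y'} : Set Q) : Set Q) :=
      centralizer_le (centralizer_le (by simp))
    have hy'A' : y' ∈ centralizer (centralizer ({x, y'} : Set Q) : Set Q) :=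
      subset_dc _ (by simp)
    have hlt : Nat.card A₀ < Nat.card (centralizer (centralizer ({x, y'} : Set Q) : Set Q)) :=
      card_lt_of_lt' (lt_of_le_of_ne hle (fun h => hy'A (h ▸ hy'A')))
    obtain ⟨a', ha'⟩ := (IsPGroup.iff_card).mp
      (hQ.to_subgroup (centralizer (centralizer ({x, y'} : Set Q) : Set Q)))
    rw [ha, ha'] at hlt
    rw [ha']
    have : 2 < a' := (Nat.pow_lt_pow_iff_right hp.one_lt).mp hlt
    exact Nat.pow_le_pow_right hp.pos this

open QuaternionGroup in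
/-- a generalized quaternion group of order at least `16` has a commutative and a
non-commutative subgroup of the same order -/
theorem quat_two_index_two {N : ℕ} (hN : 4 ≤ N) (hev : Even N) :
    ∃ K₁ K₂ : Subgroup (QuaternionGroup N), Nat.card K₁ = Nat.card K₂ ∧
      (∀ u ∈ K₁, ∀ v ∈ K₁, u * v = v * u) ∧ (∃ u ∈ K₂, ∃ v ∈ K₂, u * v ≠ v * u) := by
  have : NeZero N := ⟨by omega⟩
  have hdvd : 2 ∣ 2 * N := dvd_mul_right 2 N
  let c : ZMod (2 * N) →+* ZMod 2 := ZMod.castHom hdvd (ZMod 2)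
  have hcN : c (N : ZMod (2 * N)) = 0 := by
    rw [map_natCast]; exact (ZMod.natCast_eq_zero_iff_even).mpr hev
  have hneg : ∀ u : ZMod 2, -u = u := by decide
  let χ : QuaternionGroup N →* Multiplicative (ZMod 2) := MonoidHom.mk'
    (fun q => match q with
      | a i => Multiplicative.ofAdd (c i)
      | xa i => Multiplicative.ofAdd (c i))
    (by
      intro q q'
      rcases q with i | i <;> rcases q' with j | j
      · simp only [a_mul_a, map_add, ofAdd_add]
      · simp only [a_mul_xa]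
        show Multiplicative.ofAdd (c (j - i)) = Multiplicative.ofAdd (c i) * Multiplicative.ofAdd (c j)
        rw [← ofAdd_add, map_sub, sub_eq_add_neg, hneg, add_comm]
      · simp only [xa_mul_a, map_add, ofAdd_add]
      · simp only [xa_mul_xa]
        show Multiplicative.ofAdd (c ((N : ZMod (2 * N)) + j - i)) =
          Multiplicative.ofAdd (c i) * Multiplicative.ofAdd (c j)
        rw [← ofAdd_add, map_sub, map_add, hcN, zero_add, sub_eq_add_neg, hneg, add_comm])
  have hχa : ∀ i, χ (a i) = Multiplicative.ofAdd (c i) := fun i => rfl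
  have hχxa : ∀ i, χ (xa i) = Multiplicative.ofAdd (c i) := fun i => rfl
  refine ⟨Subgroup.zpowers (a 1), χ.ker, ?_, ?_, ?_⟩
  · rw [Nat.card_zpowers, orderOf_a_one]
    have h1 : χ.ker.index = 2 := by
      rw [Subgroup.index_ker]
      have hd : Nat.card χ.range ∣ 2 := by
        have := Subgroup.card_subgroup_dvd_card χ.range
        have h2c : Nat.card (Multiplicative (ZMod 2)) = 2 := by
          rw [Nat.card_eq_fintype_card]; rfl
        rwa [h2c] at this
      rcases (Nat.dvd_prime Nat.prime_two).mp hd with h | h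
      · exfalso
        have hb : χ.range = ⊥ := Subgroup.card_eq_one.mp h
        have hm : χ (a 1) ∈ χ.range := ⟨a 1, rfl⟩
        rw [hb, Subgroup.mem_bot, hχa, map_one] at hm
        exact absurd hm (by decide)
      · exact h
    have h2 := Subgroup.card_mul_index χ.ker
    rw [h1, Nat.card_eq_fintype_card (α := QuaternionGroup N), QuaternionGroup.card] at h2
    omega
  · intro u hu v hv
    obtain ⟨m, rfl⟩ := Subgroup.mem_zpowers_iff.mp hu
    obtain ⟨n, rfl⟩ := Subgroup.mem_zpowers_iff.mp hv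
    exact (Commute.zpow_zpow_self (a 1) m n).eq
  · refine ⟨a 2, ?_, xa 0, ?_, ?_⟩
    · rw [MonoidHom.mem_ker, hχa, map_ofNat]; decide
    · rw [MonoidHom.mem_ker, hχxa, map_zero]; rfl
    · rw [a_mul_xa, xa_mul_a]
      intro h
      have h' : (0 : ZMod (2 * N)) - 2 = 0 + 2 := xa.inj h
      have h4 : ((4 : ℕ) : ZMod (2 * N)) = 0 := by
        push_cast
        linear_combination -h'
      rw [ZMod.natCast_eq_zero_iff] at h4
      have := Nat.le_of_dvd (by norm_num) h4
      omega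


open scoped Pointwise in
/-- a `p`-group with two distinct subgroups of order `p` has a subgroup of order `p ^ 2` and
exponent `p` -/
theorem exists_sq_exp [Finite Q] {p : ℕ} [Fact p.Prime] (hQ : IsPGroup p Q) (H K : Subgroup Q)
    (hH : Nat.card H = p) (hK : Nat.card K = p) (hHK : H ≠ K) :
    ∃ E : Subgroup Q, Nat.card E = p ^ 2 ∧ ∀ x ∈ E, x ^ p = 1 := by
  have hp : p.Prime := Fact.out
  have hnt : Nontrivial Q := by
    have h1 : 1 < Nat.card H := by rw [hH]; exact hp.one_lt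
    have : 1 < Nat.card Q := lt_of_lt_of_le h1 (Subgroup.card_le_card_group H)
    exact Finite.one_lt_card_iff_nontrivial.mp this
  have hZnt : Nontrivial (center Q) := hQ.center_nontrivial
  obtain ⟨z, hzZ, hzo⟩ : ∃ z ∈ center Q, orderOf z = p := by
    have hdvd : p ∣ Nat.card (center Q) := by
      obtain ⟨k, hk⟩ := (IsPGroup.iff_card).mp (hQ.to_subgroup (center Q))
      have h1 : 1 < Nat.card (center Q) := Finite.one_lt_card_iff_nontrivial.mpr hZnt
      rw [hk] at h1 ⊢
      exact dvd_pow_self p (by rintro rfl; simp at h1)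
    obtain ⟨⟨z, hz⟩, hzo⟩ := exists_prime_orderOf_dvd_card' p hdvd
    exact ⟨z, hz, by rwa [Subgroup.orderOf_mk] at hzo⟩
  set Z₀ := zpowers z with hZ₀
  have hZ₀card : Nat.card Z₀ = p := by rw [Nat.card_zpowers, hzo]
  obtain ⟨H', hH', hH'Z⟩ : ∃ H' : Subgroup Q, Nat.card H' = p ∧ H' ≠ Z₀ := by
    by_cases h : H = Z₀
    · exact ⟨K, hK, fun hk => hHK (h.trans hk.symm)⟩
    · exact ⟨H, hH, h⟩
  obtain ⟨h, hhH, hhZ⟩ : ∃ h ∈ H', h ∉ Z₀ := by
    by_contra hcon
    push Not at hcon
    exact hH'Z (Subgroup.eq_of_le_of_card_ge hcon (by rw [hH', hZ₀card]))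
  have hhp : h ^ p = 1 := by
    have h1 : (⟨h, hhH⟩ : H') ^ Nat.card H' = 1 := pow_card_eq_one'
    rw [hH'] at h1
    have := congrArg Subtype.val h1
    simpa using this
  have hh1 : h ≠ 1 := fun h1 => hhZ (h1 ▸ Z₀.one_mem)
  have hho : orderOf h = p := orderOf_eq_prime hhp hh1
  have hzp : z ^ p = 1 := by
    have := pow_orderOf_eq_one z
    rwa [hzo] at this
  have hZ₀c : Z₀ ≤ center Q := zpowers_le.mpr hzZ
  have hZn : Z₀.Normal := by
    refine ⟨fun n hn g => ?_⟩
    have hnc : n ∈ center Q := hZ₀c hn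
    have : g * n * g⁻¹ = n := by
      rw [mem_center_iff.mp hnc g, mul_inv_cancel_right]
    rw [this]; exact hn
  set E := zpowers h ⊔ Z₀ with hE
  have hEset : (E : Set Q) = (zpowers h : Set Q) * (Z₀ : Set Q) := Subgroup.mul_normal _ _
  have hEexp : ∀ x ∈ E, x ^ p = 1 := by
    intro x hx
    have hx' : x ∈ (E : Set Q) := hx
    rw [hEset] at hx'
    obtain ⟨u, hu, v, hv, rfl⟩ := Set.mem_mul.mp hx'
    have hvc : v ∈ center Q := hZ₀c hv
    have hcomm : Commute u v := mem_center_iff.mp hvc u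
    rw [hcomm.mul_pow]
    obtain ⟨m, rfl⟩ := mem_zpowers_iff.mp hu
    obtain ⟨n, rfl⟩ := mem_zpowers_iff.mp hv
    rw [← zpow_natCast, ← zpow_natCast, ← zpow_mul, ← zpow_mul, mul_comm m, mul_comm n,
      zpow_mul, zpow_mul, zpow_natCast, zpow_natCast, hhp, hzp, one_zpow, one_zpow, one_mul]
  refine ⟨E, ?_, hEexp⟩
  have hle : Nat.card E ≤ p * p := by
    calc Nat.card E = Nat.card ((E : Set Q)) := rfl
      _ = Nat.card (((zpowers h : Set Q) * (Z₀ : Set Q) : Set Q)) := by rw [hEset]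
      _ ≤ Nat.card (zpowers h : Set Q) * Nat.card (Z₀ : Set Q) := Set.natCard_mul_le
      _ = p * p := by
          show Nat.card (zpowers h) * Nat.card Z₀ = p * p
          rw [Nat.card_zpowers, hho, hZ₀card]
  have hlt : p < Nat.card E := by
    have h1 : Z₀ < E := lt_of_le_of_ne le_sup_right (fun heq => hhZ
      (heq ▸ (le_sup_left : zpowers h ≤ E) (mem_zpowers h)))
    have := card_lt_of_lt' h1
    rwa [hZ₀card] at this
  obtain ⟨k, hk⟩ := (IsPGroup.iff_card).mp (hQ.to_subgroup E)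
  rw [hk] at hle hlt ⊢
  have h1 : 1 < k := by
    have : p ^ 1 < p ^ k := by rwa [pow_one]
    exact (Nat.pow_lt_pow_iff_right hp.one_lt).mp this
  have h2 : k ≤ 2 := by
    have : p ^ k ≤ p ^ 2 := by rwa [pow_two]
    exact (Nat.pow_le_pow_iff_right hp.one_lt).mp this
  have : k = 2 := by omega
  rw [this]

/-- an element of a `p`-group with `x ^ p ≠ 1` has a power of order `p ^ 2` -/
theorem exists_orderOf_sq [Finite Q] {p : ℕ} [Fact p.Prime] (hQ : IsPGroup p Q) (x : Q)
    (hx : x ^ p ≠ 1) : ∃ y : Q, orderOf y = p ^ 2 := by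
  have hp : p.Prime := Fact.out
  obtain ⟨k, hk⟩ := hQ x
  obtain ⟨j, hjk, hj⟩ := (Nat.dvd_prime_pow hp).mp (orderOf_dvd_of_pow_eq_one hk)
  have hj2 : 2 ≤ j := by
    by_contra hcon
    push Not at hcon
    apply hx
    interval_cases j
    · rw [pow_zero, orderOf_eq_one_iff] at hj
      rw [hj, one_pow]
    · rw [pow_one] at hj
      have := pow_orderOf_eq_one x
      rwa [hj] at this
  refine ⟨x ^ (p ^ (j - 2)), ?_⟩
  rw [orderOf_pow_of_dvd (pow_ne_zero _ hp.ne_zero)
    (by rw [hj]; exact pow_dvd_pow p (by omega)), hj, Nat.pow_div (by omega) hp.pos]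
  congr 1; omega

end EqOrd

end Cfsg.Agent.Lib.Helper43
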