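import Mathlib
import Cfsg.Agent.Lib.Helper84.GADefs

/-!
# Project GA (S4840, helper84), piece REP

`rep : RepStmt`: the quotient of `G` by its `p`-core, as a linear group over `ZMod p` on the
additive version of an elementary abelian normal subgroup `N` with `C_G(N) = O_p(G)`.
-/

set_option autoImplicit false

namespace Cfsg.Agent.Lib.Helper43.GA

universe u

open Cfsg.Agent.Lib.Helper84.GA

open scoped IsMulCommutative

/-- a group acting by automorphisms on a commutative group, as a linear representation over
`ZMod p` on its additive version (for any `ZMod p`-module structure on it) -/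
noncomputable def linRep {G : Type u} [Group G] {A : Type u} [CommGroup A] (p : ℕ)
    [Module (ZMod p) (Additive A)] (φ : G →* MulAut A) :
    G →* (Additive A ≃ₗ[ZMod p] Additive A) where
  toFun g :=
    { MulEquiv.toAdditive (φ g) with
      map_smul' := fun c v => ZMod.map_smul (MulEquiv.toAdditive (φ g)) c v }
  map_one' := by
    ext v
    simp
  map_mul' g h := by
    ext v
    simp

theorem linRep_apply {G : Type u} [Group G] {A : Type u} [CommGroup A] (p : ℕ)
    [Module (ZMod p) (Additive A)] (φ : G →* MulAut A) (g : G) (v : Additive A) :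
    linRep p φ g v = Additive.ofMul (φ g v.toMul) := rfl

theorem rep : RepStmt.{u} := by
  intro G _ _ p _ N hN hNbot hEA htrans hstab hcent
  classical
  have hp : p.Prime := Fact.out
  haveI : IsMulCommutative ↥N := hEA.1
  have hpow : ∀ v : Additive ↥N, p • v = 0 := by
    intro v
    have h1 : (v.toMul) ^ p = 1 := by
      apply Subtype.ext
      rw [Subgroup.coe_pow, Subgroup.coe_one]
      exact hEA.2 _ v.toMul.2
    have h2 : p • v = Additive.ofMul (v.toMul ^ p) := rfl
    rw [h2, h1]
    rfl
  haveI : Module (ZMod p) (Additive ↥N) := AddCommGroup.zmodModule hpow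
  obtain ⟨ρ₀, hρ₀⟩ : ∃ ρ₀ : G →* (Additive ↥N ≃ₗ[ZMod p] Additive ↥N),
      ∀ (g : G) (v : Additive ↥N), ((ρ₀ g v).toMul : G) = g * (v.toMul : G) * g⁻¹ := by
    refine ⟨linRep p (MulAut.conjNormal (H := N)), ?_⟩
    intro g v
    rw [linRep_apply]
    simp [MulAut.conjNormal_apply]
  have hker : Cfsg.pCore p G ≤ ρ₀.ker := by
    intro g hg
    rw [MonoidHom.mem_ker]
    ext v
    have hg' : g ∈ Subgroup.centralizer (N : Set G) := by rw [hcent]; exact hg
    have h1 := Subgroup.mem_centralizer_iff.mp hg' (v.toMul : G) v.toMul.2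
    have h2 := hρ₀ g v
    have h3 : ((ρ₀ g v).toMul : G) = (v.toMul : G) := by
      rw [h2, ← h1, mul_inv_cancel_right]
    exact h3
  haveI : Nontrivial ↥N := (Subgroup.nontrivial_iff_ne_bot N).mpr hNbot
  have hmk : ∀ (g : G) (v : Additive ↥N),
      QuotientGroup.lift (Cfsg.pCore p G) ρ₀ hker (QuotientGroup.mk g) v = ρ₀ g v :=
    fun g v => rfl
  refine ⟨Additive ↥N, inferInstance, inferInstance, inferInstance, inferInstance,
    QuotientGroup.lift (Cfsg.pCore p G) ρ₀ hker, ?_, ?_, ?_⟩
  · -- injectivity
    refine (injective_iff_map_eq_one _).mpr ?_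
    intro a ha
    induction a using QuotientGroup.induction_on with
    | H g =>
      rw [QuotientGroup.eq_one_iff, ← hcent, Subgroup.mem_centralizer_iff]
      intro x hx
      have h1 := hmk g (Additive.ofMul ⟨x, hx⟩)
      rw [ha] at h1
      have h2 := hρ₀ g (Additive.ofMul ⟨x, hx⟩)
      rw [← h1] at h2
      have h3 : x = g * x * g⁻¹ := h2
      calc x * g = g * x * g⁻¹ * g := by rw [← h3]
        _ = g * x := by group
  · -- transitivity
    intro v w hv hw
    have hv' : (v.toMul : G) ≠ 1 := by
      intro h
      apply hv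
      have h1 : v.toMul = 1 := Subtype.ext h
      exact h1
    have hw' : (w.toMul : G) ≠ 1 := by
      intro h
      apply hw
      have h1 : w.toMul = 1 := Subtype.ext h
      exact h1
    obtain ⟨g, hg⟩ := htrans _ v.toMul.2 _ w.toMul.2 hv' hw'
    refine ⟨QuotientGroup.mk g, ?_⟩
    rw [hmk]
    have h2 := hρ₀ g v
    rw [hg] at h2
    have h3 : (ρ₀ g v).toMul = w.toMul := Subtype.ext h2
    exact h3
  · -- stabilisers
    intro v hv a ha
    have hv' : (v.toMul : G) ≠ 1 := by
      intro h
      apply hv
      have h1 : v.toMul = 1 := Subtype.ext h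
      exact h1
    induction a using QuotientGroup.induction_on with
    | H g =>
      rw [hmk] at ha
      have h2 := hρ₀ g v
      rw [ha] at h2
      have hgc : g ∈ Subgroup.centralizer ({(v.toMul : G)} : Set G) := by
        rw [Subgroup.mem_centralizer_singleton_iff]
        calc g * (v.toMul : G) = g * (v.toMul : G) * g⁻¹ * g := by group
          _ = (v.toMul : G) * g := by rw [← h2]
      obtain ⟨P, hP⟩ := hstab _ v.toMul.2 hv'
      rw [hP] at hgc
      obtain ⟨k, hk⟩ := P.isPGroup' ⟨g, hgc⟩
      have hk' : g ^ p ^ k = 1 := by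
        have := congrArg Subtype.val hk
        simpa using this
      have hdvd : orderOf (QuotientGroup.mk g : G ⧸ Cfsg.pCore p G) ∣ p ^ k := by
        apply orderOf_dvd_of_pow_eq_one
        rw [← QuotientGroup.mk_pow, hk']
        rfl
      obtain ⟨j, -, hj⟩ := (Nat.dvd_prime_pow hp).1 hdvd
      exact ⟨j, hj⟩

end Cfsg.Agent.Lib.Helper43.GA
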