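import Mathlib

/-!
# S3304 piece F (helper43, for helper61): a frame `i, j, x` for a normal self-centralizing `Q₈`
-/

set_option autoImplicit false

namespace Cfsg.Agent.Lib.Helper43.GL23F

open QuaternionGroup

/-- the action of an endomorphism of `Q₈` in terms of the images of the generators -/
def qf (u w : QuaternionGroup 2) : QuaternionGroup 2 → QuaternionGroup 2
  | QuaternionGroup.a k => u ^ k.val
  | QuaternionGroup.xa k => w * u ^ k.val

theorem qf_eq (β : MulAut (QuaternionGroup 2)) (g : QuaternionGroup 2) :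
    β g = qf (β (a 1)) (β (xa 0)) g := by
  cases g with
  | a k =>
    show β (QuaternionGroup.a k) = (β (QuaternionGroup.a 1)) ^ k.val
    rw [← map_pow, QuaternionGroup.a_one_pow, ZMod.natCast_zmod_val]
  | xa k =>
    show β (QuaternionGroup.xa k) = β (QuaternionGroup.xa 0) * β (QuaternionGroup.a 1) ^ k.val
    rw [← map_pow, ← map_mul, QuaternionGroup.a_one_pow, QuaternionGroup.xa_mul_a, zero_add,
      ZMod.natCast_zmod_val]

theorem aut_ext (φ ψ : MulAut (QuaternionGroup 2)) (h1 : φ (a 1) = ψ (a 1))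
    (h2 : φ (xa 0) = ψ (xa 0)) : φ = ψ := by
  apply MulEquiv.ext
  intro g
  rw [qf_eq φ, qf_eq ψ, h1, h2]

theorem q8_inv_unique : ∀ g : QuaternionGroup 2, g * g = 1 → g ≠ 1 → g = a 2 := by decide

theorem q8_pow_four : ∀ g : QuaternionGroup 2, g ^ 4 = 1 := by decide

theorem aut_a2 (φ : MulAut (QuaternionGroup 2)) : φ (a 2) = a 2 := by
  apply q8_inv_unique
  · rw [← map_mul]
    have : (a 2 : QuaternionGroup 2) * a 2 = 1 := by decide
    rw [this, map_one]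
  · intro h
    have h1 : (a 2 : QuaternionGroup 2) = 1 := φ.injective (h.trans (map_one φ).symm)
    revert h1
    decide

theorem aut_valid (φ : MulAut (QuaternionGroup 2)) :
    φ (a 1) * φ (a 1) = a 2 ∧ φ (xa 0) * φ (xa 0) = a 2 ∧
      φ (a 1) * φ (xa 0) = φ (xa 0) * (φ (a 1))⁻¹ := by
  refine ⟨?_, ?_, ?_⟩
  · rw [← map_mul]
    have : (a 1 : QuaternionGroup 2) * a 1 = a 2 := by decide
    rw [this, aut_a2]
  · rw [← map_mul]
    have : (xa 0 : QuaternionGroup 2) * xa 0 = a 2 := by decide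
    rw [this, aut_a2]
  · rw [← map_inv, ← map_mul, ← map_mul]
    have : (a 1 : QuaternionGroup 2) * xa 0 = xa 0 * (a 1)⁻¹ := by decide
    rw [this]

/-- `τ ξ τ ξ⁻¹` in terms of generator images, with `ξ⁻¹ = ξ²`. -/
def gam (u w u' w' : QuaternionGroup 2) (g : QuaternionGroup 2) : QuaternionGroup 2 :=
  qf u w (qf u' w' (qf u w (qf u' w' (qf u' w' g))))

set_option synthInstance.maxHeartbeats 400000 in
set_option synthInstance.maxSize 4096 in
set_option maxRecDepth 100000 in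
set_option maxHeartbeats 4000000 in
theorem factA : ∀ u w : QuaternionGroup 2,
    u * u = a 2 → w * w = a 2 → u * w = w * u⁻¹ →
    qf u w (qf u w (a 1)) = a 1 → qf u w (qf u w (xa 0)) = xa 0 →
    (∀ q : QuaternionGroup 2, ¬ (u = q * a 1 * q⁻¹ ∧ w = q * xa 0 * q⁻¹)) →
    ∀ u' w' : QuaternionGroup 2,
    u' * u' = a 2 → w' * w' = a 2 → u' * w' = w' * u'⁻¹ →
    qf u' w' (qf u' w' (qf u' w' (a 1))) = a 1 →
    qf u' w' (qf u' w' (qf u' w' (xa 0))) = xa 0 →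
    ¬ (u' = a 1 ∧ w' = xa 0) →
    (gam u w u' w' (gam u w u' w' (gam u w u' w' (a 1))) = a 1 ∧
     gam u w u' w' (gam u w u' w' (gam u w u' w' (xa 0))) = xa 0) ∧
    ¬ (gam u w u' w' (a 1) = a 1 ∧ gam u w u' w' (xa 0) = xa 0) := by
  decide +kernel

set_option synthInstance.maxHeartbeats 400000 in
set_option synthInstance.maxSize 4096 in
set_option maxRecDepth 100000 in
set_option maxHeartbeats 4000000 in
theorem factB : ∀ u' w' : QuaternionGroup 2,
    u' * u' = a 2 → w' * w' = a 2 → u' * w' = w' * u'⁻¹ →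
    qf u' w' (qf u' w' (qf u' w' (a 1))) = a 1 →
    qf u' w' (qf u' w' (qf u' w' (xa 0))) = xa 0 →
    ¬ (u' = a 1 ∧ w' = xa 0) →
    ∀ u w : QuaternionGroup 2,
    u * u = a 2 → w * w = a 2 → u * w = w * u⁻¹ →
    qf u w (qf u w (a 1)) = a 1 → qf u w (qf u w (xa 0)) = xa 0 →
    qf u w (qf u' w' (qf u w (qf u' w' (a 1)))) = a 1 →
    qf u w (qf u' w' (qf u w (qf u' w' (xa 0)))) = xa 0 →
    ∃ i₀ j₀ : QuaternionGroup 2, i₀ ^ 4 = 1 ∧ i₀ * i₀ ≠ 1 ∧ j₀ * i₀ = i₀⁻¹ * j₀ ∧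
      j₀ * j₀ = i₀ * i₀ ∧ qf u' w' i₀ = j₀ ∧ qf u' w' j₀ = i₀ * j₀ ∧ qf u w i₀ = j₀⁻¹ := by
  decide +kernel


/-- **Piece F.** A frame `i, j, x` for a normal self-centralizing `Q₈`. -/
theorem exists_frame {H : Type*} [Group H] [Finite H] (Q : Subgroup H) (hQn : Q.Normal)
    (hQ : Nonempty (Q ≃* QuaternionGroup 2)) (hC : Subgroup.centralizer (Q : Set H) ≤ Q)
    (x₀ : H) (hx₀ : orderOf x₀ = 3) (t : H) (ht : orderOf t = 2) (htQ : t ∉ Q) :
    ∃ i j x : H, i ^ 4 = 1 ∧ i * i ≠ 1 ∧ j * i = i⁻¹ * j ∧ j * j = i * i ∧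
      x * i * x⁻¹ = j ∧ x * j * x⁻¹ = i * j ∧ x ^ 3 = 1 ∧ x ≠ 1 ∧
      t * x * t⁻¹ = x⁻¹ ∧ t * i * t⁻¹ = j⁻¹ := by
  obtain ⟨e⟩ := hQ
  -- the action on `Q₈`
  obtain ⟨β, hβdef⟩ : ∃ β : H →* MulAut (QuaternionGroup 2),
      β = (MulAut.congr e).toMonoidHom.comp (MulAut.conjNormal (H := Q)) := ⟨_, rfl⟩
  have hβ : ∀ (h : H) (q₀ : QuaternionGroup 2),
      ((e.symm (β h q₀) : Q) : H) = h * ((e.symm q₀ : Q) : H) * h⁻¹ := by
    intro h q₀
    rw [hβdef]
    show ((e.symm (e (MulAut.conjNormal h (e.symm q₀))) : Q) : H) = _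
    rw [MulEquiv.symm_apply_apply, MulAut.conjNormal_apply]
  have hker : ∀ h : H, β h = 1 → h ∈ Q := by
    intro h hh
    apply hC
    rw [Subgroup.mem_centralizer_iff]
    intro q hq
    have h1 := hβ h (e ⟨q, hq⟩)
    rw [hh, MulAut.one_apply, MulEquiv.symm_apply_apply] at h1
    have h2 : q = h * q * h⁻¹ := h1
    calc q * h = (h * q * h⁻¹) * h := by rw [← h2]
      _ = h * q := by group
  have hβQ : ∀ q : QuaternionGroup 2, β ((e.symm q : Q) : H) = MulAut.conj q := by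
    intro q
    apply MulEquiv.ext
    intro q₀
    apply e.symm.injective
    apply Subtype.ext
    rw [hβ, MulAut.conj_apply, map_mul, map_mul, map_inv]
    rfl
  -- `Q` has exponent four and order eight
  have hQ4 : ∀ q ∈ Q, q ^ 4 = 1 := by
    intro q hq
    have h1 : (e ⟨q, hq⟩) ^ 4 = 1 := q8_pow_four _
    rw [← map_pow] at h1
    have h2 : (⟨q, hq⟩ : Q) ^ 4 = 1 := e.injective (h1.trans (map_one e).symm)
    exact congrArg Subtype.val h2
  have hQcard : Nat.card Q = 8 := by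
    rw [Nat.card_congr e.toEquiv, Nat.card_eq_fintype_card, QuaternionGroup.card]
  -- the two automorphisms
  have htt : t * t = 1 := by
    have := pow_orderOf_eq_one t
    rwa [ht, pow_two] at this
  have hti : t⁻¹ = t := inv_eq_of_mul_eq_one_left htt
  have hx₀3 : x₀ ^ 3 = 1 := by
    have := pow_orderOf_eq_one x₀
    rwa [hx₀] at this
  have hττ : β t * β t = 1 := by rw [← map_mul, htt, map_one]
  have hξ3 : β x₀ * β x₀ * β x₀ = 1 := by
    rw [← map_mul, ← map_mul, ← pow_three', hx₀3, map_one]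
  have hξ1 : β x₀ ≠ 1 := by
    intro h
    have hxQ := hker x₀ h
    have h1 : orderOf (⟨x₀, hxQ⟩ : Q) = 3 := by
      rw [← hx₀]
      exact Subgroup.orderOf_mk x₀ hxQ
    have h2 := orderOf_dvd_natCard (⟨x₀, hxQ⟩ : Q)
    rw [h1, hQcard] at h2
    omega
  have hτinn : ∀ q : QuaternionGroup 2,
      ¬ (β t (a 1) = q * a 1 * q⁻¹ ∧ β t (xa 0) = q * xa 0 * q⁻¹) := by
    rintro q ⟨h1, h2⟩
    have h3 : β t = MulAut.conj q := by
      apply aut_ext
      · rw [h1, MulAut.conj_apply]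
      · rw [h2, MulAut.conj_apply]
    have h4 : β (t * (((e.symm q : Q) : H))⁻¹) = 1 := by
      rw [map_mul, map_inv, hβQ, h3, mul_inv_cancel]
    have h5 := hker _ h4
    have h6 : t = (t * (((e.symm q : Q) : H))⁻¹) * ((e.symm q : Q) : H) := by group
    rw [h6] at htQ
    exact htQ (Q.mul_mem h5 (e.symm q).2)
  -- finite fact A
  have hτg : ∀ g, β t g = qf (β t (a 1)) (β t (xa 0)) g := qf_eq (β t)
  have hξg : ∀ g, β x₀ g = qf (β x₀ (a 1)) (β x₀ (xa 0)) g := qf_eq (β x₀)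
  have hττg : ∀ g, β t (β t g) = g := by
    intro g
    have := congrArg (fun φ : MulAut (QuaternionGroup 2) => φ g) hττ
    simpa using this
  have hξ3g : ∀ g, β x₀ (β x₀ (β x₀ g)) = g := by
    intro g
    have := congrArg (fun φ : MulAut (QuaternionGroup 2) => φ g) hξ3
    simpa using this
  obtain ⟨v1, v2, v3⟩ := aut_valid (β t)
  obtain ⟨v1', v2', v3'⟩ := aut_valid (β x₀)
  have hA := factA (β t (a 1)) (β t (xa 0)) v1 v2 v3
    (by rw [← hτg, ← hτg]; exact hττg _) (by rw [← hτg, ← hτg]; exact hττg _) hτinn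
    (β x₀ (a 1)) (β x₀ (xa 0)) v1' v2' v3'
    (by rw [← hξg, ← hξg, ← hξg]; exact hξ3g _) (by rw [← hξg, ← hξg, ← hξg]; exact hξ3g _)
    (by
      rintro ⟨h1, h2⟩
      apply hξ1
      apply aut_ext
      · rw [h1, MulAut.one_apply]
      · rw [h2, MulAut.one_apply])
  -- the element `c`
  obtain ⟨c, hcdef⟩ : ∃ c : H, c = t * (x₀ * t * x₀⁻¹) := ⟨_, rfl⟩
  have hγg : ∀ g, β c g = gam (β t (a 1)) (β t (xa 0)) (β x₀ (a 1)) (β x₀ (xa 0)) g := by
    intro g
    have h1 : (β x₀)⁻¹ g = β x₀ (β x₀ g) := by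
      rw [MulAut.inv_apply, MulEquiv.symm_apply_eq]
      exact (hξ3g g).symm
    rw [hcdef, map_mul, map_mul, map_mul, map_inv]
    show β t (β x₀ (β t ((β x₀)⁻¹ g))) = _
    rw [h1]
    unfold gam
    rw [← hξg, ← hξg, ← hτg, ← hξg, ← hτg]
  have hγ3 : β c ^ 3 = 1 := by
    apply aut_ext
    · show (β c ^ 3) (a 1) = a 1
      rw [pow_three]
      show β c (β c (β c (a 1))) = a 1
      rw [hγg, hγg, hγg]
      exact hA.1.1
    · show (β c ^ 3) (xa 0) = xa 0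
      rw [pow_three]
      show β c (β c (β c (xa 0))) = xa 0
      rw [hγg, hγg, hγg]
      exact hA.1.2
  have hγ1 : β c ≠ 1 := by
    intro h
    apply hA.2
    rw [← hγg, ← hγg, h]
    exact ⟨rfl, rfl⟩
  have hc3Q : c ^ 3 ∈ Q := hker _ (by rw [map_pow, hγ3])
  have hc12 : c ^ 12 = 1 := by
    have := hQ4 _ hc3Q
    rwa [← pow_mul] at this
  have hx3 : (c ^ 4) ^ 3 = 1 := by
    rw [← pow_mul]
    exact hc12
  have hβx : β (c ^ 4) = β c := by
    rw [map_pow, show (4 : ℕ) = 3 + 1 from rfl, pow_add, hγ3, one_mul, pow_one]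
  have hx1 : c ^ 4 ≠ 1 := by
    intro h
    apply hγ1
    rw [← hβx, h, map_one]
  have htc : t * c * t⁻¹ = c⁻¹ := by
    have hs : (x₀ * t * x₀⁻¹) * (x₀ * t * x₀⁻¹) = 1 := by
      calc (x₀ * t * x₀⁻¹) * (x₀ * t * x₀⁻¹) = x₀ * (t * t) * x₀⁻¹ := by group
        _ = 1 := by rw [htt]; group
    have hsi : (x₀ * t * x₀⁻¹)⁻¹ = x₀ * t * x₀⁻¹ := inv_eq_of_mul_eq_one_left hs
    rw [hcdef, mul_inv_rev, hsi]
    calc t * (t * (x₀ * t * x₀⁻¹)) * t⁻¹ = (t * t) * (x₀ * t * x₀⁻¹) * t⁻¹ := by group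
      _ = x₀ * t * x₀⁻¹ * t⁻¹ := by rw [htt, one_mul]
  have htx : t * c ^ 4 * t⁻¹ = (c ^ 4)⁻¹ := by
    rw [← conj_pow, htc, inv_pow]
  -- finite fact B
  have hxg : ∀ g, β (c ^ 4) g = qf (β (c ^ 4) (a 1)) (β (c ^ 4) (xa 0)) g := qf_eq (β (c ^ 4))
  have hx3g : ∀ g, β (c ^ 4) (β (c ^ 4) (β (c ^ 4) g)) = g := by
    intro g
    have h1 : β (c ^ 4) * β (c ^ 4) * β (c ^ 4) = 1 := by
      rw [← map_mul, ← map_mul, ← pow_three', hx3, map_one]
    have := congrArg (fun φ : MulAut (QuaternionGroup 2) => φ g) h1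
    simpa using this
  have htxg : ∀ g, β t (β (c ^ 4) (β t (β (c ^ 4) g))) = g := by
    intro g
    have h0 : t * c ^ 4 * (t * c ^ 4) = 1 := by
      have : t * c ^ 4 * t = (c ^ 4)⁻¹ := by rw [← htx, hti]
      calc t * c ^ 4 * (t * c ^ 4) = (t * c ^ 4 * t) * c ^ 4 := by group
        _ = 1 := by rw [this, inv_mul_cancel]
    have h1 : β t * β (c ^ 4) * (β t * β (c ^ 4)) = 1 := by
      rw [← map_mul, ← map_mul, h0, map_one]
    have := congrArg (fun φ : MulAut (QuaternionGroup 2) => φ g) h1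
    simpa using this
  obtain ⟨w1, w2, w3⟩ := aut_valid (β (c ^ 4))
  obtain ⟨i₀, j₀, hi4, hi2, hji, hjj, hxi, hxj, hti₀⟩ :=
    factB (β (c ^ 4) (a 1)) (β (c ^ 4) (xa 0)) w1 w2 w3
      (by rw [← hxg, ← hxg, ← hxg]; exact hx3g _) (by rw [← hxg, ← hxg, ← hxg]; exact hx3g _)
      (by
        rintro ⟨h1, h2⟩
        apply hγ1
        rw [← hβx]
        apply aut_ext
        · rw [h1, MulAut.one_apply]
        · rw [h2, MulAut.one_apply])
      (β t (a 1)) (β t (xa 0)) v1 v2 v3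
      (by rw [← hτg, ← hτg]; exact hττg _) (by rw [← hτg, ← hτg]; exact hττg _)
      (by rw [← hxg, ← hτg, ← hxg, ← hτg]; exact htxg _)
      (by rw [← hxg, ← hτg, ← hxg, ← hτg]; exact htxg _)
  rw [← hxg] at hxi hxj
  rw [← hτg] at hti₀
  refine ⟨((e.symm i₀ : Q) : H), ((e.symm j₀ : Q) : H), c ^ 4, ?_, ?_, ?_, ?_, ?_, ?_, hx3, hx1,
    htx, ?_⟩
  · have h1 : (e.symm i₀) ^ 4 = 1 := by rw [← map_pow, hi4, map_one]
    exact congrArg Subtype.val h1
  · intro h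
    apply hi2
    have h1 : e.symm (i₀ * i₀) = 1 := by
      rw [map_mul]
      exact Subtype.ext h
    exact e.symm.injective (h1.trans (map_one e.symm).symm)
  · have h1 : e.symm j₀ * e.symm i₀ = (e.symm i₀)⁻¹ * e.symm j₀ := by
      rw [← map_mul, ← map_inv, ← map_mul, hji]
    exact congrArg Subtype.val h1
  · have h1 : e.symm j₀ * e.symm j₀ = e.symm i₀ * e.symm i₀ := by
      rw [← map_mul, ← map_mul, hjj]
    exact congrArg Subtype.val h1
  · rw [← hβ, hxi]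
  · rw [← hβ, hxj, map_mul]
    rfl
  · rw [← hβ, hti₀, map_inv]
    rfl

end Cfsg.Agent.Lib.Helper43.GL23F
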