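import Mathlib
import Cfsg.Agent.Lib.Helper43.KulA
import Cfsg.Agent.Lib.Helper43.KulB
import Cfsg.Agent.S3975

set_option autoImplicit false

namespace Cfsg.Agent.Lib.Helper43.Kul

universe u

open scoped Pointwise

/-- a `p`-group acting on a finite type: the non-fixed points of an invariant set come in
orbits of length divisible by `p`. -/
theorem dvd_ncard_nonfixed {H α : Type*} [Group H] [Finite H] [MulAction H α] [Finite α]
    (p : ℕ) (hp : p.Prime) (hH : IsPGroup p H) (W : Set α)
    (hW : ∀ g : H, ∀ x ∈ W, g • x ∈ W) :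
    p ∣ (W \ MulAction.fixedPoints H α).ncard := by
  have hfact : Fact p.Prime := ⟨hp⟩
  apply Cfsg.Agent.S3975.dvd_ncard_of_invariant (G := H) p
  · rintro g x ⟨hx, hxf⟩
    refine ⟨hW g x hx, ?_⟩
    intro h
    apply hxf
    rw [MulAction.mem_fixedPoints] at h ⊢
    intro m
    have h1 : g⁻¹ • (g • x) = g • x := h g⁻¹
    rw [inv_smul_smul] at h1
    have h2 := h m
    rw [← h1] at h2
    exact h2
  · rintro x ⟨hx, hxf⟩
    obtain ⟨n, hn⟩ := IsPGroup.iff_card.mp hH
    have h1 : (MulAction.stabilizer H x).index ∣ p ^ n := hn ▸ Subgroup.index_dvd_card _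
    obtain ⟨j, hj, hj'⟩ := (Nat.dvd_prime_pow hp).mp h1
    rcases j with _ | j
    · exfalso; apply hxf
      rw [pow_zero, Subgroup.index_eq_one] at hj'
      rw [MulAction.mem_fixedPoints]; intro m
      have : m ∈ MulAction.stabilizer H x := by rw [hj']; trivial
      exact this
    · rw [hj', pow_succ]; exact Dvd.intro_left _ rfl

theorem index_stabilizer_smul {H α : Type*} [Group H] [MulAction H α] (g : H) (x : α) :
    (MulAction.stabilizer H (g • x)).index = (MulAction.stabilizer H x).index := by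
  rw [MulAction.stabilizer_smul_eq_stabilizer_map_conj]
  exact Subgroup.index_map_equiv (H := MulAction.stabilizer H x) (MulAut.conj g)

/-- weighted orbit counting. -/
theorem dvd_sum_weighted {H α : Type*} [Group H] [MulAction H α] [Finite α] [DecidableEq α]
    (d e : ℕ) (Y : Finset α) (w : α → ℕ) (hY : ∀ g : H, ∀ x ∈ Y, g • x ∈ Y)
    (hw : ∀ g : H, ∀ x ∈ Y, w (g • x) = w x)
    (hd : ∀ x ∈ Y, d ∣ (MulAction.stabilizer H x).index) (he : ∀ x ∈ Y, e ∣ w x) :
    d * e ∣ ∑ x ∈ Y, w x := by
  have h1 := Finset.sum_comp (s := Y) (fun j : ℕ => j) w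
  rw [h1]
  apply Finset.dvd_sum
  intro j hj
  obtain ⟨x₀, hx₀, rfl⟩ := Finset.mem_image.mp hj
  rw [smul_eq_mul]
  apply Nat.mul_dvd_mul _ (he x₀ hx₀)
  rw [← Set.ncard_coe_finset]
  apply Cfsg.Agent.S3975.dvd_ncard_of_invariant (G := H) d
  · intro g x hx
    simp only [Finset.coe_filter, Set.mem_ofPred_eq] at hx ⊢
    exact ⟨hY g x hx.1, by rw [hw g x hx.1, hx.2]⟩
  · intro x hx
    simp only [Finset.coe_filter, Set.mem_ofPred_eq] at hx
    exact hd x hx.1

theorem mem_conj_smul {G : Type*} [Group G] (x y : G) (U : Subgroup G) :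
    y ∈ MulAut.conj x • U ↔ x⁻¹ * y * x ∈ U := by
  rw [Subgroup.mem_pointwise_smul_iff_inv_smul_mem, ← map_inv, MulAut.smul_def,
    MulAut.conj_apply, inv_inv]

theorem conj_smul_eq_iff {G : Type*} [Group G] (x : G) (U : Subgroup G) :
    MulAut.conj x • U = U ↔ x ∈ Subgroup.normalizer (U : Set G) := by
  constructor
  · intro h
    rw [← inv_mem_iff, Subgroup.mem_set_normalizer_iff]
    intro u
    rw [inv_inv]
    have := SetLike.ext_iff.mp h u
    rw [mem_conj_smul] at this
    exact this.symm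
  · intro h
    have h' := Subgroup.inv_mem _ h
    rw [Subgroup.mem_set_normalizer_iff] at h'
    ext u
    rw [mem_conj_smul]
    have := h' u
    rw [inv_inv] at this
    exact this.symm

theorem card_conj_smul {G : Type*} [Group G] (x : G) (U : Subgroup G) :
    Nat.card ↥(MulAut.conj x • U) = Nat.card U :=
  (Nat.card_congr (Subgroup.equivSMul (MulAut.conj x) U).toEquiv).symm

theorem normalizer_conj_smul {G : Type*} [Group G] (x : G) (U : Subgroup G) :
    Subgroup.normalizer ((MulAut.conj x • U : Subgroup G) : Set G) =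
      MulAut.conj x • Subgroup.normalizer (U : Set G) :=
  (Subgroup.map_equiv_normalizer_eq U (MulAut.conj x)).symm

/-- between a subgroup of order `p ^ (n-1)` and one of order `p ^ n` there is nothing. -/
theorem sandwich {G : Type*} [Group G] [Finite G] (p n : ℕ) (hp : p.Prime) (hn : 1 ≤ n)
    (A B C : Subgroup G) (hA : Nat.card A = p ^ (n - 1)) (hC : Nat.card C = p ^ n)
    (hAB : A ≤ B) (hBC : B ≤ C) : B = A ∨ B = C := by
  have h1 := Subgroup.card_dvd_of_le hAB
  have h2 := Subgroup.card_dvd_of_le hBC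
  rw [hC] at h2
  obtain ⟨j, hj, hj'⟩ := (Nat.dvd_prime_pow hp).mp h2
  rw [hA, hj'] at h1
  have h3 : n - 1 ≤ j := (Nat.pow_dvd_pow_iff_le_right hp.one_lt).mp h1
  rcases Nat.lt_or_ge j n with h4 | h4
  · left
    have : j = n - 1 := by omega
    symm
    apply Subgroup.eq_of_le_of_card_ge hAB
    rw [hA, hj', this]
  · right
    have : j = n := by omega
    apply Subgroup.eq_of_le_of_card_ge hBC
    rw [hC, hj', this]

end Cfsg.Agent.Lib.Helper43.Kul
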