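import Mathlib
import Cfsg.Agent.Lib.Helper43.KulA
import Cfsg.Agent.Lib.Helper43.KulB
import Cfsg.Agent.Lib.Helper43.KulE
import Cfsg.Agent.S3975

set_option autoImplicit false

namespace Cfsg.Agent.Lib.Helper43.Kul

universe u

open scoped Pointwise

theorem ncard_subgroups_le_modEq {G : Type*} [Group G] [Finite G] (p a : ℕ) (hp : p.Prime)
    (Q : Subgroup G) (hQ : p ^ a ∣ Nat.card Q) :
    ({U : Subgroup G | Nat.card U = p ^ a ∧ U ≤ Q}).ncard ≡ 1 [MOD p] := by
  have := Cfsg.Agent.S3975.result (G := ↥Q) p a hp hQ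
  rw [card_subgroups_le] at this
  exact this

/-- the number of normal subgroups of order `p ^ a` of `Q` not inside a maximal subgroup `M`
is divisible by `p`. -/
theorem dvd_card_normal_not_le {G : Type*} [Group G] [Finite G] (p n a : ℕ) (hp : p.Prime)
    (Q M : Subgroup G) (hQ : Nat.card Q = p ^ n) (hM : Nat.card M = p ^ (n - 1))
    (hMQ : M ≤ Q) (ha : a + 1 ≤ n) :
    p ∣ ({U : Subgroup G | Nat.card U = p ^ a ∧ U ≤ Q ∧ ¬ U ≤ M ∧
      Q ≤ Subgroup.normalizer (U : Set G)}).ncard := by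
  classical
  let _ : MulAction ↥Q (Subgroup G) :=
    MulAction.compHom _ ((MulAut.conj (G := G)).comp Q.subtype)
  have hsmul : ∀ (g : ↥Q) (U : Subgroup G), g • U = MulAut.conj (g : G) • U := fun _ _ => rfl
  have hQp : IsPGroup p ↥Q := IsPGroup.of_card hQ
  have hMn : Q ≤ Subgroup.normalizer (M : Set G) := by
    have h1 : (M.subgroupOf Q).index = p := by
      have h2 := card_eq_card_mul_relIndex hMQ
      rw [hQ, hM] at h2
      obtain ⟨n', rfl⟩ : ∃ n', n = n' + 1 := ⟨n - 1, by omega⟩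
      rw [Nat.add_sub_cancel, pow_succ] at h2
      exact (Nat.eq_of_mul_eq_mul_left (pow_pos hp.pos n') h2).symm
    have h2 : (M.subgroupOf Q).Normal := normal_of_index_p p hp hQp _ h1
    exact (Subgroup.normal_subgroupOf_iff_le_normalizer hMQ).mp h2
  set W : Set (Subgroup G) := {U | Nat.card U = p ^ a ∧ U ≤ Q ∧ ¬ U ≤ M} with hW
  have hWinv : ∀ g : ↥Q, ∀ U ∈ W, g • U ∈ W := by
    rintro g U ⟨h1, h2, h3⟩
    refine ⟨?_, ?_, ?_⟩
    · rw [hsmul, card_conj_smul]; exact h1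
    · rw [hsmul]; exact Subgroup.conj_smul_le_of_le h2 g
    · rw [hsmul]
      intro h
      apply h3
      have hgM : MulAut.conj (g : G) • M = M := (conj_smul_eq_iff _ _).mpr (hMn g.2)
      rw [← hgM] at h
      exact Subgroup.pointwise_smul_le_pointwise_smul_iff.mp h
  have h1 := dvd_ncard_nonfixed p hp hQp W hWinv
  have hfix : ∀ U : Subgroup G, U ∈ MulAction.fixedPoints ↥Q (Subgroup G) ↔
      Q ≤ Subgroup.normalizer (U : Set G) := by
    intro U
    rw [MulAction.mem_fixedPoints]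
    constructor
    · intro h g hg
      exact (conj_smul_eq_iff g U).mp (h ⟨g, hg⟩)
    · intro h g
      exact (conj_smul_eq_iff _ U).mpr (h g.2)
  have hset : {U : Subgroup G | Nat.card U = p ^ a ∧ U ≤ Q ∧ ¬ U ≤ M ∧
      Q ≤ Subgroup.normalizer (U : Set G)} =
        W \ (W \ MulAction.fixedPoints ↥Q (Subgroup G)) := by
    ext U
    simp only [hW, Set.mem_sdiff, Set.mem_ofPred_eq, hfix]
    constructor
    · rintro ⟨h1, h2, h3, h4⟩
      exact ⟨⟨h1, h2, h3⟩, fun h => h.2 h4⟩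
    · rintro ⟨⟨h1, h2, h3⟩, h4⟩
      refine ⟨h1, h2, h3, ?_⟩
      by_contra h5
      exact h4 ⟨⟨h1, h2, h3⟩, h5⟩
  have h2 := Set.ncard_sdiff_add_ncard_of_subset
    (Set.sdiff_subset : W \ MulAction.fixedPoints ↥Q (Subgroup G) ⊆ W)
  rw [hset]
  have hW2 : W = {U : Subgroup G | Nat.card U = p ^ a ∧ U ≤ Q} \
      {U : Subgroup G | Nat.card U = p ^ a ∧ U ≤ M} := by
    ext U
    simp only [hW, Set.mem_sdiff, Set.mem_ofPred_eq]
    tauto
  have hsub : {U : Subgroup G | Nat.card U = p ^ a ∧ U ≤ M} ⊆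
      {U : Subgroup G | Nat.card U = p ^ a ∧ U ≤ Q} := fun U hU => ⟨hU.1, hU.2.trans hMQ⟩
  have h3 := Set.ncard_sdiff_add_ncard_of_subset hsub
  rw [← hW2] at h3
  have e1 := ncard_subgroups_le_modEq p a hp Q (by rw [hQ]; exact pow_dvd_pow p (by omega))
  have e2 := ncard_subgroups_le_modEq p a hp M (by rw [hM]; exact pow_dvd_pow p (by omega))
  have h4 : p ∣ W.ncard := by
    have h5 : W.ncard + ({U : Subgroup G | Nat.card U = p ^ a ∧ U ≤ M}).ncard ≡
        0 + ({U : Subgroup G | Nat.card U = p ^ a ∧ U ≤ M}).ncard [MOD p] := by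
      rw [h3, zero_add]; exact e1.trans e2.symm
    exact (Nat.modEq_zero_iff_dvd).mp (Nat.ModEq.add_right_cancel' _ h5)
  have h6 : p ∣ (W \ (W \ MulAction.fixedPoints ↥Q (Subgroup G))).ncard +
      (W \ MulAction.fixedPoints ↥Q (Subgroup G)).ncard := by rw [h2]; exact h4
  exact (Nat.dvd_add_iff_left h1).mpr h6

end Cfsg.Agent.Lib.Helper43.Kul
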