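import Mathlib
import Cfsg.Agent.Lib.Helper43.KulA
import Cfsg.Agent.Lib.Helper43.KulB
import Cfsg.Agent.Lib.Helper43.KulE
import Cfsg.Agent.Lib.Helper43.KulF
import Cfsg.Agent.S3975

set_option autoImplicit false

namespace Cfsg.Agent.Lib.Helper43.Kul

universe u

open scoped Pointwise

/-- **Reduction to a Sylow subgroup**: modulo `p²`, the number of subgroups of order `p ^ a`
of `G` equals the number of those inside a fixed Sylow `p`-subgroup, provided `p ^ (a+1)`
divides the order of `G`. -/
theorem card_modEq_sylow {G : Type*} [Group G] [Finite G] (p n a : ℕ) [hfact : Fact p.Prime]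
    (P : Sylow p G) (hP : Nat.card P = p ^ n) (ha : a + 1 ≤ n) :
    Nat.card {U : Subgroup G // Nat.card U = p ^ a} ≡
      Nat.card {U : Subgroup G // Nat.card U = p ^ a ∧ U ≤ (P : Subgroup G)} [MOD p ^ 2] := by
  classical
  have hp := hfact.out
  have := Fintype.ofFinite (Subgroup G)
  have := Fintype.ofFinite (Sylow p G)
  let _ : MulAction ↥(P : Subgroup G) (Subgroup G) :=
    MulAction.compHom _ ((MulAut.conj (G := G)).comp (P : Subgroup G).subtype)
  have hsmul : ∀ (g : ↥(P : Subgroup G)) (U : Subgroup G), g • U = MulAut.conj (g : G) • U :=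
    fun _ _ => rfl
  have hPp : IsPGroup p ↥(P : Subgroup G) := P.isPGroup'
  have hcardSyl : ∀ Q : Sylow p G, Nat.card Q = p ^ n := by
    intro Q; rw [Sylow.card_eq_multiplicity, ← hP, Sylow.card_eq_multiplicity]
  have hF1 : ∀ U : Subgroup G, Nat.card U = p ^ a →
      (P : Subgroup G) ≤ Subgroup.normalizer (U : Set G) → U ≤ P := by
    intro U hU hPU
    have h1 : IsPGroup p ↥(U ⊔ (P : Subgroup G)) :=
      IsPGroup.to_sup_of_normal_left' (IsPGroup.of_card hU) P.isPGroup' hPU
    have h2 := P.is_maximal' h1 le_sup_right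
    exact le_of_le_of_eq le_sup_left h2
  have hstab : ∀ U : Subgroup G,
      Nat.card ↥((P : Subgroup G) ⊓ Subgroup.normalizer (U : Set G)) *
        (MulAction.stabilizer ↥(P : Subgroup G) U).index = p ^ n := by
    intro U
    have h1 : MulAction.stabilizer ↥(P : Subgroup G) U =
        (Subgroup.normalizer (U : Set G)).subgroupOf (P : Subgroup G) := by
      ext g
      rw [MulAction.mem_stabilizer_iff, hsmul, conj_smul_eq_iff, Subgroup.mem_subgroupOf]
    rw [h1]
    have h2 := card_eq_card_mul_relIndex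
      (inf_le_left : (P : Subgroup G) ⊓ Subgroup.normalizer (U : Set G) ≤ P)
    rw [Subgroup.inf_relIndex_left, hP] at h2
    exact h2.symm
  have hidx_inv : ∀ (g : ↥(P : Subgroup G)) (U : Subgroup G),
      (MulAction.stabilizer ↥(P : Subgroup G) (g • U)).index =
        (MulAction.stabilizer ↥(P : Subgroup G) U).index := fun g U => index_stabilizer_smul g U
  have hidx_pow : ∀ U : Subgroup G, ∃ j, j ≤ n ∧
      (MulAction.stabilizer ↥(P : Subgroup G) U).index = p ^ j ∧
      Nat.card ↥((P : Subgroup G) ⊓ Subgroup.normalizer (U : Set G)) = p ^ (n - j) := by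
    intro U
    have h1 := hstab U
    have h2 : (MulAction.stabilizer ↥(P : Subgroup G) U).index ∣ p ^ n := Dvd.intro_left _ h1
    obtain ⟨j, hj, hj'⟩ := (Nat.dvd_prime_pow hp).mp h2
    refine ⟨j, hj, hj', ?_⟩
    rw [hj'] at h1
    have h3 : p ^ n = p ^ (n - j) * p ^ j := by rw [← pow_add]; congr 1; omega
    rw [h3] at h1
    exact Nat.eq_of_mul_eq_mul_right (pow_pos hp.pos j) h1
  set 𝒴 : Set (Subgroup G) := {U | Nat.card U = p ^ a ∧ ¬ U ≤ P} with h𝒴
  have h𝒴inv : ∀ g : ↥(P : Subgroup G), ∀ U ∈ 𝒴, g • U ∈ 𝒴 := by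
    rintro g U ⟨h1, h2⟩
    refine ⟨by rw [hsmul, card_conj_smul]; exact h1, ?_⟩
    rw [hsmul]
    intro h
    apply h2
    have hgP : MulAut.conj (g : G) • (P : Subgroup G) = P :=
      Subgroup.conj_smul_eq_self_of_mem g.2
    have h' : MulAut.conj (g : G) • U ≤ MulAut.conj (g : G) • (P : Subgroup G) :=
      le_of_le_of_eq h hgP.symm
    exact Subgroup.pointwise_smul_le_pointwise_smul_iff.mp h'
  have hsplit : Nat.card {U : Subgroup G // Nat.card U = p ^ a} =
      Nat.card {U : Subgroup G // Nat.card U = p ^ a ∧ U ≤ (P : Subgroup G)} + 𝒴.ncard := by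
    have h1 : ({U : Subgroup G | Nat.card U = p ^ a} \
        {U : Subgroup G | Nat.card U = p ^ a ∧ U ≤ (P : Subgroup G)}) = 𝒴 := by
      ext U
      simp only [h𝒴, Set.mem_sdiff, Set.mem_ofPred_eq]
      constructor
      · rintro ⟨h1, h2⟩
        exact ⟨h1, fun h => h2 ⟨h1, h⟩⟩
      · rintro ⟨h1, h2⟩
        exact ⟨h1, fun h => h2 h.2⟩
    have h2 := Set.ncard_sdiff_add_ncard_of_subset
      (s := {U : Subgroup G | Nat.card U = p ^ a ∧ U ≤ (P : Subgroup G)})
      (t := {U : Subgroup G | Nat.card U = p ^ a}) (fun U hU => hU.1)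
    rw [h1] at h2
    rw [add_comm]; exact h2.symm
  rw [hsplit]
  suffices hsuff : p ^ 2 ∣ 𝒴.ncard by
    apply Nat.ModEq.symm
    rw [Nat.modEq_iff_dvd' (Nat.le_add_right _ _), Nat.add_sub_cancel_left]
    exact hsuff
  set 𝒴₂ : Set (Subgroup G) :=
    {U | U ∈ 𝒴 ∧ (MulAction.stabilizer ↥(P : Subgroup G) U).index ≠ p} with h𝒴₂
  set 𝒴₁ : Set (Subgroup G) :=
    {U | U ∈ 𝒴 ∧ (MulAction.stabilizer ↥(P : Subgroup G) U).index = p} with h𝒴₁
  have hy2 : p ^ 2 ∣ 𝒴₂.ncard := by
    apply Cfsg.Agent.S3975.dvd_ncard_of_invariant (G := ↥(P : Subgroup G)) (p ^ 2)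
    · rintro g U ⟨h1, h2⟩
      exact ⟨h𝒴inv g U h1, by rw [hidx_inv]; exact h2⟩
    · rintro U ⟨⟨h1, h2⟩, h3⟩
      obtain ⟨j, hj, hj', hj''⟩ := hidx_pow U
      have hj0 : j ≠ 0 := by
        rintro rfl
        apply h2
        apply hF1 U h1
        have h4 : (P : Subgroup G) ⊓ Subgroup.normalizer (U : Set G) = P :=
          Subgroup.eq_of_le_of_card_ge inf_le_left (by rw [hj'', hP]; simp)
        exact le_of_eq_of_le h4.symm inf_le_right
      have hj1 : j ≠ 1 := by rintro rfl; exact h3 (by rw [hj', pow_one])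
      rw [hj']; exact pow_dvd_pow p (by omega)
  have hy1 : p ^ 2 ∣ 𝒴₁.ncard := by
    set ℱ : Sylow p G → Finset (Subgroup G) := fun Q => Finset.univ.filter (fun U =>
      U ∈ 𝒴₁ ∧ U ⊔ ((P : Subgroup G) ⊓ Subgroup.normalizer (U : Set G)) = (Q : Subgroup G))
      with hℱ
    have hmemℱ : ∀ (Q : Sylow p G) (U : Subgroup G), U ∈ ℱ Q ↔ (U ∈ 𝒴₁ ∧
        U ⊔ ((P : Subgroup G) ⊓ Subgroup.normalizer (U : Set G)) = (Q : Subgroup G)) := by
      intro Q U; simp [hℱ]
    have hM : ∀ U ∈ 𝒴₁,
        Nat.card ↥((P : Subgroup G) ⊓ Subgroup.normalizer (U : Set G)) = p ^ (n - 1) := by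
      rintro U ⟨h1, h2⟩
      obtain ⟨j, hj, hj', hj''⟩ := hidx_pow U
      have : j = 1 := by
        rw [h2] at hj'
        have := Nat.pow_right_injective hp.two_le (show p ^ 1 = p ^ j by rw [pow_one]; exact hj')
        exact this.symm
      rw [hj'', this]
    have hexQ : ∀ U ∈ 𝒴₁, ∃ Q : Sylow p G,
        U ⊔ ((P : Subgroup G) ⊓ Subgroup.normalizer (U : Set G)) = (Q : Subgroup G) := by
      intro U hU
      have hMc := hM U hU
      obtain ⟨⟨h1, h2⟩, h3⟩ := hU
      have hpg : IsPGroup p ↥(U ⊔ ((P : Subgroup G) ⊓ Subgroup.normalizer (U : Set G))) :=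
        IsPGroup.to_sup_of_normal_left' (IsPGroup.of_card h1) (IsPGroup.of_card hMc) inf_le_right
      obtain ⟨Q, hQ⟩ := hpg.exists_le_sylow
      refine ⟨Q, ?_⟩
      rcases sandwich p n hp (by omega) _ _ (Q : Subgroup G) hMc (hcardSyl Q) le_sup_right hQ
        with h4 | h4
      · exfalso
        apply h2
        exact (le_of_le_of_eq le_sup_left h4).trans inf_le_left
      · exact h4
    have hcard1 : 𝒴₁.ncard = ∑ Q : Sylow p G, (ℱ Q).card := by
      have h1 : 𝒴₁ = ↑(Finset.univ.biUnion ℱ) := by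
        ext U
        simp only [Finset.coe_biUnion, Finset.coe_univ, Set.mem_univ, Set.iUnion_true,
          Set.mem_iUnion, Finset.mem_coe, hmemℱ]
        constructor
        · intro hU
          obtain ⟨Q, hQ⟩ := hexQ U hU
          exact ⟨Q, hU, hQ⟩
        · rintro ⟨Q, hU, -⟩
          exact hU
      rw [h1, Set.ncard_coe_finset, Finset.card_biUnion]
      intro Q _ Q' _ hne
      change Disjoint (ℱ Q) (ℱ Q')
      rw [Finset.disjoint_left]
      intro U hU hU'
      apply hne
      rw [hmemℱ] at hU hU'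
      exact Sylow.ext (hU.2.symm.trans hU'.2)
    have hFP : ℱ P = ∅ := by
      rw [Finset.eq_empty_iff_forall_notMem]
      intro U hU
      rw [hmemℱ] at hU
      exact hU.1.1.2 (le_of_le_of_eq le_sup_left hU.2)
    -- transport
    have htrans : ∀ (g : ↥(P : Subgroup G)) (Q : Sylow p G) (U : Subgroup G),
        U ∈ ℱ Q → g • U ∈ ℱ (g • Q) := by
      intro g Q U hU
      rw [hmemℱ] at hU ⊢
      obtain ⟨⟨h1, h2⟩, h3⟩ := hU
      refine ⟨⟨h𝒴inv g U h1, by rw [hidx_inv]; exact h2⟩, ?_⟩
      have h4 : ((g • Q : Sylow p G) : Subgroup G) = MulAut.conj (g : G) • (Q : Subgroup G) := rfl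
      rw [h4, ← h3, hsmul, Subgroup.smul_sup, Subgroup.smul_inf, normalizer_conj_smul,
        Subgroup.conj_smul_eq_self_of_mem g.2]
    rw [hcard1, ← Finset.add_sum_erase Finset.univ _ (Finset.mem_univ P), hFP, Finset.card_empty,
      zero_add, pow_two]
    apply dvd_sum_weighted (H := ↥(P : Subgroup G)) p p (Finset.univ.erase P)
      (fun Q => (ℱ Q).card)
    · intro g Q hQ
      simp only [Finset.mem_erase, Finset.mem_univ, and_true] at hQ ⊢
      intro h
      apply hQ
      have h1 : g⁻¹ • (g • Q) = g⁻¹ • P := by rw [h]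
      rw [inv_smul_smul] at h1
      rw [h1]
      exact Sylow.smul_eq_iff_mem_normalizer.mpr (Subgroup.le_normalizer (g⁻¹).2)
    · intro g Q _
      apply Finset.card_nbij' (fun U => g⁻¹ • U) (fun U => g • U)
      · intro U hU
        have := htrans g⁻¹ (g • Q) U hU
        rwa [inv_smul_smul] at this
      · intro U hU
        exact htrans g Q U hU
      · intro U _
        exact smul_inv_smul g U
      · intro U _
        exact inv_smul_smul g U
    · intro Q hQ
      simp only [Finset.mem_erase, Finset.mem_univ, and_true] at hQ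
      have h1 : (MulAction.stabilizer ↥(P : Subgroup G) Q).index ∣ p ^ n := by
        rw [← hP]; exact Subgroup.index_dvd_card _
      obtain ⟨j, hj, hj'⟩ := (Nat.dvd_prime_pow hp).mp h1
      rcases j with _ | j
      · exfalso
        apply hQ
        rw [pow_zero, Subgroup.index_eq_one] at hj'
        have h2 : Q ∈ MulAction.fixedPoints ↥(P : Subgroup G) (Sylow p G) := by
          rw [MulAction.mem_fixedPoints]; intro m
          have : m ∈ MulAction.stabilizer ↥(P : Subgroup G) Q := by rw [hj']; trivial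
          exact this
        have h3 : (P : Subgroup G) ≤ Q := (P.isPGroup'.sylow_mem_fixedPoints_iff).mp h2
        exact Sylow.ext (P.is_maximal' Q.isPGroup' h3)
      · rw [hj', pow_succ]; exact Dvd.intro_left _ rfl
    · intro Q hQ
      simp only [Finset.mem_erase, Finset.mem_univ, and_true] at hQ
      rcases Finset.eq_empty_or_nonempty (ℱ Q) with hem | ⟨U₀, hU₀⟩
      · rw [hem, Finset.card_empty]; exact dvd_zero p
      · rw [hmemℱ] at hU₀
        obtain ⟨hU₀1, hU₀2⟩ := hU₀
        set M : Subgroup G := (P : Subgroup G) ⊓ Subgroup.normalizer (U₀ : Set G) with hMdef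
        have hMc : Nat.card M = p ^ (n - 1) := hM U₀ hU₀1
        have hMQ : M ≤ Q := le_of_le_of_eq le_sup_right hU₀2
        have hMP : M ≤ P := inf_le_left
        have hPQ : (P : Subgroup G) ⊓ Q = M := by
          rcases sandwich p n hp (by omega) M ((P : Subgroup G) ⊓ Q) P hMc hP (le_inf hMP hMQ)
            inf_le_left with h4 | h4
          · exact h4
          · exfalso
            apply hQ
            have h5 : (P : Subgroup G) ≤ Q := le_of_eq_of_le h4.symm inf_le_right
            exact Sylow.ext (P.is_maximal' Q.isPGroup' h5)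
        have hset : (↑(ℱ Q) : Set (Subgroup G)) = {U : Subgroup G | Nat.card U = p ^ a ∧
            U ≤ (Q : Subgroup G) ∧ ¬ U ≤ M ∧
              (Q : Subgroup G) ≤ Subgroup.normalizer (U : Set G)} := by
          ext U
          simp only [Finset.mem_coe, hmemℱ, Set.mem_ofPred_eq]
          constructor
          · rintro ⟨⟨⟨hc, hnP⟩, hidx⟩, hsup⟩
            refine ⟨hc, le_of_le_of_eq le_sup_left hsup, fun h => hnP (h.trans hMP), ?_⟩
            rw [← hsup]
            exact sup_le Subgroup.le_normalizer inf_le_right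
          · rintro ⟨hc, hUQ, hUM, hQN⟩
            have hnP : ¬ U ≤ (P : Subgroup G) := fun h => hUM (le_of_le_of_eq (le_inf h hUQ) hPQ)
            have hPN : (P : Subgroup G) ⊓ Subgroup.normalizer (U : Set G) = M := by
              rcases sandwich p n hp (by omega) M
                ((P : Subgroup G) ⊓ Subgroup.normalizer (U : Set G)) P hMc hP
                (le_inf hMP (hMQ.trans hQN)) inf_le_left with h4 | h4
              · exact h4
              · exfalso
                exact hnP (hF1 U hc (le_of_eq_of_le h4.symm inf_le_right))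
            have hidx : (MulAction.stabilizer ↥(P : Subgroup G) U).index = p := by
              have h5 := hstab U
              rw [hPN, hMc] at h5
              have h6 : p ^ n = p ^ (n - 1) * p := by
                rw [← pow_succ]; congr 1; omega
              rw [h6] at h5
              exact Nat.eq_of_mul_eq_mul_left (pow_pos hp.pos _) h5
            refine ⟨⟨⟨hc, hnP⟩, hidx⟩, ?_⟩
            rw [hPN]
            rcases sandwich p n hp (by omega) M (U ⊔ M) Q hMc (hcardSyl Q) le_sup_right
              (sup_le hUQ hMQ) with h4 | h4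
            · exfalso
              exact hUM (le_of_le_of_eq le_sup_left h4)
            · exact h4
        have key := dvd_card_normal_not_le p n a hp (Q : Subgroup G) M (hcardSyl Q) hMc hMQ ha
        rw [← hset, Set.ncard_coe_finset] at key
        exact key
  -- combine
  have hunion : 𝒴.ncard = 𝒴₁.ncard + 𝒴₂.ncard := by
    have h1 : 𝒴 = 𝒴₁ ∪ 𝒴₂ := by
      ext U
      simp only [h𝒴₁, h𝒴₂, Set.mem_union, Set.mem_ofPred_eq]
      constructor
      · intro h
        by_cases h2 : (MulAction.stabilizer ↥(P : Subgroup G) U).index = p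
        · exact Or.inl ⟨h, h2⟩
        · exact Or.inr ⟨h, h2⟩
      · rintro (h | h) <;> exact h.1
    have h2 : Disjoint 𝒴₁ 𝒴₂ := by
      rw [Set.disjoint_left]
      rintro U ⟨_, h3⟩ ⟨_, h4⟩
      exact h4 h3
    rw [h1, Set.ncard_union_eq h2]
  rw [hunion]
  exact Nat.dvd_add hy1 hy2

end Cfsg.Agent.Lib.Helper43.Kul
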