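import Mathlib
import Cfsg.Agent.Lib.Helper43.KulA
import Cfsg.Agent.Lib.Helper43.KulB
import Cfsg.Agent.Lib.Helper43.KulC
import Cfsg.Agent.Lib.Helper43.KulD
import Cfsg.Agent.S3975
import Cfsg.Agent.S3977
import Cfsg.Agent.S4003

set_option autoImplicit false

namespace Cfsg.Agent.Lib.Helper43.Kul

universe u

/-- the general counting recursion over maximal subgroups, modulo `p²`. -/
theorem count_recursion {X : Type u} [Group X] [Finite X] (p n k : ℕ) (hp : p.Prime)
    (hX : Nat.card X = p ^ n) (hk : k + 2 ≤ n) [DecidableEq (Subgroup X)]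
    [DecidableRel (fun a b : Subgroup X => a ≤ b)]
    (𝔐 𝔘 : Finset (Subgroup X)) (h𝔐 : ∀ M, M ∈ 𝔐 ↔ M.index = p)
    (h𝔘 : ∀ U, U ∈ 𝔘 ↔ Nat.card U = p ^ k) :
    𝔘.card + 𝔐.card * 𝔐.card ≡
      ∑ M ∈ 𝔐, (𝔘.filter (fun U => U ≤ M)).card + 𝔐.card [MOD p ^ 2] := by
  have hXp : IsPGroup p X := IsPGroup.of_card hX
  have hne_top : ∀ U : Subgroup X, ∀ j, j < n → Nat.card U = p ^ j → U ≠ ⊤ := by
    intro U j hj hU h
    rw [h, Subgroup.card_top, hX] at hU
    have := Nat.pow_right_injective hp.two_le hU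
    omega
  have hγ : ∀ D : Subgroup X, D ≠ ⊤ → (𝔐.filter (fun M' => D ≤ M')).card ≡ 1 [MOD p] := by
    intro D hD
    have h1 := Cfsg.Agent.S4003.card_max_containing p hp hXp D hD
    have h2 : Nat.card {M' : Subgroup X // M'.index = p ∧ D ≤ M'} =
        (𝔐.filter (fun M' => D ≤ M')).card :=
      Nat.subtype_card _ (fun U => by simp [h𝔐])
    rwa [h2] at h1
  have hE1 : ∑ U ∈ 𝔘, (𝔐.filter (fun M => U ≤ M)).card =
      ∑ M ∈ 𝔐, (𝔘.filter (fun U => U ≤ M)).card :=
    Finset.sum_card_bipartiteAbove_eq_sum_card_bipartiteBelow (fun U M => U ≤ M)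
  have hE2 := double_pairs 𝔘 𝔐
  have hG : ∀ U ∈ 𝔘, (𝔐.filter (fun M => U ≤ M)).card *
      ((𝔐.filter (fun M => U ≤ M)).card - 1) + 1 ≡
        (𝔐.filter (fun M => U ≤ M)).card [MOD p ^ 2] := by
    intro U hU
    exact gamma_sq p _ hp (hγ U (hne_top U k (by omega) ((h𝔘 U).mp hU)))
  have hT : ∀ M ∈ 𝔐, ∑ M' ∈ 𝔐.erase M, (𝔘.filter (fun U => U ≤ M ⊓ M')).card + 1 ≡
      𝔐.card [MOD p ^ 2] :=
    fun M hM => sum_tau p n k hp hX hk 𝔐 𝔘 h𝔐 h𝔘 M hM
  have sG := Nat.ModEq.sum hG
  have sT := Nat.ModEq.sum hT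
  rw [Finset.sum_add_distrib, Finset.sum_const, smul_eq_mul, mul_one] at sG
  rw [Finset.sum_add_distrib, Finset.sum_const, Finset.sum_const, smul_eq_mul, smul_eq_mul,
    mul_one] at sT
  rw [hE2] at sG
  rw [hE1] at sG
  rw [← ZMod.natCast_eq_natCast_iff] at sG sT ⊢
  push_cast at sG sT ⊢
  linear_combination sG - sT

/-- a noncyclic group of order `4` has three subgroups of index `2`... more generally, a noncyclic
`2`-group has `≡ 3 (mod 4)` subgroups of index `2`. -/
theorem two_group_max_count {X : Type u} [Group X] [Finite X] (n : ℕ)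
    (hX : Nat.card X = 2 ^ n) (hnc : ¬ IsCyclic X) :
    Nat.card {M : Subgroup X // M.index = 2} ≡ 3 [MOD 4] := by
  have hp : Nat.Prime 2 := Nat.prime_two
  have hfact : Fact (Nat.Prime 2) := ⟨hp⟩
  have hXp : IsPGroup 2 X := IsPGroup.of_card hX
  obtain ⟨e, he⟩ := index_p_count 2 hp hXp
  have hn1 : 2 ≤ n := by
    by_contra hcon
    apply hnc
    have : n = 0 ∨ n = 1 := by omega
    rcases this with rfl | rfl
    · have : Subsingleton X := (Nat.card_eq_one_iff_unique.mp (by simpa using hX)).1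
      infer_instance
    · exact isCyclic_of_prime_card (p := 2) (by simpa using hX)
  have h1 : Nat.card {M : Subgroup X // M.index = 2 ∧ (⊥ : Subgroup X) ≤ M} ≡ 1 [MOD 2] :=
    Cfsg.Agent.S4003.card_max_containing 2 hp hXp ⊥ (by
      intro h
      have h2 : Nat.card (⊥ : Subgroup X) = Nat.card (⊤ : Subgroup X) := by rw [h]
      rw [Subgroup.card_bot, Subgroup.card_top, hX] at h2
      have := Nat.one_lt_two_pow (n := n) (by omega)
      omega)
  have h2 : Nat.card {M : Subgroup X // M.index = 2 ∧ (⊥ : Subgroup X) ≤ M} =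
      Nat.card {M : Subgroup X // M.index = 2} :=
    Nat.card_congr (Equiv.subtypeEquivRight (fun M => by simp))
  rw [h2] at h1
  rcases gamma_cases 2 _ e hp he with h0 | h3 | h3
  · rw [h0] at h1
    exact absurd h1 (by decide)
  · exfalso
    apply hnc
    -- unique subgroup of index 2
    have huniq : ∀ H K : Subgroup X, H.index = 2 → K.index = 2 → H = K := by
      intro H K hH hK
      have hsub : Subsingleton {M : Subgroup X // M.index = 2} :=
        (Nat.card_eq_one_iff_unique.mp h3).1
      exact congrArg Subtype.val (Subsingleton.elim (⟨H, hH⟩ : {M : Subgroup X // M.index = 2})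
        ⟨K, hK⟩)
    by_cases hn3 : 3 ≤ n
    · apply Cfsg.Agent.S3977.result 2 n (n - 1) hp hX (by omega) (by omega) (Or.inr (by omega))
      intro H K hH hK
      exact huniq H K ((index_iff_card 2 n hp hX (by omega) H).mpr hH)
        ((index_iff_card 2 n hp hX (by omega) K).mpr hK)
    · have hn2 : n = 2 := by omega
      subst hn2
      -- order 4, noncyclic: every nonidentity element has order 2
      by_contra hnc'
      have hord : ∀ y : X, y ≠ 1 → orderOf y = 2 := by
        intro y hy
        have h4 : orderOf y ∣ 2 ^ 2 := hX ▸ orderOf_dvd_natCard y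
        obtain ⟨j, hj, hj'⟩ := (Nat.dvd_prime_pow hp).mp h4
        interval_cases j
        · rw [pow_zero, orderOf_eq_one_iff] at hj'; exact absurd hj' hy
        · simpa using hj'
        · exfalso
          apply hnc'
          exact isCyclic_of_orderOf_eq_card y (by rw [hj', hX])
      have hidx : ∀ y : X, y ≠ 1 → (Subgroup.zpowers y).index = 2 := by
        intro y hy
        rw [index_iff_card 2 2 hp hX (by omega), Nat.card_zpowers, hord y hy]
        norm_num
      -- two distinct nonidentity elements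
      have hcontra : ∀ y₁ y₂ : X, y₁ ≠ 1 → y₂ ≠ 1 → y₁ ≠ y₂ → False := by
        intro y₁ y₂ h1' h2' h12
        have heq := huniq _ _ (hidx y₁ h1') (hidx y₂ h2')
        have hmem : y₂ ∈ Subgroup.zpowers y₁ := by rw [heq]; exact Subgroup.mem_zpowers y₂
        obtain ⟨k, hk⟩ := Subgroup.mem_zpowers_iff.mp hmem
        have hk2 : y₁ ^ (k % 2) = y₂ := by
          have := zpow_mod_orderOf y₁ k
          rw [hord y₁ h1'] at this
          rw [← hk]; exact_mod_cast this
        rcases Int.emod_two_eq_zero_or_one k with h | h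
        · rw [h, zpow_zero] at hk2; exact h2' hk2.symm
        · rw [h, zpow_one] at hk2; exact h12 hk2
      have := Fintype.ofFinite X
      have hcard : 2 < Fintype.card X := by
        rw [← Nat.card_eq_fintype_card, hX]; norm_num
      obtain ⟨a, b, c, hab, hac, hbc⟩ := Fintype.two_lt_card_iff.mp hcard
      by_cases ha : a = 1
      · exact hcontra b c (by rw [← ha]; exact hab.symm) (by rw [← ha]; exact hac.symm) hbc
      · by_cases hb : b = 1
        · exact hcontra a c ha (by rw [← hb]; exact hbc.symm) hac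
        · exact hcontra a b ha hb hab
  · exact h3

end Cfsg.Agent.Lib.Helper43.Kul
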