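import Mathlib
import Cfsg.Agent.Lib.Helper43.KulA
import Cfsg.Agent.Lib.Helper43.KulB
import Cfsg.Agent.Lib.Helper43.KulH

set_option autoImplicit false

namespace Cfsg.Agent.Lib.Helper43.Kul

universe u

/-- a normal subgroup of a `p`-group meets the centre nontrivially -/
theorem exists_center_mem_of_normal {P : Type*} [Group P] [Finite P] {p : ℕ}
    [Fact p.Prime] (hP : IsPGroup p P) (N : Subgroup P) [N.Normal] (hN : N ≠ ⊥) :
    ∃ z ∈ N, z ≠ 1 ∧ z ∈ Subgroup.center P := by
  have hNp : IsPGroup p ↥N := hP.to_subgroup N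
  have hnt : Nontrivial ↥N := (Subgroup.nontrivial_iff_ne_bot N).mpr hN
  have dvd : p ∣ Nat.card ↥N := by
    obtain ⟨n, hn0, hn⟩ := hNp.nontrivial_iff_card.mp hnt
    exact hn.symm ▸ dvd_pow_self _ (ne_of_gt hn0)
  have h1 : (1 : ↥N) ∈ MulAction.fixedPoints (ConjAct P) ↥N := by
    intro g
    exact smul_one g
  obtain ⟨b, hb, hb1⟩ :=
    (hP.of_equiv ConjAct.toConjAct).exists_fixed_point_of_prime_dvd_card_of_fixed_point ↥N dvd h1
  refine ⟨(b : P), b.2, ?_, ?_⟩
  · intro h
    apply hb1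
    ext
    simp [h]
  · rw [Subgroup.mem_center_iff]
    intro g
    have h2 := hb (ConjAct.toConjAct g)
    have h3 : g * (b : P) * g⁻¹ = b := by
      have := congrArg Subtype.val h2
      rwa [ConjAct.Subgroup.val_conj_smul, ConjAct.toConjAct_smul] at this
    calc g * (b : P) = g * (b : P) * g⁻¹ * g := by simp
      _ = (b : P) * g := by rw [h3]

theorem comm_le_of_index_two {Y : Type*} [Group Y] (M : Subgroup Y) (hM : M.index = 2) :
    commutator Y ≤ M := by
  have hn : M.Normal := Subgroup.normal_of_index_eq_two hM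
  rw [← Subgroup.Normal.quotient_commutative_iff_commutator_le]
  have hc : Nat.card (Y ⧸ M) = 2 := hM
  have : Fact (Nat.Prime 2) := ⟨Nat.prime_two⟩
  have hcyc : IsCyclic (Y ⧸ M) := isCyclic_of_prime_card (p := 2) hc
  exact ⟨⟨fun a b => by
    let _ := IsCyclic.commGroup (α := Y ⧸ M)
    exact mul_comm a b⟩⟩

theorem four_dvd_index_comm {Y : Type u} [Group Y] [Finite Y] (r : ℕ) (hY : Nat.card Y = 2 ^ r)
    (hnc : ¬ IsCyclic Y) : 4 ∣ (commutator Y).index := by
  have hp : Nat.Prime 2 := Nat.prime_two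
  have hfact : Fact (Nat.Prime 2) := ⟨hp⟩
  have hr : 2 ≤ r := by
    by_contra hcon
    apply hnc
    have : r = 0 ∨ r = 1 := by omega
    rcases this with rfl | rfl
    · have : Subsingleton Y := (Nat.card_eq_one_iff_unique.mp (by simpa using hY)).1
      infer_instance
    · exact isCyclic_of_prime_card (p := 2) (by simpa using hY)
  have h3 := two_group_max_count r hY hnc
  have hcard : 1 < Nat.card {M : Subgroup Y // M.index = 2} := by
    by_contra hcon
    have : Nat.card {M : Subgroup Y // M.index = 2} = 0 ∨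
        Nat.card {M : Subgroup Y // M.index = 2} = 1 := by omega
    rcases this with h | h <;> rw [h] at h3 <;> exact absurd h3 (by decide)
  have hnt : Nontrivial {M : Subgroup Y // M.index = 2} :=
    Finite.one_lt_card_iff_nontrivial.mp hcard
  obtain ⟨M₁, M₂, hne⟩ := exists_pair_ne {M : Subgroup Y // M.index = 2}
  have hne' : M₁.1 ≠ M₂.1 := fun h => hne (Subtype.ext h)
  have h4 := card_inf_max 2 r hp hY hr M₁.1 M₂.1 M₁.2 M₂.2 hne'
  have h5 : (M₁.1 ⊓ M₂.1).index = 4 := by
    have h6 := Subgroup.card_mul_index (M₁.1 ⊓ M₂.1)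
    rw [h4, hY] at h6
    obtain ⟨r', rfl⟩ : ∃ r', r = r' + 2 := ⟨r - 2, by omega⟩
    rw [Nat.add_sub_cancel, pow_add] at h6
    have := Nat.eq_of_mul_eq_mul_left (pow_pos hp.pos r') h6
    simpa using this
  have h6 : commutator Y ≤ M₁.1 ⊓ M₂.1 :=
    le_inf (comm_le_of_index_two _ M₁.2) (comm_le_of_index_two _ M₂.2)
  rw [← h5]
  exact Subgroup.index_dvd_of_le h6

/-- for an abelian subgroup `A` of index `2` and `x ∉ A`, `|Y'| · |C_A(x)| ≤ |A|`. -/
theorem card_comm_mul_le {Y : Type*} [Group Y] [Finite Y] (A : Subgroup Y) (hA : A.index = 2)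
    (hab : ∀ b ∈ A, ∀ c ∈ A, b * c = c * b) (x : Y) (hx : x ∉ A) :
    Nat.card (commutator Y) * Nat.card ↥(A ⊓ Subgroup.centralizer {x}) ≤ Nat.card A := by
  have hAn : A.Normal := Subgroup.normal_of_index_eq_two hA
  have hconj : ∀ b ∈ A, x⁻¹ * b * x ∈ A := by
    intro b hb
    have := hAn.conj_mem b hb x⁻¹
    simpa using this
  let ψ : ↥A →* ↥A := MonoidHom.mk' (fun b => ⟨x⁻¹ * b * x * (b : Y)⁻¹,
      A.mul_mem (hconj b b.2) (A.inv_mem b.2)⟩) (by
    intro b c
    apply Subtype.ext
    simp only [Subgroup.coe_mul]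
    have h1 := hab _ (hconj c c.2) _ (A.inv_mem b.2)
    have h2 := hab _ (A.inv_mem c.2) _ (A.inv_mem b.2)
    calc x⁻¹ * ((b : Y) * c) * x * ((b : Y) * c)⁻¹
        = x⁻¹ * b * x * (x⁻¹ * c * x) * ((c : Y)⁻¹ * (b : Y)⁻¹) := by group
      _ = x⁻¹ * b * x * (x⁻¹ * c * x) * ((b : Y)⁻¹ * (c : Y)⁻¹) := by rw [h2]
      _ = x⁻¹ * b * x * ((x⁻¹ * c * x) * (b : Y)⁻¹) * (c : Y)⁻¹ := by group
      _ = x⁻¹ * b * x * ((b : Y)⁻¹ * (x⁻¹ * c * x)) * (c : Y)⁻¹ := by rw [h1]
      _ = x⁻¹ * b * x * (b : Y)⁻¹ * (x⁻¹ * c * x * (c : Y)⁻¹) := by group)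
  have hψ : ∀ b : ↥A, ((ψ b : ↥A) : Y) = x⁻¹ * b * x * (b : Y)⁻¹ := fun b => rfl
  set L : Subgroup Y := ψ.range.map A.subtype with hL
  have hmemL : ∀ y : Y, y ∈ L ↔ ∃ b : ↥A, x⁻¹ * b * x * (b : Y)⁻¹ = y := by
    intro y
    rw [hL, Subgroup.mem_map]
    constructor
    · rintro ⟨c, ⟨b, rfl⟩, rfl⟩
      exact ⟨b, rfl⟩
    · rintro ⟨b, rfl⟩
      exact ⟨ψ b, ⟨b, rfl⟩, rfl⟩
  have hLA : L ≤ A := by
    rw [hL]; exact Subgroup.map_subtype_le _
  -- every element is in A or in A * x
  have hsplit : ∀ g : Y, g ∈ A ∨ g * x⁻¹ ∈ A := by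
    intro g
    by_cases hg : g ∈ A
    · exact Or.inl hg
    · right
      rw [Subgroup.mul_mem_iff_of_index_two hA]
      constructor
      · intro h; exact absurd h hg
      · intro h; exact absurd (by simpa using A.inv_mem h) hx
  have hxL : ∀ l ∈ L, x * l * x⁻¹ ∈ L := by
    intro l hl
    obtain ⟨b, rfl⟩ := (hmemL l).mp hl
    have hb' : x * (b : Y) * x⁻¹ ∈ A := hAn.conj_mem b b.2 x
    rw [hmemL]
    refine ⟨⟨x * b * x⁻¹, hb'⟩, ?_⟩
    simp only
    group
  have hLn : L.Normal := by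
    constructor
    intro l hl g
    rcases hsplit g with hg | hg
    · have : g * l * g⁻¹ = l := by
        rw [hab g hg l (hLA hl)]; group
      rw [this]; exact hl
    · have h1 : g * l * g⁻¹ = (g * x⁻¹) * (x * l * x⁻¹) * (g * x⁻¹)⁻¹ := by group
      have h2 := hxL l hl
      have h3 : (g * x⁻¹) * (x * l * x⁻¹) * (g * x⁻¹)⁻¹ = x * l * x⁻¹ := by
        rw [hab _ hg _ (hLA h2)]; group
      rw [h1, h3]
      exact h2
  have hcomm : commutator Y ≤ L := by
    rw [← Subgroup.Normal.quotient_commutative_iff_commutator_le]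
    have key : ∀ c ∈ A, (QuotientGroup.mk x : Y ⧸ L) * QuotientGroup.mk c =
        QuotientGroup.mk c * QuotientGroup.mk x := by
      intro c hc
      rw [← QuotientGroup.mk_mul, ← QuotientGroup.mk_mul, QuotientGroup.eq]
      have hl : x⁻¹ * c * x * c⁻¹ ∈ L := (hmemL _).mpr ⟨⟨c, hc⟩, rfl⟩
      have h1 : (x * c)⁻¹ * (c * x) = c⁻¹ * (x⁻¹ * c * x * c⁻¹) * c⁻¹⁻¹ := by group
      rw [h1]
      exact hLn.conj_mem _ hl c⁻¹
    have hAcomm : ∀ c ∈ A, ∀ c' ∈ A, (QuotientGroup.mk c : Y ⧸ L) * QuotientGroup.mk c' =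
        QuotientGroup.mk c' * QuotientGroup.mk c := by
      intro c hc c' hc'
      rw [← QuotientGroup.mk_mul, ← QuotientGroup.mk_mul, hab c hc c' hc']
    have hrep : ∀ g : Y, ∃ c ∈ A, (QuotientGroup.mk g : Y ⧸ L) = QuotientGroup.mk c ∨
        (QuotientGroup.mk g : Y ⧸ L) = QuotientGroup.mk c * QuotientGroup.mk x := by
      intro g
      rcases hsplit g with hg | hg
      · exact ⟨g, hg, Or.inl rfl⟩
      · refine ⟨g * x⁻¹, hg, Or.inr ?_⟩
        rw [← QuotientGroup.mk_mul]
        congr 1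
        group
    refine ⟨⟨fun a b => ?_⟩⟩
    induction a using QuotientGroup.induction_on with
    | H g =>
    induction b using QuotientGroup.induction_on with
    | H h =>
    obtain ⟨c, hc, hg | hg⟩ := hrep g <;> obtain ⟨c', hc', hh | hh⟩ := hrep h
    · rw [hg, hh]; exact hAcomm c hc c' hc'
    · rw [hg, hh]
      calc (QuotientGroup.mk c : Y ⧸ L) * (QuotientGroup.mk c' * QuotientGroup.mk x)
          = (QuotientGroup.mk c * QuotientGroup.mk c') * QuotientGroup.mk x := by group
        _ = (QuotientGroup.mk c' * QuotientGroup.mk c) * QuotientGroup.mk x := by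
            rw [hAcomm c hc c' hc']
        _ = QuotientGroup.mk c' * (QuotientGroup.mk c * QuotientGroup.mk x) := by group
        _ = QuotientGroup.mk c' * (QuotientGroup.mk x * QuotientGroup.mk c) := by rw [key c hc]
        _ = QuotientGroup.mk c' * QuotientGroup.mk x * QuotientGroup.mk c := by group
    · rw [hg, hh]
      calc (QuotientGroup.mk c : Y ⧸ L) * QuotientGroup.mk x * QuotientGroup.mk c'
          = QuotientGroup.mk c * (QuotientGroup.mk x * QuotientGroup.mk c') := by group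
        _ = QuotientGroup.mk c * (QuotientGroup.mk c' * QuotientGroup.mk x) := by rw [key c' hc']
        _ = (QuotientGroup.mk c * QuotientGroup.mk c') * QuotientGroup.mk x := by group
        _ = (QuotientGroup.mk c' * QuotientGroup.mk c) * QuotientGroup.mk x := by
            rw [hAcomm c hc c' hc']
        _ = QuotientGroup.mk c' * (QuotientGroup.mk c * QuotientGroup.mk x) := by group
    · rw [hg, hh]
      calc (QuotientGroup.mk c : Y ⧸ L) * QuotientGroup.mk x *
            (QuotientGroup.mk c' * QuotientGroup.mk x)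
          = QuotientGroup.mk c * (QuotientGroup.mk x * QuotientGroup.mk c') *
              QuotientGroup.mk x := by group
        _ = QuotientGroup.mk c * (QuotientGroup.mk c' * QuotientGroup.mk x) *
              QuotientGroup.mk x := by rw [key c' hc']
        _ = (QuotientGroup.mk c * QuotientGroup.mk c') * QuotientGroup.mk x *
              QuotientGroup.mk x := by group
        _ = (QuotientGroup.mk c' * QuotientGroup.mk c) * QuotientGroup.mk x *
              QuotientGroup.mk x := by rw [hAcomm c hc c' hc']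
        _ = QuotientGroup.mk c' * (QuotientGroup.mk c * QuotientGroup.mk x) *
              QuotientGroup.mk x := by group
        _ = QuotientGroup.mk c' * (QuotientGroup.mk x * QuotientGroup.mk c) *
              QuotientGroup.mk x := by rw [key c hc]
        _ = QuotientGroup.mk c' * QuotientGroup.mk x *
              (QuotientGroup.mk c * QuotientGroup.mk x) := by group
  -- cardinalities
  have hcL : Nat.card L = Nat.card ψ.range := by
    rw [hL]; exact Subgroup.card_map_of_injective A.subtype_injective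
  have hker : Nat.card ψ.ker * Nat.card ψ.range = Nat.card A := by
    rw [← Subgroup.index_ker]; exact Subgroup.card_mul_index ψ.ker
  have hkerC : ψ.ker = (Subgroup.centralizer {x}).subgroupOf A := by
    ext b
    rw [MonoidHom.mem_ker, Subgroup.mem_subgroupOf, Subgroup.mem_centralizer_singleton_iff]
    constructor
    · intro h
      have h1 : x⁻¹ * (b : Y) * x * (b : Y)⁻¹ = 1 := congrArg Subtype.val h
      calc (b : Y) * x = x * (x⁻¹ * (b : Y) * x * (b : Y)⁻¹) * b := by group
        _ = x * b := by rw [h1]; group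
    · intro h
      apply Subtype.ext
      rw [hψ]
      calc x⁻¹ * (b : Y) * x * (b : Y)⁻¹ = x⁻¹ * ((b : Y) * x) * (b : Y)⁻¹ := by group
        _ = 1 := by rw [h]; group
  have hcC : Nat.card ↥(A ⊓ Subgroup.centralizer {x}) = Nat.card ψ.ker := by
    rw [hkerC, ← Subgroup.inf_subgroupOf_left]
    exact (Nat.card_congr (Subgroup.subgroupOfEquivOfLe
      (inf_le_left : A ⊓ Subgroup.centralizer {x} ≤ A)).toEquiv).symm
  have hle : Nat.card (commutator Y) ≤ Nat.card L := Subgroup.card_le_of_le hcomm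
  calc Nat.card (commutator Y) * Nat.card ↥(A ⊓ Subgroup.centralizer {x})
      ≤ Nat.card L * Nat.card ψ.ker := by rw [hcC]; exact Nat.mul_le_mul_right _ hle
    _ = Nat.card A := by rw [hcL, mul_comm, hker]

end Cfsg.Agent.Lib.Helper43.Kul
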