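import Mathlib
import Cfsg.Agent.Lib.Helper43.KulA
import Cfsg.Agent.Lib.Helper43.KulB
import Cfsg.Agent.Lib.Helper43.KulH
import Cfsg.Agent.Lib.Helper43.KulI

set_option autoImplicit false

namespace Cfsg.Agent.Lib.Helper43.Kul

universe u

theorem mem_zpowers_order_two {Y : Type*} [Group Y] (z y : Y) (hz : orderOf z = 2)
    (hy : y ∈ Subgroup.zpowers z) : y = 1 ∨ y = z := by
  obtain ⟨k, hk⟩ := Subgroup.mem_zpowers_iff.mp hy
  have hk2 : z ^ (k % 2) = y := by
    have := zpow_mod_orderOf z k
    rw [hz] at this
    rw [← hk]; exact_mod_cast this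
  rcases Int.emod_two_eq_zero_or_one k with h | h
  · rw [h, zpow_zero] at hk2; exact Or.inl hk2.symm
  · rw [h, zpow_one] at hk2; exact Or.inr hk2.symm

theorem comm_index_quotient {Y : Type*} [Group Y] (N : Subgroup Y) [N.Normal]
    (hN : N ≤ commutator Y) : (commutator (Y ⧸ N)).index = (commutator Y).index := by
  have h1 : commutator (Y ⧸ N) = (commutator Y).map (QuotientGroup.mk' N) := by
    rw [commutator_def, commutator_def, Subgroup.map_commutator,
      Subgroup.map_top_of_surjective _ (QuotientGroup.mk'_surjective N)]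
  rw [h1]
  exact Subgroup.index_map_eq _ (QuotientGroup.mk'_surjective N)
    (by rw [QuotientGroup.ker_mk']; exact hN)

theorem card_comm_of_index_four {Y : Type*} [Group Y] [Finite Y] (r : ℕ) (hr : 2 ≤ r)
    (hY : Nat.card Y = 2 ^ r) (h4 : (commutator Y).index = 4) :
    Nat.card (commutator Y) = 2 ^ (r - 2) := by
  have h1 := Subgroup.card_mul_index (commutator Y)
  rw [h4, hY] at h1
  obtain ⟨r', rfl⟩ : ∃ r', r = r' + 2 := ⟨r - 2, by omega⟩
  rw [pow_add] at h1
  rw [Nat.add_sub_cancel]
  exact Nat.eq_of_mul_eq_mul_right (by norm_num) h1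

/-- **Taussky, first half**: a `2`-group with `|Y : Y'| = 4` has a cyclic maximal subgroup. -/
theorem exists_orderOf_of_comm_index_four : ∀ (r : ℕ), 3 ≤ r → ∀ (Y : Type u) [Group Y]
    [Finite Y], Nat.card Y = 2 ^ r → (commutator Y).index = 4 →
      ∃ a : Y, orderOf a = 2 ^ (r - 1) := by
  intro r hr
  have hp : Nat.Prime 2 := Nat.prime_two
  have hfact : Fact (Nat.Prime 2) := ⟨hp⟩
  induction r, hr using Nat.le_induction with
  | base =>
    intro Y _ _ hY h4
    have hex : ∃ a : Y, a ^ 2 ≠ 1 := by
      by_contra hcon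
      push Not at hcon
      have hcomm : ∀ a b : Y, a * b = b * a := by
        intro a b
        have h1 := hcon (a * b)
        have h2 := hcon a
        have h3 := hcon b
        have ha' : a⁻¹ = a := inv_eq_of_mul_eq_one_left (by rw [← pow_two]; exact h2)
        have hb' : b⁻¹ = b := inv_eq_of_mul_eq_one_left (by rw [← pow_two]; exact h3)
        calc a * b = (a * b)⁻¹ := (inv_eq_of_mul_eq_one_left (by rw [← pow_two]; exact h1)).symm
          _ = b⁻¹ * a⁻¹ := mul_inv_rev a b
          _ = b * a := by rw [ha', hb']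
      have hbot : commutator Y = ⊥ := by
        rw [commutator_eq_bot_iff_center_eq_top, Subgroup.eq_top_iff']
        intro a
        rw [Subgroup.mem_center_iff]
        intro g
        exact hcomm g a
      rw [hbot, Subgroup.index_bot, hY] at h4
      norm_num at h4
    obtain ⟨a, ha⟩ := hex
    have h1 : orderOf a ∣ 2 ^ 3 := hY ▸ orderOf_dvd_natCard a
    obtain ⟨j, hj, hj'⟩ := (Nat.dvd_prime_pow hp).mp h1
    have hj2 : 2 ≤ j := by
      by_contra hcon
      apply ha
      apply orderOf_dvd_iff_pow_eq_one.mp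
      rw [hj']
      have : j = 0 ∨ j = 1 := by omega
      rcases this with rfl | rfl <;> norm_num
    interval_cases j
    · exact ⟨a, by simpa using hj'⟩
    · refine ⟨a ^ 2, ?_⟩
      rw [orderOf_pow_of_dvd (by norm_num) (by rw [hj']; norm_num), hj']
      norm_num
  | succ r hr ih =>
    intro Y _ _ hY h4
    have hYp : IsPGroup 2 Y := IsPGroup.of_card hY
    have hcc := card_comm_of_index_four (r + 1) (by omega) hY h4
    have hne : commutator Y ≠ ⊥ := by
      intro h
      rw [h, Subgroup.card_bot] at hcc
      have : 1 < 2 ^ (r + 1 - 2) := Nat.one_lt_two_pow (by omega)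
      omega
    -- a central involution inside the commutator subgroup
    obtain ⟨z, hzc, hz2⟩ : ∃ z : Y, z ∈ commutator Y ⊓ Subgroup.center Y ∧ orderOf z = 2 := by
      obtain ⟨z₀, hz₀, hz₀1, hz₀c⟩ := exists_center_mem_of_normal hYp (commutator Y) hne
      have hSp : IsPGroup 2 ↥(commutator Y ⊓ Subgroup.center Y) := hYp.to_subgroup _
      have hnt : Nontrivial ↥(commutator Y ⊓ Subgroup.center Y) := by
        rw [Subgroup.nontrivial_iff_ne_bot]
        intro h
        have : z₀ ∈ commutator Y ⊓ Subgroup.center Y := ⟨hz₀, hz₀c⟩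
        rw [h, Subgroup.mem_bot] at this
        exact hz₀1 this
      have hdvd : 2 ∣ Nat.card ↥(commutator Y ⊓ Subgroup.center Y) := by
        obtain ⟨n, hn0, hn⟩ := hSp.nontrivial_iff_card.mp hnt
        exact hn.symm ▸ dvd_pow_self _ (ne_of_gt hn0)
      obtain ⟨w, hw⟩ := exists_prime_orderOf_dvd_card' 2 hdvd
      exact ⟨(w : Y), w.2, by rw [Subgroup.orderOf_coe]; exact hw⟩
    have hzcomm : z ∈ commutator Y := hzc.1
    have hzcen : z ∈ Subgroup.center Y := hzc.2
    have hz1 : z ≠ 1 := by
      intro h; rw [h, orderOf_one] at hz2; norm_num at hz2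
    set N : Subgroup Y := Subgroup.zpowers z with hN
    have hNcen : N ≤ Subgroup.center Y := Subgroup.zpowers_le.mpr hzcen
    have hNn : N.Normal := by
      constructor
      intro n hn g
      have := Subgroup.mem_center_iff.mp (hNcen hn) g
      have h1 : g * n * g⁻¹ = n := by rw [this]; group
      rw [h1]; exact hn
    have hNcard : Nat.card N = 2 := by rw [hN, Nat.card_zpowers, hz2]
    have hQcard : Nat.card (Y ⧸ N) = 2 ^ r := by
      have h1 := Subgroup.card_eq_card_quotient_mul_card_subgroup N
      rw [hY, hNcard, pow_succ] at h1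
      exact (Nat.eq_of_mul_eq_mul_right (by norm_num) h1).symm
    have hQ4 : (commutator (Y ⧸ N)).index = 4 := by
      rw [comm_index_quotient N (Subgroup.zpowers_le.mpr hzcomm)]; exact h4
    obtain ⟨abar, habar⟩ := ih (Y ⧸ N) hQcard hQ4
    obtain ⟨a, rfl⟩ := QuotientGroup.mk_surjective abar
    have hdvd1 : 2 ^ (r - 1) ∣ orderOf a := by
      rw [← habar]; exact orderOf_map_dvd (QuotientGroup.mk' N) a
    have hmemN : a ^ 2 ^ (r - 1) ∈ N := by
      rw [← QuotientGroup.eq_one_iff, QuotientGroup.mk_pow, ← habar, pow_orderOf_eq_one]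
    rcases mem_zpowers_order_two z _ hz2 hmemN with h1 | h1
    · -- order of a is 2^(r-1): contradiction
      exfalso
      have hoa : orderOf a = 2 ^ (r - 1) :=
        Nat.dvd_antisymm (orderOf_dvd_of_pow_eq_one h1) hdvd1
      set A : Subgroup Y := (Subgroup.zpowers (QuotientGroup.mk a : Y ⧸ N)).comap
        (QuotientGroup.mk' N) with hA
      have hAidx : A.index = 2 := by
        rw [hA, Subgroup.index_comap_of_surjective _ (QuotientGroup.mk'_surjective N)]
        have h2 := Subgroup.card_mul_index (Subgroup.zpowers (QuotientGroup.mk a : Y ⧸ N))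
        rw [Nat.card_zpowers, habar, hQcard] at h2
        obtain ⟨r', rfl⟩ : ∃ r', r = r' + 1 := ⟨r - 1, by omega⟩
        rw [Nat.add_sub_cancel, pow_succ] at h2
        exact Nat.eq_of_mul_eq_mul_left (by positivity) h2
      have hAn : A.Normal := Subgroup.normal_of_index_eq_two hAidx
      have hAmem : ∀ b ∈ A, ∃ i : ℤ, ∃ n ∈ N, b = a ^ i * n := by
        intro b hb
        rw [hA, Subgroup.mem_comap] at hb
        obtain ⟨i, hi⟩ := Subgroup.mem_zpowers_iff.mp hb
        refine ⟨i, (a ^ i)⁻¹ * b, ?_, by group⟩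
        rw [← QuotientGroup.eq]
        rw [QuotientGroup.mk_zpow]
        exact hi
      have haA : a ∈ A := by
        rw [hA, Subgroup.mem_comap]; exact Subgroup.mem_zpowers _
      have hzA : z ∈ A := by
        rw [hA, Subgroup.mem_comap]
        have : (QuotientGroup.mk' N) z = 1 := by
          rw [QuotientGroup.mk'_apply, QuotientGroup.eq_one_iff]; exact Subgroup.mem_zpowers z
        rw [this]; exact Subgroup.one_mem _
      have hab : ∀ b ∈ A, ∀ c ∈ A, b * c = c * b := by
        intro b hb c hc
        obtain ⟨i, n, hn, rfl⟩ := hAmem b hb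
        obtain ⟨j, n', hn', rfl⟩ := hAmem c hc
        have e1 := Subgroup.mem_center_iff.mp (hNcen hn)
        have e2 := Subgroup.mem_center_iff.mp (hNcen hn')
        calc a ^ i * n * (a ^ j * n') = a ^ i * (n * a ^ j) * n' := by group
          _ = a ^ i * (a ^ j * n) * n' := by rw [e1 (a ^ j)]
          _ = (a ^ i * a ^ j) * (n * n') := by group
          _ = (a ^ j * a ^ i) * (n' * n) := by
              rw [← zpow_add, ← zpow_add, add_comm, e1 n']
          _ = a ^ j * (a ^ i * n') * n := by group
          _ = a ^ j * (n' * a ^ i) * n := by rw [e2 (a ^ i)]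
          _ = a ^ j * n' * (a ^ i * n) := by group
      -- the central involution u
      set u : Y := a ^ 2 ^ (r - 2) with hu
      have hou : orderOf u = 2 := by
        rw [hu, orderOf_pow_of_dvd (by positivity) (by rw [hoa]; exact pow_dvd_pow 2 (by omega)),
          hoa]
        obtain ⟨r', rfl⟩ : ∃ r', r = r' + 2 := ⟨r - 2, by omega⟩
        rw [show r' + 2 - 1 = r' + 1 by omega, Nat.add_sub_cancel, pow_succ]
        exact Nat.mul_div_cancel_left 2 (by positivity)
      have hu1 : u ≠ 1 := by
        intro h; rw [h, orderOf_one] at hou; norm_num at hou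
      have huz : u ≠ z := by
        intro h
        have h2 : (QuotientGroup.mk a : Y ⧸ N) ^ 2 ^ (r - 2) = 1 := by
          rw [← QuotientGroup.mk_pow, QuotientGroup.eq_one_iff, ← hu, h]
          exact Subgroup.mem_zpowers z
        have h3 := orderOf_dvd_of_pow_eq_one h2
        rw [habar] at h3
        have := (Nat.pow_dvd_pow_iff_le_right (by norm_num : 1 < 2)).mp h3
        omega
      have huA : u ∈ A := A.pow_mem haA _
      have hucen : ∀ g : Y, g * u * g⁻¹ = u := by
        intro g
        have h2 : g * a * g⁻¹ ∈ A := hAn.conj_mem a haA g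
        obtain ⟨i, n, hn, hin⟩ := hAmem _ h2
        have hn2 : n ^ 2 = 1 := by
          rcases mem_zpowers_order_two z n hz2 hn with h | h
          · rw [h]; simp
          · rw [h, ← hz2]; exact pow_orderOf_eq_one z
        have hncomm : Commute (a ^ i) n := Subgroup.mem_center_iff.mp (hNcen hn) (a ^ i)
        have h3 : g * u * g⁻¹ = (g * a * g⁻¹) ^ 2 ^ (r - 2) := by
          rw [hu, conj_pow]
        have h4' : n ^ 2 ^ (r - 2) = 1 := by
          obtain ⟨r', rfl⟩ : ∃ r', r = r' + 3 := ⟨r - 3, by omega⟩
          rw [show r' + 3 - 2 = r' + 1 by omega, pow_succ, mul_comm, pow_mul, hn2, one_pow]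
        have h5 : g * u * g⁻¹ = u ^ i := by
          rw [h3, hin, hncomm.mul_pow, h4', mul_one, hu, ← zpow_natCast, ← zpow_natCast,
            ← zpow_mul, ← zpow_mul, mul_comm]
        have h6 : g * u * g⁻¹ ∈ Subgroup.zpowers u := by
          rw [h5]; exact Subgroup.zpow_mem_zpowers u i
        rcases mem_zpowers_order_two u _ hou h6 with h7 | h7
        · exfalso
          apply hu1
          have : u = g⁻¹ * (g * u * g⁻¹) * g := by group
          rw [this, h7]; group
        · exact h7
      -- pick x outside A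
      obtain ⟨x, hx⟩ : ∃ x : Y, x ∉ A := by
        by_contra hcon
        push Not at hcon
        have : A = ⊤ := eq_top_iff.mpr (fun y _ => hcon y)
        rw [this, Subgroup.index_top] at hAidx
        norm_num at hAidx
      have h8 := card_comm_mul_le A hAidx hab x hx
      have hAcard : Nat.card A = 2 ^ r := by
        have h9 := Subgroup.card_mul_index A
        rw [hAidx, hY, pow_succ] at h9
        exact Nat.eq_of_mul_eq_mul_right (by norm_num) h9
      rw [hcc, hAcard] at h8
      have hS2 : Nat.card ↥(A ⊓ Subgroup.centralizer {x}) ≤ 2 := by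
        obtain ⟨r', rfl⟩ : ∃ r', r = r' + 1 := ⟨r - 1, by omega⟩
        rw [show r' + 1 + 1 - 2 = r' by omega, pow_succ] at h8
        exact Nat.le_of_mul_le_mul_left h8 (by positivity)
      have hzS : z ∈ A ⊓ Subgroup.centralizer {x} :=
        ⟨hzA, Subgroup.mem_centralizer_singleton_iff.mpr
          (Subgroup.mem_center_iff.mp hzcen x).symm⟩
      have huS : u ∈ A ⊓ Subgroup.centralizer {x} := by
        refine ⟨huA, Subgroup.mem_centralizer_singleton_iff.mpr ?_⟩
        have := hucen x
        calc u * x = (x * u * x⁻¹) * x := by rw [this]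
          _ = x * u := by group
      have hSeq : Subgroup.zpowers z = A ⊓ Subgroup.centralizer {x} := by
        apply Subgroup.eq_of_le_of_card_ge (Subgroup.zpowers_le.mpr hzS)
        rw [Nat.card_zpowers, hz2]; exact hS2
      rw [← hSeq] at huS
      rcases mem_zpowers_order_two z u hz2 huS with h | h
      · exact hu1 h
      · exact huz h
    · refine ⟨a, ?_⟩
      rw [Nat.add_sub_cancel]
      have h2 : orderOf a = 2 ^ (r - 1 + 1) := by
        apply orderOf_eq_prime_pow
        · rw [h1]; exact hz1
        · rw [pow_succ, pow_mul, h1, ← hz2]; exact pow_orderOf_eq_one z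
      rw [h2]; congr 1; omega

end Cfsg.Agent.Lib.Helper43.Kul
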