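import Mathlib
import Cfsg.Agent.Lib.Helper43.KulA
import Cfsg.Agent.Lib.Helper43.KulB
import Cfsg.Agent.Lib.Helper43.KulH
import Cfsg.Agent.Lib.Helper43.KulI
import Cfsg.Agent.Lib.Helper43.KulJ

set_option autoImplicit false

namespace Cfsg.Agent.Lib.Helper43.Kul

universe u

theorem zpowers_abelian {Y : Type*} [Group Y] (a : Y) :
    ∀ b ∈ Subgroup.zpowers a, ∀ c ∈ Subgroup.zpowers a, b * c = c * b := by
  intro b hb c hc
  obtain ⟨i, rfl⟩ := Subgroup.mem_zpowers_iff.mp hb
  obtain ⟨j, rfl⟩ := Subgroup.mem_zpowers_iff.mp hc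
  rw [← zpow_add, ← zpow_add, add_comm]

theorem exists_not_mem_of_index_two {Y : Type*} [Group Y] (A : Subgroup Y) (hA : A.index = 2) :
    ∃ x : Y, x ∉ A := by
  by_contra hcon
  push Not at hcon
  have : A = ⊤ := eq_top_iff.mpr (fun y _ => hcon y)
  rw [this, Subgroup.index_top] at hA
  norm_num at hA

/-- in a `2`-group with `|Y : Y'| = 4` the centre has order `2` and lies in `Y'`. -/
theorem center_of_comm_index_four {Y : Type u} [Group Y] [Finite Y] (r : ℕ) (hr : 3 ≤ r)
    (hY : Nat.card Y = 2 ^ r) (h4 : (commutator Y).index = 4) :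
    Nat.card (Subgroup.center Y) = 2 ∧ Subgroup.center Y ≤ commutator Y := by
  have hp : Nat.Prime 2 := Nat.prime_two
  have hfact : Fact (Nat.Prime 2) := ⟨hp⟩
  have hYp : IsPGroup 2 Y := IsPGroup.of_card hY
  have hcc := card_comm_of_index_four r (by omega) hY h4
  obtain ⟨a, ha⟩ := exists_orderOf_of_comm_index_four r hr Y hY h4
  set A : Subgroup Y := Subgroup.zpowers a with hA
  have hAcard : Nat.card A = 2 ^ (r - 1) := by rw [hA, Nat.card_zpowers, ha]
  have hAidx : A.index = 2 := (index_iff_card 2 r hp hY (by omega) A).mpr hAcard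
  have hab := zpowers_abelian a
  have hcc2 : 2 ≤ Nat.card (commutator Y) := by
    rw [hcc]
    calc 2 = 2 ^ 1 := by norm_num
      _ ≤ 2 ^ (r - 2) := Nat.pow_le_pow_right (by norm_num) (by omega)
  have hcenA : Subgroup.center Y ≤ A := by
    intro z hz
    by_contra hzA
    have h1 := card_comm_mul_le A hAidx hab z hzA
    have h2 : A ⊓ Subgroup.centralizer {z} = A := by
      rw [inf_eq_left]
      intro b _
      rw [Subgroup.mem_centralizer_singleton_iff]
      exact Subgroup.mem_center_iff.mp hz b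
    rw [h2] at h1
    have h3 : 0 < Nat.card A := Nat.card_pos
    have : Nat.card (commutator Y) ≤ 1 := by
      by_contra hcon
      have : Nat.card A * 2 ≤ Nat.card (commutator Y) * Nat.card A := by
        rw [mul_comm]; exact Nat.mul_le_mul_right _ (by omega)
      omega
    omega
  obtain ⟨x, hx⟩ := exists_not_mem_of_index_two A hAidx
  have h8 := card_comm_mul_le A hAidx hab x hx
  rw [hcc, hAcard] at h8
  have hS2 : Nat.card ↥(A ⊓ Subgroup.centralizer {x}) ≤ 2 := by
    obtain ⟨r', rfl⟩ : ∃ r', r = r' + 2 := ⟨r - 2, by omega⟩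
    rw [Nat.add_sub_cancel, show r' + 2 - 1 = r' + 1 by omega, pow_succ] at h8
    exact Nat.le_of_mul_le_mul_left h8 (by positivity)
  have hcenS : Subgroup.center Y ≤ A ⊓ Subgroup.centralizer {x} := by
    intro z hz
    exact ⟨hcenA hz, Subgroup.mem_centralizer_singleton_iff.mpr
      (Subgroup.mem_center_iff.mp hz x).symm⟩
  have hcen2 : Nat.card (Subgroup.center Y) ≤ 2 := (Subgroup.card_le_of_le hcenS).trans hS2
  have hne : commutator Y ≠ ⊥ := by
    intro h
    rw [h, Subgroup.card_bot] at hcc2
    omega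
  obtain ⟨z, hzc, hz1, hzcen⟩ := exists_center_mem_of_normal hYp (commutator Y) hne
  have hoz : 2 ≤ orderOf z := by
    have h1 : orderOf z ≠ 1 := by rw [Ne, orderOf_eq_one_iff]; exact hz1
    have h2 : 0 < orderOf z := orderOf_pos z
    omega
  have hzeq : Subgroup.zpowers z = Subgroup.center Y := by
    apply Subgroup.eq_of_le_of_card_ge (Subgroup.zpowers_le.mpr hzcen)
    rw [Nat.card_zpowers]; omega
  constructor
  · have : Nat.card (Subgroup.zpowers z) = orderOf z := Nat.card_zpowers z
    rw [hzeq] at this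
    omega
  · rw [← hzeq]; exact Subgroup.zpowers_le.mpr hzc

/-- **Taussky**: a `2`-group of order `2 ^ r ≥ 8` with `|Y : Y'| = 4` has nilpotency class
`r - 1`. -/
theorem class_of_comm_index_four : ∀ (r : ℕ), 3 ≤ r → ∀ (Y : Type u) [Group Y] [Finite Y],
    Nat.card Y = 2 ^ r → (commutator Y).index = 4 → Group.nilpotencyClass Y = r - 1 := by
  intro r hr
  have hp : Nat.Prime 2 := Nat.prime_two
  have hfact : Fact (Nat.Prime 2) := ⟨hp⟩
  induction r, hr using Nat.le_induction with
  | base =>
    intro Y _ _ hY h4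
    have hYp : IsPGroup 2 Y := IsPGroup.of_card hY
    have hnil : Group.IsNilpotent Y := hYp.isNilpotent
    have hnt : Nontrivial Y := by
      rw [← Finite.one_lt_card_iff_nontrivial, hY]; norm_num
    obtain ⟨hc2, hcle⟩ := center_of_comm_index_four 3 le_rfl hY h4
    rw [Group.nilpotencyClass_eq_quotient_center_plus_one]
    have hQcard : Nat.card (Y ⧸ Subgroup.center Y) = 2 ^ 2 := by
      have h1 := Subgroup.card_eq_card_quotient_mul_card_subgroup (Subgroup.center Y)
      rw [hY, hc2] at h1
      have : Nat.card (Y ⧸ Subgroup.center Y) * 2 = 4 * 2 := by rw [← h1]; norm_num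
      have := Nat.eq_of_mul_eq_mul_right (by norm_num) this
      rw [this]; norm_num
    have hQcomm : IsMulCommutative (Y ⧸ Subgroup.center Y) :=
      IsPGroup.isMulCommutative_of_card_eq_prime_sq hQcard
    have h1 : Group.nilpotencyClass (Y ⧸ Subgroup.center Y) ≤ 1 :=
      Group.IsNilpotent.nilpotencyClass_le_one_iff.mpr hQcomm
    have h2 : Group.nilpotencyClass (Y ⧸ Subgroup.center Y) ≠ 0 := by
      rw [Ne, Group.nilpotencyClass_zero_iff_subsingleton]
      intro hsub
      have : Nat.card (Y ⧸ Subgroup.center Y) = 1 := Nat.card_unique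
      rw [hQcard] at this
      norm_num at this
    omega
  | succ r hr ih =>
    intro Y _ _ hY h4
    have hYp : IsPGroup 2 Y := IsPGroup.of_card hY
    have hnil : Group.IsNilpotent Y := hYp.isNilpotent
    have hnt : Nontrivial Y := by
      rw [← Finite.one_lt_card_iff_nontrivial, hY]
      exact Nat.one_lt_two_pow (by omega)
    obtain ⟨hc2, hcle⟩ := center_of_comm_index_four (r + 1) (by omega) hY h4
    rw [Group.nilpotencyClass_eq_quotient_center_plus_one]
    have hQcard : Nat.card (Y ⧸ Subgroup.center Y) = 2 ^ r := by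
      have h1 := Subgroup.card_eq_card_quotient_mul_card_subgroup (Subgroup.center Y)
      rw [hY, hc2, pow_succ] at h1
      exact (Nat.eq_of_mul_eq_mul_right (by norm_num) h1).symm
    have hQ4 : (commutator (Y ⧸ Subgroup.center Y)).index = 4 := by
      rw [comm_index_quotient _ hcle]; exact h4
    rw [ih (Y ⧸ Subgroup.center Y) hQcard hQ4]
    omega

end Cfsg.Agent.Lib.Helper43.Kul
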