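import Mathlib
import Cfsg.Agent.Lib.Helper43.KulA
import Cfsg.Agent.Lib.Helper43.KulB
import Cfsg.Agent.Lib.Helper43.KulC
import Cfsg.Agent.Lib.Helper43.KulH
import Cfsg.Agent.Lib.Helper43.KulI
import Cfsg.Agent.Lib.Helper43.KulJ
import Cfsg.Agent.Lib.Helper43.KulK
import Cfsg.Agent.S3993

set_option autoImplicit false

namespace Cfsg.Agent.Lib.Helper43.Kul

universe u

/-- in a noncyclic group of order `2^r`, every element has order dividing `2^(r-1)`. -/
theorem pow_half_eq_one {Y : Type*} [Group Y] [Finite Y] (r : ℕ) (hY : Nat.card Y = 2 ^ r)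
    (hnc : ¬ IsCyclic Y) (y : Y) : y ^ 2 ^ (r - 1) = 1 := by
  have h1 : orderOf y ∣ 2 ^ r := hY ▸ orderOf_dvd_natCard y
  obtain ⟨t, ht, h2⟩ := (Nat.dvd_prime_pow Nat.prime_two).mp h1
  have h3 : t ≠ r := by
    rintro rfl
    exact hnc (isCyclic_of_orderOf_eq_card y (by rw [h2, hY]))
  rw [← orderOf_dvd_iff_pow_eq_one, h2]
  exact pow_dvd_pow 2 (by omega)

/-- `c ∈ zpowers a`, `orderOf a = 2^(s+1)`, `c^(2^s) = 1` ⟹ `c ∈ zpowers (a^2)`. -/
theorem mem_zpowers_sq {Y : Type*} [Group Y] (a c : Y) (s : ℕ) (ha : orderOf a = 2 ^ (s + 1))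
    (hc : c ∈ Subgroup.zpowers a) (hc1 : c ^ 2 ^ s = 1) : c ∈ Subgroup.zpowers (a ^ 2) := by
  obtain ⟨i, rfl⟩ := Subgroup.mem_zpowers_iff.mp hc
  have h1 : a ^ (i * 2 ^ s) = 1 := by
    rw [zpow_mul]
    exact_mod_cast hc1
  have h2 : ((orderOf a : ℕ) : ℤ) ∣ i * 2 ^ s := orderOf_dvd_iff_zpow_eq_one.mpr h1
  rw [ha] at h2
  push_cast at h2
  have h3 : (2 : ℤ) ∣ i := by
    rw [pow_succ] at h2
    have h4 : (2 : ℤ) ^ s * 2 ∣ 2 ^ s * i := by rwa [mul_comm i] at h2
    exact (mul_dvd_mul_iff_left (pow_ne_zero s two_ne_zero)).mp h4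
  obtain ⟨j, rfl⟩ := h3
  rw [Subgroup.mem_zpowers_iff]
  refine ⟨j, ?_⟩
  rw [← zpow_natCast, ← zpow_mul]
  norm_num

/-- `c ∈ zpowers a`, `orderOf a = 2^(s+1)`, `c^(2^s) ≠ 1` ⟹ `a ∈ zpowers c`. -/
theorem mem_zpowers_of_pow_ne_one {Y : Type*} [Group Y] [Finite Y] (a c : Y) (s : ℕ)
    (ha : orderOf a = 2 ^ (s + 1)) (hc : c ∈ Subgroup.zpowers a) (hc1 : c ^ 2 ^ s ≠ 1) :
    a ∈ Subgroup.zpowers c := by
  have h1 : orderOf c ∣ 2 ^ (s + 1) := ha ▸ orderOf_dvd_of_mem_zpowers hc
  have h2 : orderOf c = 2 ^ (s + 1) := by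
    obtain ⟨t, ht, h3⟩ := (Nat.dvd_prime_pow Nat.prime_two).mp h1
    have : t = s + 1 := by
      by_contra hne
      apply hc1
      rw [← orderOf_dvd_iff_pow_eq_one, h3]
      exact pow_dvd_pow 2 (by omega)
    rw [h3, this]
  have h4 : Subgroup.zpowers c = Subgroup.zpowers a := by
    apply Subgroup.eq_of_le_of_card_ge
    · exact (Subgroup.zpowers_le).mpr hc
    · rw [Nat.card_zpowers, Nat.card_zpowers, h2, ha]
  rw [h4]
  exact Subgroup.mem_zpowers a

theorem orderOf_sq_of_two_pow {Y : Type*} [Group Y] (a : Y) (s : ℕ)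
    (ha : orderOf a = 2 ^ (s + 1)) : orderOf (a ^ 2) = 2 ^ s := by
  rw [orderOf_pow_of_dvd two_ne_zero (by rw [ha, pow_succ]; exact Dvd.intro_left _ rfl), ha,
    pow_succ]
  simp

/-- a group of order `2`: two nontrivial elements coincide. -/
theorem eq_of_card_two {Y : Type*} [Group Y] (H : Subgroup Y) (hH : Nat.card H = 2) (u v : Y)
    (hu : u ∈ H) (hv : v ∈ H) (hu1 : u ≠ 1) (hv1 : v ≠ 1) : u = v := by
  have : Finite H := Nat.finite_of_card_ne_zero (by omega)
  have h1 : orderOf (⟨u, hu⟩ : H) ∣ 2 := hH ▸ orderOf_dvd_natCard _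
  have h2 : orderOf u = 2 := by
    rw [Subgroup.orderOf_mk] at h1
    rcases (Nat.dvd_prime Nat.prime_two).mp h1 with h | h
    · exact absurd (orderOf_eq_one_iff.mp h) hu1
    · exact h
  have h3 : Subgroup.zpowers u = H := by
    apply Subgroup.eq_of_le_of_card_ge
    · exact (Subgroup.zpowers_le).mpr hu
    · rw [Nat.card_zpowers, h2, hH]
  have h4 : v ∈ Subgroup.zpowers u := h3 ▸ hv
  rcases mem_zpowers_order_two u v h2 h4 with h | h
  · exact absurd h hv1
  · exact h.symm

/-- elements of order `p^(n-1)` versus cyclic maximal subgroups. -/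
theorem card_order_eq_cyclic_max {X : Type u} [Group X] [Finite X] (p n : ℕ) (hp : p.Prime)
    (hX : Nat.card X = p ^ n) (hn : 2 ≤ n) :
    Nat.card {w : X // orderOf w = p ^ (n - 1)} =
      Nat.card {M : Subgroup X // M.index = p ∧ IsCyclic ↥M} * (p ^ (n - 2) * (p - 1)) := by
  classical
  have := Fintype.ofFinite X
  have := Fintype.ofFinite (Subgroup X)
  set C := Finset.univ.filter (fun M : Subgroup X => M.index = p ∧ IsCyclic ↥M) with hC
  set E : Finset X := Finset.univ.filter (fun w : X => orderOf w = p ^ (n - 1)) with hE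
  have hmaps : (E : Set X).MapsTo (fun w => Subgroup.zpowers w) C := by
    intro w hw
    have hw' : orderOf w = p ^ (n - 1) := by simpa [hE] using hw
    simp only [hC, Finset.coe_filter, Finset.mem_univ, true_and, Set.mem_ofPred_eq]
    refine ⟨?_, inferInstance⟩
    rw [index_iff_card p n hp hX (by omega), Nat.card_zpowers, hw']
  have h2 := Finset.card_eq_sum_card_fiberwise hmaps
  have h3 : ∀ M ∈ C, (E.filter (fun w => Subgroup.zpowers w = M)).card =
      p ^ (n - 2) * (p - 1) := by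
    intro M hM
    obtain ⟨hMi, hMc⟩ : M.index = p ∧ IsCyclic ↥M := by simpa [hC] using hM
    have hMcard := (index_iff_card p n hp hX (by omega) M).mp hMi
    obtain ⟨g, hg⟩ := IsCyclic.exists_generator (α := ↥M)
    have hgM : Subgroup.zpowers (g : X) = M := by
      have h4 : Subgroup.zpowers g = ⊤ := eq_top_iff.mpr (fun x _ => hg x)
      have h5 := congrArg (Subgroup.map M.subtype) h4
      rw [MonoidHom.map_zpowers, ← MonoidHom.range_eq_map, Subgroup.range_subtype] at h5
      exact h5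
    have hord : orderOf (g : X) = p ^ (n - 1) := by
      rw [← Nat.card_zpowers, hgM, hMcard]
    have h6 : E.filter (fun w => Subgroup.zpowers w = M) =
        Finset.univ.filter (fun w : X => Subgroup.zpowers w = Subgroup.zpowers (g : X)) := by
      ext w
      simp only [hE, Finset.mem_filter, Finset.mem_univ, true_and, hgM]
      constructor
      · exact fun h => h.2
      · intro h
        refine ⟨?_, h⟩
        rw [← Nat.card_zpowers, h, hMcard]
    rw [h6]
    have h7 := Cfsg.Agent.S3993.ncard_same_zpowers (g : X)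
    rw [hord, Nat.totient_prime_pow hp (by omega), show n - 1 - 1 = n - 2 by omega] at h7
    rw [← h7, ← Set.ncard_coe_finset]
    congr 1
    ext w
    simp
  rw [Finset.sum_congr rfl h3, Finset.sum_const, smul_eq_mul] at h2
  have hE' : Nat.card {w : X // orderOf w = p ^ (n - 1)} = E.card :=
    Nat.subtype_card _ (by simp [hE])
  have hC' : Nat.card {M : Subgroup X // M.index = p ∧ IsCyclic ↥M} = C.card :=
    Nat.subtype_card _ (by simp [hC])
  rw [hE', hC', h2]

/-- the generator of a cyclic subgroup of given order -/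
theorem exists_zpowers_eq {Y : Type*} [Group Y] (B : Subgroup Y) [hB : IsCyclic ↥B] :
    ∃ b : Y, Subgroup.zpowers b = B := by
  obtain ⟨g, hg⟩ := IsCyclic.exists_generator (α := ↥B)
  refine ⟨(g : Y), ?_⟩
  have h4 : Subgroup.zpowers g = ⊤ := eq_top_iff.mpr (fun x _ => hg x)
  have h5 := congrArg (Subgroup.map B.subtype) h4
  rw [MonoidHom.map_zpowers, ← MonoidHom.range_eq_map, Subgroup.range_subtype] at h5
  exact h5

theorem card_compl_subgroup {Y : Type*} [Group Y] [Finite Y] (K : Subgroup Y) :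
    Nat.card {w : Y // w ∉ K} + Nat.card K = Nat.card Y := by
  classical
  have := Fintype.ofFinite Y
  have h := Fintype.card_subtype_compl (fun w : Y => w ∈ K)
  have h2 : Fintype.card {w : Y // w ∈ K} ≤ Fintype.card Y := Fintype.card_subtype_le _
  rw [Nat.card_eq_fintype_card, Nat.card_eq_fintype_card, Nat.card_eq_fintype_card]
  have h3 : Fintype.card ↥K = Fintype.card {w : Y // w ∈ K} := rfl
  omega

end Cfsg.Agent.Lib.Helper43.Kul
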