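import Mathlib
import Cfsg.Agent.Lib.Helper43.KulA
import Cfsg.Agent.Lib.Helper43.KulB
import Cfsg.Agent.Lib.Helper43.KulC
import Cfsg.Agent.Lib.Helper43.KulH
import Cfsg.Agent.Lib.Helper43.KulI
import Cfsg.Agent.Lib.Helper43.KulJ
import Cfsg.Agent.Lib.Helper43.KulK
import Cfsg.Agent.Lib.Helper43.KulL

set_option autoImplicit false

namespace Cfsg.Agent.Lib.Helper43.Kul

universe u

open scoped commutatorElement

/-- the order of the commutator subgroup of a noncyclic `2`-group with `|Y : Y'| ≠ 4`. -/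
theorem card_comm_dvd_of_index_ne_four {Y : Type u} [Group Y] [Finite Y] (s : ℕ)
    (hY : Nat.card Y = 2 ^ (s + 3)) (hnc : ¬ IsCyclic Y) (h8 : (commutator Y).index ≠ 4) :
    Nat.card (commutator Y) ∣ 2 ^ s := by
  have h4 := four_dvd_index_comm (s + 3) hY hnc
  have hmul := Subgroup.card_mul_index (commutator Y)
  rw [hY] at hmul
  obtain ⟨j, hj, hj2⟩ := (Nat.dvd_prime_pow Nat.prime_two).mp
    (Dvd.intro_left _ hmul : (commutator Y).index ∣ 2 ^ (s + 3))
  have hj3 : 3 ≤ j := by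
    by_contra hlt
    have : j = 0 ∨ j = 1 ∨ j = 2 := by omega
    rcases this with rfl | rfl | rfl
    · rw [hj2] at h4; norm_num at h4
    · rw [hj2] at h4; norm_num at h4
    · exact h8 (by rw [hj2]; norm_num)
  rw [hj2] at hmul
  have : Nat.card (commutator Y) = 2 ^ (s + 3 - j) := by
    apply Nat.eq_of_mul_eq_mul_right (pow_pos two_pos j)
    rw [hmul, ← pow_add]
    congr 1
    omega
  rw [this]
  exact pow_dvd_pow 2 (by omega)

theorem sq_mul_eq {Y : Type*} [Group Y] (x y : Y) : (x * y) ^ 2 = x ^ 2 * ⁅x⁻¹, y⁆ * y ^ 2 := by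
  rw [commutatorElement_def, pow_two, pow_two, pow_two]
  group

/-- (S1) a noncyclic `2`-group of order `≥ 8` with `|Y : Y'| ≠ 4` has an even number of cyclic
maximal subgroups. -/
theorem cyclic_max_even {Y : Type u} [Group Y] [Finite Y] (r : ℕ) (hr : 3 ≤ r)
    (hY : Nat.card Y = 2 ^ r) (hnc : ¬ IsCyclic Y) (h8 : (commutator Y).index ≠ 4) :
    Even (Nat.card {M : Subgroup Y // M.index = 2 ∧ IsCyclic ↥M}) := by
  have hfact : Fact (Nat.Prime 2) := ⟨Nat.prime_two⟩
  have hcount := card_order_eq_cyclic_max 2 r Nat.prime_two hY (by omega)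
  by_cases hex : ∃ a : Y, orderOf a = 2 ^ (r - 1)
  swap
  · have hemp : IsEmpty {w : Y // orderOf w = 2 ^ (r - 1)} := ⟨fun w => hex ⟨w.1, w.2⟩⟩
    rw [Nat.card_of_isEmpty] at hcount
    have h0 : Nat.card {M : Subgroup Y // M.index = 2 ∧ IsCyclic ↥M} = 0 := by
      rcases Nat.eq_zero_or_pos (Nat.card {M : Subgroup Y // M.index = 2 ∧ IsCyclic ↥M}) with h | h
      · exact h
      · exfalso
        have : 0 < Nat.card {M : Subgroup Y // M.index = 2 ∧ IsCyclic ↥M} *
            (2 ^ (r - 2) * (2 - 1)) := Nat.mul_pos h (by positivity)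
        omega
    rw [h0]
    exact Even.zero
  obtain ⟨a, ha⟩ := hex
  obtain ⟨s, rfl⟩ : ∃ s, r = s + 3 := ⟨r - 3, by omega⟩
  have ha1 : orderOf a = 2 ^ (s + 1 + 1) := by rw [ha]; congr 1
  have ha2 : orderOf (a ^ 2) = 2 ^ (s + 1) := orderOf_sq_of_two_pow a (s + 1) ha1
  have ha4 : orderOf ((a ^ 2) ^ 2) = 2 ^ s := orderOf_sq_of_two_pow (a ^ 2) s ha2
  set A := Subgroup.zpowers a with hA
  have hAi : A.index = 2 := by
    rw [index_iff_card 2 (s + 3) Nat.prime_two hY (by omega), Nat.card_zpowers, ha]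
  have hhalf := pow_half_eq_one (s + 3) hY hnc
  -- (i) squares lie in `⟨a²⟩`
  have hi : ∀ y : Y, y ^ 2 ∈ Subgroup.zpowers (a ^ 2) := by
    intro y
    apply mem_zpowers_sq a (y ^ 2) (s + 1) ha1 (Subgroup.sq_mem_of_index_two hAi y)
    have := hhalf y
    rw [← pow_mul]
    rwa [show 2 * 2 ^ (s + 1) = 2 ^ (s + 3 - 1) by
      rw [show s + 3 - 1 = s + 1 + 1 by omega, pow_succ _ (s + 1)]; ring]
  -- (ii) the commutator subgroup lies in `⟨a⁴⟩`
  have hcomm_card := card_comm_dvd_of_index_ne_four s hY hnc h8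
  have hii : ∀ c ∈ commutator Y, c ∈ Subgroup.zpowers ((a ^ 2) ^ 2) := by
    intro c hc
    have hcA : c ∈ A := comm_le_of_index_two A hAi hc
    have hc1 : c ^ 2 ^ s = 1 := by
      have h5 : (⟨c, hc⟩ : commutator Y) ^ 2 ^ s = 1 :=
        orderOf_dvd_iff_pow_eq_one.mp ((orderOf_dvd_natCard _).trans hcomm_card)
      exact congrArg Subtype.val h5
    have hc2 : c ∈ Subgroup.zpowers (a ^ 2) := by
      apply mem_zpowers_sq a c (s + 1) ha1 hcA
      rw [pow_succ, pow_mul, hc1, one_pow]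
    exact mem_zpowers_sq (a ^ 2) c s ha2 hc2 hc1
  -- the subgroup `K`
  let K : Subgroup Y :=
    { carrier := {y | y ^ 2 ∈ Subgroup.zpowers ((a ^ 2) ^ 2)}
      mul_mem' := by
        intro x y hx hy
        change (x * y) ^ 2 ∈ Subgroup.zpowers ((a ^ 2) ^ 2)
        rw [sq_mul_eq]
        refine Subgroup.mul_mem _ (Subgroup.mul_mem _ hx (hii _ ?_)) hy
        rw [commutator_def]
        exact Subgroup.commutator_mem_commutator (Subgroup.mem_top _) (Subgroup.mem_top _)
      one_mem' := by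
        change (1 : Y) ^ 2 ∈ Subgroup.zpowers ((a ^ 2) ^ 2)
        rw [one_pow]
        exact Subgroup.one_mem _
      inv_mem' := by
        intro x hx
        change (x⁻¹) ^ 2 ∈ Subgroup.zpowers ((a ^ 2) ^ 2)
        rw [inv_pow]
        exact Subgroup.inv_mem _ hx }
  have hK : ∀ y : Y, y ∈ K ↔ y ^ 2 ∈ Subgroup.zpowers ((a ^ 2) ^ 2) := fun y => Iff.rfl
  -- (iv) the elements of order `2^(s+2)` are those outside `K`
  have hiv : ∀ y : Y, orderOf y = 2 ^ (s + 3 - 1) ↔ y ∉ K := by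
    intro y
    rw [hK, show s + 3 - 1 = s + 1 + 1 by omega]
    constructor
    · intro hy hyK
      have h1 : orderOf (y ^ 2) ∣ 2 ^ s := ha4 ▸ orderOf_dvd_of_mem_zpowers hyK
      have h2 : (y ^ 2) ^ 2 ^ s = 1 := orderOf_dvd_iff_pow_eq_one.mp h1
      rw [← pow_mul, show 2 * 2 ^ s = 2 ^ (s + 1) by rw [pow_succ]; ring] at h2
      have h3 : orderOf y ∣ 2 ^ (s + 1) := orderOf_dvd_iff_pow_eq_one.mpr h2
      rw [hy] at h3
      have := Nat.pow_dvd_pow_iff_le_right (by norm_num : 1 < 2) |>.mp h3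
      omega
    · intro hyK
      apply orderOf_eq_prime_pow
      · intro h1
        apply hyK
        apply mem_zpowers_sq (a ^ 2) (y ^ 2) s ha2 (hi y)
        rw [← pow_mul, show 2 * 2 ^ s = 2 ^ (s + 1) by rw [pow_succ]; ring]
        exact h1
      · have := hhalf y
        rwa [show s + 3 - 1 = s + 1 + 1 by omega] at this
  have haK : a ∉ K := (hiv a).mp ha
  -- products of two elements outside `K` lie in `K`
  have hprod : ∀ x y : Y, x ∉ K → y ∉ K → x * y ∈ K := by
    intro x y hx hy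
    rw [hK] at hx hy ⊢
    rw [sq_mul_eq]
    obtain ⟨i, hi'⟩ := Subgroup.mem_zpowers_iff.mp (hi x)
    obtain ⟨j, hj'⟩ := Subgroup.mem_zpowers_iff.mp (hi y)
    have hc : ⁅x⁻¹, y⁆ ∈ Subgroup.zpowers ((a ^ 2) ^ 2) := by
      apply hii
      rw [commutator_def]
      exact Subgroup.commutator_mem_commutator (Subgroup.mem_top _) (Subgroup.mem_top _)
    obtain ⟨l, hl'⟩ := Subgroup.mem_zpowers_iff.mp hc
    have hodd : ∀ (i : ℤ) (w : Y), (a ^ 2) ^ i = w → w ∉ Subgroup.zpowers ((a ^ 2) ^ 2) →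
        Odd i := by
      intro i w hw hwn
      rcases Int.even_or_odd i with h | h
      · exfalso
        apply hwn
        obtain ⟨i', rfl⟩ := h
        rw [Subgroup.mem_zpowers_iff]
        refine ⟨i', ?_⟩
        rw [← hw, ← zpow_natCast, ← zpow_mul]
        congr 1
        push_cast
        ring
      · exact h
    obtain ⟨i', rfl⟩ := hodd i _ hi' hx
    obtain ⟨j', rfl⟩ := hodd j _ hj' hy
    rw [← hi', ← hj', ← hl', Subgroup.mem_zpowers_iff]
    refine ⟨i' + j' + 1 + l, ?_⟩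
    rw [← zpow_natCast (a ^ 2) 2, ← zpow_mul, ← zpow_mul, ← zpow_add, ← zpow_add]
    congr 1
    push_cast
    ring
  have hKi : K.index = 2 := by
    rw [Subgroup.index_eq_two_iff]
    refine ⟨a, fun b => ?_⟩
    by_cases hb : b ∈ K
    · right
      refine ⟨hb, fun hba => haK ?_⟩
      have := K.mul_mem (K.inv_mem hb) hba
      rwa [inv_mul_cancel_left] at this
    · left
      exact ⟨hprod b a hb haK, hb⟩
  have hKcard : Nat.card K = 2 ^ (s + 3 - 1) :=
    (index_iff_card 2 (s + 3) Nat.prime_two hY (by omega) K).mp hKi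
  have hE : Nat.card {w : Y // orderOf w = 2 ^ (s + 3 - 1)} = Nat.card {w : Y // w ∉ K} :=
    Nat.card_congr (Equiv.subtypeEquivRight hiv)
  have hcompl := card_compl_subgroup K
  rw [hKcard, hY] at hcompl
  rw [hE] at hcount
  have h2 : Nat.card {M : Subgroup Y // M.index = 2 ∧ IsCyclic ↥M} = 2 := by
    have e1 : 2 ^ (s + 3) = 2 * 2 ^ (s + 3 - 1) := by
      rw [show s + 3 - 1 = s + 2 by omega, show s + 3 = s + 2 + 1 by omega, pow_succ]; ring
    have e2 : 2 ^ (s + 3 - 1) = 2 * 2 ^ (s + 3 - 2) := by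
      rw [show s + 3 - 1 = s + 1 + 1 by omega, show s + 3 - 2 = s + 1 by omega, pow_succ]; ring
    have hpos : 0 < 2 ^ (s + 3 - 2) := by positivity
    have h3 : Nat.card {M : Subgroup Y // M.index = 2 ∧ IsCyclic ↥M} * 2 ^ (s + 3 - 2) =
        2 * 2 ^ (s + 3 - 2) := by
      have : Nat.card {w : Y // w ∉ K} = 2 ^ (s + 3 - 1) := by omega
      rw [this, e2] at hcount
      rw [hcount]
      ring
    exact Nat.eq_of_mul_eq_mul_right hpos h3
  rw [h2]
  exact even_two

end Cfsg.Agent.Lib.Helper43.Kul
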