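import Mathlib
import Cfsg.Agent.Lib.Helper43.KulA
import Cfsg.Agent.Lib.Helper43.KulB
import Cfsg.Agent.Lib.Helper43.KulC
import Cfsg.Agent.Lib.Helper43.KulH
import Cfsg.Agent.Lib.Helper43.KulI
import Cfsg.Agent.Lib.Helper43.KulJ
import Cfsg.Agent.Lib.Helper43.KulK
import Cfsg.Agent.Lib.Helper43.KulL

set_option autoImplicit false

namespace Cfsg.Agent.Lib.Helper43.Kul

universe u

open scoped commutatorElement

theorem ne_top_of_index_two {Y : Type*} [Group Y] (A : Subgroup Y) (hA : A.index = 2) :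
    A ≠ ⊤ := by
  intro h
  rw [h, Subgroup.index_top] at hA
  norm_num at hA

theorem eq_of_le_of_index_two {Y : Type*} [Group Y] (B₁ B₂ : Subgroup Y) (h₁ : B₁.index = 2)
    (h₂ : B₂.index = 2) (hle : B₂ ≤ B₁) : B₁ = B₂ :=
  eq_of_le_of_index_prime 2 Nat.prime_two B₂ B₁ h₂ hle (ne_top_of_index_two B₁ h₁)

theorem comm_of_all_zpowers {Y : Type*} [Group Y] (g : Y) (hg : ∀ y : Y, y ∈ Subgroup.zpowers g)
    (x y : Y) : x * y = y * x :=
  zpowers_abelian g x (hg x) y (hg y)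

theorem not_cyclic_of_comm_index_four {Y : Type*} [Group Y] [Finite Y] (r : ℕ) (hr : 3 ≤ r)
    (hY : Nat.card Y = 2 ^ r) (h4 : (commutator Y).index = 4) : ¬ IsCyclic Y := by
  intro hc
  obtain ⟨g, hg⟩ := IsCyclic.exists_generator (α := Y)
  have h1 : commutator Y = ⊥ := by
    rw [commutator_eq_bot_iff_center_eq_top, eq_top_iff]
    intro z _
    rw [Subgroup.mem_center_iff]
    intro y
    exact comm_of_all_zpowers g hg y z
  rw [h1, Subgroup.index_bot, hY] at h4
  have : 2 ^ 3 ≤ 2 ^ r := Nat.pow_le_pow_right (by norm_num) hr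
  omega

/-- cyclic subgroups are abelian -/
theorem comm_of_isCyclic {Y : Type*} [Group Y] (B : Subgroup Y) [IsCyclic ↥B] (u v : Y)
    (hu : u ∈ B) (hv : v ∈ B) : u * v = v * u := by
  obtain ⟨b, hb⟩ := exists_zpowers_eq B
  rw [← hb] at hu hv
  exact zpowers_abelian b u hu v hv

/-- if `b ∉ B₁` (index 2) commutes with `z` and `B₁` centralizes `z`, then `z` is central. -/
theorem mem_center_of_index_two {Y : Type*} [Group Y] (B₁ : Subgroup Y) (h₁ : B₁.index = 2)
    (z b : Y) (hb : b ∉ B₁) (hbz : b * z = z * b) (hz : ∀ u ∈ B₁, u * z = z * u) :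
    z ∈ Subgroup.center Y := by
  rw [Subgroup.mem_center_iff]
  intro y
  by_cases hy : y ∈ B₁
  · exact hz y hy
  · have h3 : b⁻¹ * y ∈ B₁ := by
      rw [Subgroup.mul_mem_iff_of_index_two h₁]
      constructor
      · intro h
        exact absurd (by simpa using B₁.inv_mem h) hb
      · intro h
        exact absurd h hy
    have e2 : (b⁻¹ * y) * z = z * (b⁻¹ * y) := hz _ h3
    calc y * z = b * ((b⁻¹ * y) * z) := by group
      _ = b * (z * (b⁻¹ * y)) := by rw [e2]
      _ = (b * z) * (b⁻¹ * y) := by group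
      _ = (z * b) * (b⁻¹ * y) := by rw [hbz]
      _ = z * y := by group

/-- two distinct abelian subgroups of index 2 meet in the centre -/
theorem inf_le_center_of_index_two {Y : Type*} [Group Y] (B₁ B₂ : Subgroup Y)
    (h₁ : B₁.index = 2) (h₂ : B₂.index = 2) (hne : B₁ ≠ B₂)
    (hc₁ : ∀ u ∈ B₁, ∀ v ∈ B₁, u * v = v * u) (hc₂ : ∀ u ∈ B₂, ∀ v ∈ B₂, u * v = v * u) :
    B₁ ⊓ B₂ ≤ Subgroup.center Y := by
  have hex : ∃ b ∈ B₂, b ∉ B₁ := by
    by_contra hcon
    push Not at hcon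
    exact hne (eq_of_le_of_index_two B₁ B₂ h₁ h₂ hcon)
  obtain ⟨b, hb2, hb1⟩ := hex
  intro z hz
  exact mem_center_of_index_two B₁ h₁ z b hb1 (hc₂ b hb2 z hz.2) (fun u hu => hc₁ u hu z hz.1)

/-- (S3a) a `2`-group of order `≥ 8` with `|Y : Y'| = 4` has an odd number of cyclic
maximal subgroups. -/
theorem cyclic_max_odd {Y : Type u} [Group Y] [Finite Y] (r : ℕ) (hr : 3 ≤ r)
    (hY : Nat.card Y = 2 ^ r) (h4 : (commutator Y).index = 4) :
    Odd (Nat.card {M : Subgroup Y // M.index = 2 ∧ IsCyclic ↥M}) := by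
  have hfact : Fact (Nat.Prime 2) := ⟨Nat.prime_two⟩
  have hnc := not_cyclic_of_comm_index_four r hr hY h4
  obtain ⟨a, ha⟩ := exists_orderOf_of_comm_index_four r hr Y hY h4
  obtain ⟨hZ, -⟩ := center_of_comm_index_four r hr hY h4
  have hAi : (Subgroup.zpowers a).index = 2 := by
    rw [index_iff_card 2 r Nat.prime_two hY (by omega), Nat.card_zpowers, ha]
  have hne : Nonempty {M : Subgroup Y // M.index = 2 ∧ IsCyclic ↥M} :=
    ⟨⟨Subgroup.zpowers a, hAi, inferInstance⟩⟩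
  have hX : ∀ B₁ B₂ : Subgroup Y, B₁.index = 2 → B₂.index = 2 → IsCyclic ↥B₁ → IsCyclic ↥B₂ →
      B₁ ≠ B₂ → B₁ ⊓ B₂ ≤ Subgroup.center Y := by
    intro B₁ B₂ h₁ h₂ c₁ c₂ hne
    exact inf_le_center_of_index_two B₁ B₂ h₁ h₂ hne
      (fun u hu v hv => comm_of_isCyclic B₁ u v hu hv)
      (fun u hu v hv => comm_of_isCyclic B₂ u v hu hv)
  rcases Nat.lt_or_ge 3 r with hr4 | hr3
  · have hsub : Subsingleton {M : Subgroup Y // M.index = 2 ∧ IsCyclic ↥M} := by
      constructor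
      rintro ⟨B₁, h₁, c₁⟩ ⟨B₂, h₂, c₂⟩
      by_contra hne'
      have hne : B₁ ≠ B₂ := fun h => hne' (Subtype.ext h)
      have h5 := card_inf_max 2 r Nat.prime_two hY (by omega) B₁ B₂ h₁ h₂ hne
      have h6 := Subgroup.card_le_of_le (hX B₁ B₂ h₁ h₂ c₁ c₂ hne)
      rw [h5, hZ] at h6
      have : 2 ^ 2 ≤ 2 ^ (r - 2) := Nat.pow_le_pow_right (by norm_num) (by omega)
      omega
    have : Nat.card {M : Subgroup Y // M.index = 2 ∧ IsCyclic ↥M} = 1 := by
      rw [Nat.card_eq_one_iff_unique]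
      exact ⟨hsub, hne⟩
    rw [this]
    exact odd_one
  · obtain rfl : r = 3 := by omega
    have hcount := card_order_eq_cyclic_max 2 3 Nat.prime_two hY (by omega)
    norm_num at hcount
    have hc1 : 1 ≤ Nat.card {M : Subgroup Y // M.index = 2 ∧ IsCyclic ↥M} := Nat.card_pos
    have hc3 : Nat.card {M : Subgroup Y // M.index = 2 ∧ IsCyclic ↥M} ≤ 3 := by
      classical
      have := Fintype.ofFinite Y
      have h1 : Fintype.card {w : Y // orderOf w = 4} < Fintype.card Y :=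
        Fintype.card_subtype_lt (x := 1) (by simp)
      rw [← Nat.card_eq_fintype_card, ← Nat.card_eq_fintype_card, hY] at h1
      omega
    have hc2 : Nat.card {M : Subgroup Y // M.index = 2 ∧ IsCyclic ↥M} ≠ 2 := by
      intro h2
      obtain ⟨⟨B₁, h₁, c₁⟩, ⟨B₂, h₂, c₂⟩, hne', huniv⟩ := Nat.card_eq_two_iff.mp h2
      have hne : B₁ ≠ B₂ := fun h => hne' (Subtype.ext h)
      obtain ⟨a₁, ha₁⟩ := exists_zpowers_eq B₁
      obtain ⟨a₂, ha₂⟩ := exists_zpowers_eq B₂
      have hcard₁ : Nat.card B₁ = 4 := by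
        have := (index_iff_card 2 3 Nat.prime_two hY (by omega) B₁).mp h₁
        simpa using this
      have ho₁ : orderOf a₁ = 4 := by rw [← Nat.card_zpowers, ha₁, hcard₁]
      have ha₁B : a₁ ∈ B₁ := ha₁ ▸ Subgroup.mem_zpowers a₁
      have ha₂B : a₂ ∈ B₂ := ha₂ ▸ Subgroup.mem_zpowers a₂
      have ha₂1 : a₂ ∉ B₁ := by
        intro h
        have hle : B₂ ≤ B₁ := by
          rw [← ha₂]
          exact (Subgroup.zpowers_le).mpr h
        exact hne (eq_of_le_of_index_two B₁ B₂ h₁ h₂ hle)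
      have ha₁2 : a₁ ∉ B₂ := by
        intro h
        have hle : B₁ ≤ B₂ := by
          rw [← ha₁]
          exact (Subgroup.zpowers_le).mpr h
        exact hne (eq_of_le_of_index_two B₂ B₁ h₂ h₁ hle).symm
      have hcen := hX B₁ B₂ h₁ h₂ c₁ c₂ hne
      have hsq₁ : a₁ ^ 2 ∈ Subgroup.center Y :=
        hcen ⟨B₁.pow_mem ha₁B 2, Subgroup.sq_mem_of_index_two h₂ a₁⟩
      have hsq₂ : a₂ ^ 2 ∈ Subgroup.center Y :=
        hcen ⟨Subgroup.sq_mem_of_index_two h₁ a₂, B₂.pow_mem ha₂B 2⟩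
      have hne₁ : a₁ ^ 2 ≠ 1 := by
        intro h
        have := orderOf_dvd_of_pow_eq_one h
        rw [ho₁] at this
        norm_num at this
      have hne₂ : a₂ ^ 2 ≠ 1 := by
        intro h
        have hcard₂ : Nat.card B₂ = 4 := by
          have := (index_iff_card 2 3 Nat.prime_two hY (by omega) B₂).mp h₂
          simpa using this
        have ho₂ : orderOf a₂ = 4 := by rw [← Nat.card_zpowers, ha₂, hcard₂]
        have := orderOf_dvd_of_pow_eq_one h
        rw [ho₂] at this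
        norm_num at this
      have hsq : a₁ ^ 2 = a₂ ^ 2 := eq_of_card_two _ hZ _ _ hsq₁ hsq₂ hne₁ hne₂
      have h4₁ : a₁ ^ 4 = 1 := by
        rw [← ho₁]
        exact pow_orderOf_eq_one a₁
      have hw1 : a₁ * a₂ ∉ B₁ := by
        intro h
        apply ha₂1
        have := B₁.mul_mem (B₁.inv_mem ha₁B) h
        rwa [inv_mul_cancel_left] at this
      have hw2 : a₁ * a₂ ∉ B₂ := by
        intro h
        apply ha₁2
        have := B₂.mul_mem h (B₂.inv_mem ha₂B)
        rwa [mul_inv_cancel_right] at this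
      have hw2ne : ¬ (a₁ * a₂) ^ 2 ^ 1 = 1 := by
        intro h
        rw [pow_one] at h
        have e1 : a₂ * a₁ = a₁⁻¹ * a₂⁻¹ := by
          have : a₁⁻¹ * ((a₁ * a₂) ^ 2) * a₂⁻¹ = a₂ * a₁ := by
            rw [pow_two]
            group
          rw [← this, h]
          group
        have e2 : a₁ * a₂ = a₁⁻¹ * a₂⁻¹ := by
          have : a₁ * a₂ = a₁⁻¹ * (a₁ ^ 2 * a₂ ^ 2) * a₂⁻¹ := by
            rw [pow_two, pow_two]
            group
          rw [this, ← hsq, ← pow_add, h4₁]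
          group
        have hcomm : a₁ * a₂ = a₂ * a₁ := e2.trans e1.symm
        have hcen₁ : a₁ ∈ Subgroup.center Y :=
          mem_center_of_index_two B₁ h₁ a₁ a₂ ha₂1 hcomm.symm
            (fun u hu => comm_of_isCyclic B₁ u a₁ hu ha₁B)
        have : (⟨a₁, hcen₁⟩ : Subgroup.center Y) ^ 2 = 1 := by
          rw [← hZ]
          exact pow_card_eq_one'
        exact hne₁ (congrArg Subtype.val this)
      have hw4 : (a₁ * a₂) ^ 2 ^ (1 + 1) = 1 := by
        have := pow_half_eq_one 3 hY hnc (a₁ * a₂)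
        simpa using this
      have how : orderOf (a₁ * a₂) = 2 ^ (1 + 1) := orderOf_eq_prime_pow hw2ne hw4
      have hmem : (⟨Subgroup.zpowers (a₁ * a₂), by
          rw [index_iff_card 2 3 Nat.prime_two hY (by omega), Nat.card_zpowers, how],
          inferInstance⟩ : {M : Subgroup Y // M.index = 2 ∧ IsCyclic ↥M}) ∈
            (Set.univ : Set _) := Set.mem_univ _
      rw [← huniv] at hmem
      rcases hmem with h | h
      · have h' : Subgroup.zpowers (a₁ * a₂) = B₁ := congrArg Subtype.val h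
        exact hw1 (h' ▸ Subgroup.mem_zpowers (a₁ * a₂))
      · have h' : Subgroup.zpowers (a₁ * a₂) = B₂ := congrArg Subtype.val h
        exact hw2 (h' ▸ Subgroup.mem_zpowers (a₁ * a₂))
    have : Nat.card {M : Subgroup Y // M.index = 2 ∧ IsCyclic ↥M} = 1 ∨
        Nat.card {M : Subgroup Y // M.index = 2 ∧ IsCyclic ↥M} = 3 := by omega
    rcases this with h | h <;> rw [h] <;> decide

theorem comm_pow_left {Y : Type*} [Group Y] (a x : Y)
    (hn : ∀ b ∈ Subgroup.zpowers a, x * b * x⁻¹ ∈ Subgroup.zpowers a) (n : ℕ) :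
    ⁅a ^ n, x⁆ = ⁅a, x⁆ ^ n := by
  rw [commutatorElement_def, commutatorElement_def]
  have h1 : a ^ n * x * (a ^ n)⁻¹ * x⁻¹ = a ^ n * (x * a⁻¹ * x⁻¹) ^ n := by
    rw [conj_pow, inv_pow]
    group
  have h2 : a * x * a⁻¹ * x⁻¹ = a * (x * a⁻¹ * x⁻¹) := by group
  rw [h1, h2]
  have hcomm : Commute a (x * a⁻¹ * x⁻¹) :=
    zpowers_abelian a a (Subgroup.mem_zpowers a) _
      (hn _ (Subgroup.inv_mem _ (Subgroup.mem_zpowers a)))
  exact (hcomm.mul_pow n).symm

/-- (S3b) in a `2`-group of order `≥ 16` with `|Y : Y'| = 4`, every noncyclic maximal subgroup `M`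
has `|M : M'| = 4`. -/
theorem max_comm_index_four {Y : Type u} [Group Y] [Finite Y] (r : ℕ) (hr : 4 ≤ r)
    (hY : Nat.card Y = 2 ^ r) (h4 : (commutator Y).index = 4) (M : Subgroup Y)
    (hM : M.index = 2) (hMc : ¬ IsCyclic ↥M) : (commutator ↥M).index = 4 := by
  have hfact : Fact (Nat.Prime 2) := ⟨Nat.prime_two⟩
  obtain ⟨a, ha⟩ := exists_orderOf_of_comm_index_four r (by omega) Y hY h4
  have hAcard : Nat.card (Subgroup.zpowers a) = 2 ^ (r - 1) := by rw [Nat.card_zpowers, ha]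
  have hAi : (Subgroup.zpowers a).index = 2 :=
    (index_iff_card 2 r Nat.prime_two hY (by omega) _).mpr hAcard
  have hAn : (Subgroup.zpowers a).Normal := Subgroup.normal_of_index_eq_two hAi
  have hMcard : Nat.card M = 2 ^ (r - 1) :=
    (index_iff_card 2 r Nat.prime_two hY (by omega) M).mp hM
  have hex : ∃ x ∈ M, x ∉ Subgroup.zpowers a := by
    by_contra hcon
    push Not at hcon
    have : Subgroup.zpowers a = M := eq_of_le_of_index_two _ M hAi hM hcon
    apply hMc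
    rw [← this]
    infer_instance
  obtain ⟨x, hxM, hxA⟩ := hex
  have hcc := card_comm_of_index_four r (by omega) hY h4
  have hle := card_comm_mul_le (Subgroup.zpowers a) hAi (zpowers_abelian a) x hxA
  have hC2 : Nat.card ↥(Subgroup.zpowers a ⊓ Subgroup.centralizer {x}) ≤ 2 := by
    rw [hcc, hAcard] at hle
    have e : 2 ^ (r - 1) = 2 ^ (r - 2) * 2 := by
      rw [← pow_succ]
      congr 1
      omega
    rw [e] at hle
    exact Nat.le_of_mul_le_mul_left hle (by positivity)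
  have hconj : ∀ b ∈ Subgroup.zpowers a, x * b * x⁻¹ ∈ Subgroup.zpowers a :=
    fun b hb => hAn.conj_mem b hb x
  have hcpow : ¬ ⁅a, x⁆ ^ 2 ^ (r - 3) = 1 := by
    intro h
    rw [← comm_pow_left a x hconj] at h
    have hux : a ^ 2 ^ (r - 3) ∈ Subgroup.zpowers a ⊓ Subgroup.centralizer {x} := by
      refine Subgroup.mem_inf.mpr ⟨Subgroup.pow_mem _ (Subgroup.mem_zpowers a) _, ?_⟩
      rw [Subgroup.mem_centralizer_singleton_iff]
      rw [commutatorElement_def] at h
      have : a ^ 2 ^ (r - 3) * x =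
          (a ^ 2 ^ (r - 3) * x * (a ^ 2 ^ (r - 3))⁻¹ * x⁻¹) * (x * a ^ 2 ^ (r - 3)) := by group
      rw [this, h, one_mul]
    have hou : orderOf (a ^ 2 ^ (r - 3)) = 4 := by
      rw [orderOf_pow_of_dvd (by positivity) (by rw [ha]; exact pow_dvd_pow 2 (by omega)), ha]
      rw [show r - 1 = (r - 3) + 2 by omega, pow_add]
      simp
    have h5 : orderOf (⟨a ^ 2 ^ (r - 3), hux⟩ :
        ↥(Subgroup.zpowers a ⊓ Subgroup.centralizer {x})) = 4 := by
      rw [Subgroup.orderOf_mk]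
      exact hou
    have h6 := orderOf_dvd_natCard (⟨a ^ 2 ^ (r - 3), hux⟩ :
        ↥(Subgroup.zpowers a ⊓ Subgroup.centralizer {x}))
    rw [h5] at h6
    have := Nat.le_of_dvd Nat.card_pos h6
    omega
  have ha2M : a ^ 2 ∈ M := Subgroup.sq_mem_of_index_two hM a
  have hdmem : ⁅(⟨a ^ 2, ha2M⟩ : ↥M), ⟨x, hxM⟩⁆ ∈ commutator ↥M := by
    rw [commutator_def]
    exact Subgroup.commutator_mem_commutator (Subgroup.mem_top _) (Subgroup.mem_top _)
  have hdval : ((⁅(⟨a ^ 2, ha2M⟩ : ↥M), ⟨x, hxM⟩⁆ : ↥M) : Y) = ⁅a, x⁆ ^ 2 := by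
    rw [← comm_pow_left a x hconj]
    rfl
  have hdpow : ¬ (⁅(⟨a ^ 2, ha2M⟩ : ↥M), ⟨x, hxM⟩⁆ : ↥M) ^ 2 ^ (r - 4) = 1 := by
    intro h
    apply hcpow
    have h1 := congrArg Subtype.val h
    rw [Subgroup.coe_pow, hdval, ← pow_mul] at h1
    rw [show r - 3 = (r - 4) + 1 by omega, pow_succ, mul_comm]
    exact h1
  have hMnc4 := four_dvd_index_comm (r - 1) hMcard hMc
  have hmul := Subgroup.card_mul_index (commutator ↥M)
  rw [hMcard] at hmul
  obtain ⟨j, hj, hj2⟩ := (Nat.dvd_prime_pow Nat.prime_two).mp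
    (Dvd.intro _ hmul : Nat.card (commutator ↥M) ∣ 2 ^ (r - 1))
  have hj3 : r - 3 ≤ j := by
    by_contra hlt
    apply hdpow
    have h7 : orderOf (⟨_, hdmem⟩ : commutator ↥M) ∣ 2 ^ j := hj2 ▸ orderOf_dvd_natCard _
    rw [Subgroup.orderOf_mk] at h7
    rw [← orderOf_dvd_iff_pow_eq_one]
    exact h7.trans (pow_dvd_pow 2 (by omega))
  rw [hj2] at hmul
  have hidx : (commutator ↥M).index = 2 ^ (r - 1 - j) := by
    apply Nat.eq_of_mul_eq_mul_left (pow_pos two_pos j)
    rw [hmul, ← pow_add]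
    congr 1
    omega
  rw [hidx] at hMnc4 ⊢
  have h2 : 2 ≤ r - 1 - j := by
    by_contra hlt
    have : r - 1 - j = 0 ∨ r - 1 - j = 1 := by omega
    rcases this with h | h <;> rw [h] at hMnc4 <;> norm_num at hMnc4
  have : r - 1 - j = 2 := by omega
  rw [this]
  norm_num

end Cfsg.Agent.Lib.Helper43.Kul
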