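import Mathlib
import Cfsg.Agent.Lib.Helper43.KulA
import Cfsg.Agent.Lib.Helper43.KulB
import Cfsg.Agent.Lib.Helper43.KulC
import Cfsg.Agent.Lib.Helper43.KulH
import Cfsg.Agent.Lib.Helper43.KulI
import Cfsg.Agent.Lib.Helper43.KulJ
import Cfsg.Agent.Lib.Helper43.KulK
import Cfsg.Agent.Lib.Helper43.KulL
import Cfsg.Agent.Lib.Helper43.KulM
import Cfsg.Agent.Lib.Helper43.KulN
import Cfsg.Agent.S3993
import Cfsg.Agent.S4003

set_option autoImplicit false

namespace Cfsg.Agent.Lib.Helper43.Kul

universe u

open scoped commutatorElement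

/-- a group of order `16` with `|P'| = 2` has an abelian subgroup of index `2`. -/
theorem exists_abelian_max {P : Type*} [Group P] [Finite P] (hP : Nat.card P = 16)
    (hc : Nat.card (commutator P) = 2) :
    ∃ N : Subgroup P, N.index = 2 ∧ ∀ u ∈ N, ∀ v ∈ N, u * v = v * u := by
  have hfact : Fact (Nat.Prime 2) := ⟨Nat.prime_two⟩
  have hPp : IsPGroup 2 P := IsPGroup.of_card (n := 4) (by rw [hP]; norm_num)
  have hcen : Subgroup.center P ≠ ⊤ := by
    intro h
    have : commutator P = ⊥ := by
      rw [commutator_eq_bot_iff_center_eq_top]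
      exact h
    rw [this, Subgroup.card_bot] at hc
    omega
  obtain ⟨x, hx⟩ : ∃ x : P, x ∉ Subgroup.center P := by
    by_contra hcon
    push Not at hcon
    exact hcen (eq_top_iff.mpr (fun y _ => hcon y))
  have hCtop : Subgroup.centralizer ({x} : Set P) ≠ ⊤ := by
    intro h
    apply hx
    rw [Subgroup.mem_center_iff]
    intro g
    have : g ∈ Subgroup.centralizer ({x} : Set P) := h ▸ Subgroup.mem_top g
    rw [Subgroup.mem_centralizer_singleton_iff] at this
    exact this
  have hidx : (Subgroup.centralizer ({x} : Set P)).index = 2 := by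
    have h1 := Cfsg.Agent.S3993.ncard_conj_eq_index x
    have h2 : {h : P | IsConj x h} ⊆ (fun c : P => c * x) '' (commutator P : Set P) := by
      intro h hh
      obtain ⟨g, hg⟩ := isConj_iff.mp hh
      refine ⟨⁅g, x⁆, ?_, ?_⟩
      · rw [commutator_def]
        exact Subgroup.commutator_mem_commutator (Subgroup.mem_top _) (Subgroup.mem_top _)
      · change ⁅g, x⁆ * x = h
        rw [commutatorElement_def, ← hg]
        group
    have h3 : Set.ncard {h : P | IsConj x h} ≤ 2 := by
      calc Set.ncard {h : P | IsConj x h}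
          ≤ Set.ncard ((fun c : P => c * x) '' (commutator P : Set P)) :=
            Set.ncard_le_ncard h2 (Set.toFinite _)
        _ ≤ Set.ncard (commutator P : Set P) := Set.ncard_image_le (Set.toFinite _)
        _ = 2 := by rw [← hc]; rfl
    rw [h1] at h3
    have h4 : (Subgroup.centralizer ({x} : Set P)).index ≠ 1 :=
      fun h => hCtop (Subgroup.index_eq_one.mp h)
    have h5 : (Subgroup.centralizer ({x} : Set P)).index ≠ 0 := Subgroup.index_ne_zero_of_finite
    omega
  refine ⟨Subgroup.centralizer ({x} : Set P), hidx, ?_⟩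
  have hCcard : Nat.card (Subgroup.centralizer ({x} : Set P)) = 8 := by
    have := Subgroup.card_mul_index (Subgroup.centralizer ({x} : Set P))
    rw [hidx, hP] at this
    omega
  have hnt : Nontrivial P := by
    rw [← Finite.one_lt_card_iff_nontrivial, hP]
    norm_num
  have hcnt := hPp.center_nontrivial
  obtain ⟨⟨z, hz⟩, hz1'⟩ := exists_ne (1 : Subgroup.center P)
  have hz1 : z ≠ 1 := fun h => hz1' (Subtype.ext h)
  have hxC : x ∈ Subgroup.centralizer ({x} : Set P) := by
    rw [Subgroup.mem_centralizer_singleton_iff]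
  have hzC : z ∈ Subgroup.centralizer ({x} : Set P) := by
    rw [Subgroup.mem_centralizer_singleton_iff]
    exact (Subgroup.mem_center_iff.mp hz x).symm
  have hxZ : (⟨x, hxC⟩ : Subgroup.centralizer ({x} : Set P)) ∈
      Subgroup.center (Subgroup.centralizer ({x} : Set P)) := by
    rw [Subgroup.mem_center_iff]
    rintro ⟨g, hg⟩
    apply Subtype.ext
    exact Subgroup.mem_centralizer_singleton_iff.mp hg
  have hzZ : (⟨z, hzC⟩ : Subgroup.centralizer ({x} : Set P)) ∈
      Subgroup.center (Subgroup.centralizer ({x} : Set P)) := by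
    rw [Subgroup.mem_center_iff]
    rintro ⟨g, hg⟩
    apply Subtype.ext
    exact Subgroup.mem_center_iff.mp hz g
  have hZC4 : 4 ≤ Nat.card (Subgroup.center (Subgroup.centralizer ({x} : Set P))) := by
    have hdvd : Nat.card (Subgroup.center (Subgroup.centralizer ({x} : Set P))) ∣ 8 :=
      hCcard ▸ Subgroup.card_subgroup_dvd_card _
    have hne1 : Nat.card (Subgroup.center (Subgroup.centralizer ({x} : Set P))) ≠ 1 := by
      intro h
      have hsub := (Nat.card_eq_one_iff_unique.mp h).1
      have h1 : (⟨⟨x, hxC⟩, hxZ⟩ :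
          Subgroup.center (Subgroup.centralizer ({x} : Set P))) = 1 := Subsingleton.elim _ _
      have hx1 : x = 1 := congrArg
        (fun t : Subgroup.center (Subgroup.centralizer ({x} : Set P)) =>
          ((t : Subgroup.centralizer ({x} : Set P)) : P)) h1
      apply hx
      rw [hx1]
      exact Subgroup.one_mem _
    have hne2 : Nat.card (Subgroup.center (Subgroup.centralizer ({x} : Set P))) ≠ 2 := by
      intro h
      have h1 := eq_of_card_two (Subgroup.center (Subgroup.centralizer ({x} : Set P))) h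
        ⟨x, hxC⟩ ⟨z, hzC⟩ hxZ hzZ
        (by
          intro h1
          have : x = 1 := congrArg Subtype.val h1
          exact hx (this ▸ Subgroup.one_mem _))
        (by
          intro h1
          exact hz1 (congrArg Subtype.val h1))
      have hxz : x = z := congrArg Subtype.val h1
      exact hx (hxz ▸ hz)
    by_contra hlt
    push Not at hlt
    have hpos : 0 < Nat.card (Subgroup.center (Subgroup.centralizer ({x} : Set P))) :=
      Nat.card_pos
    have h3 : Nat.card (Subgroup.center (Subgroup.centralizer ({x} : Set P))) = 3 := by omega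
    rw [h3] at hdvd
    norm_num at hdvd
  have hq := Subgroup.card_eq_card_quotient_mul_card_subgroup
    (Subgroup.center (Subgroup.centralizer ({x} : Set P)))
  rw [hCcard] at hq
  have hq2 : Nat.card (Subgroup.centralizer ({x} : Set P) ⧸
      Subgroup.center (Subgroup.centralizer ({x} : Set P))) ≤ 2 := by
    by_contra hlt
    push Not at hlt
    have := Nat.mul_le_mul hlt hZC4
    omega
  have hcyc : IsCyclic (Subgroup.centralizer ({x} : Set P) ⧸
      Subgroup.center (Subgroup.centralizer ({x} : Set P))) := by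
    have hpos : 0 < Nat.card (Subgroup.centralizer ({x} : Set P) ⧸
      Subgroup.center (Subgroup.centralizer ({x} : Set P))) := Nat.card_pos
    rcases (by omega : Nat.card (Subgroup.centralizer ({x} : Set P) ⧸
        Subgroup.center (Subgroup.centralizer ({x} : Set P))) = 1 ∨
        Nat.card (Subgroup.centralizer ({x} : Set P) ⧸
        Subgroup.center (Subgroup.centralizer ({x} : Set P))) = 2) with h | h
    · have := (Nat.card_eq_one_iff_unique.mp h).1
      infer_instance
    · exact isCyclic_of_prime_card (p := 2) h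
  intro u hu v hv
  have hcm := MonoidHom.isMulCommutative_of_isCyclic_of_ker_le_center
    (QuotientGroup.mk' (Subgroup.center (Subgroup.centralizer ({x} : Set P))))
    (by rw [QuotientGroup.ker_mk'])
  have := hcm.is_comm.comm (⟨u, hu⟩ : Subgroup.centralizer ({x} : Set P)) ⟨v, hv⟩
  exact congrArg Subtype.val this

/-- with two distinct abelian maximal subgroups in a nonabelian group of order 16: a maximal
subgroup is abelian iff it contains their intersection. -/
theorem abelian_max_iff {P : Type*} [Group P] [Finite P] (hP : Nat.card P = 2 ^ 4)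
    (hna : ∃ x y : P, x * y ≠ y * x) (A₁ A₂ : Subgroup P) (h₁ : A₁.index = 2)
    (h₂ : A₂.index = 2) (hne : A₁ ≠ A₂) (hc₁ : ∀ u ∈ A₁, ∀ v ∈ A₁, u * v = v * u)
    (hc₂ : ∀ u ∈ A₂, ∀ v ∈ A₂, u * v = v * u) (N : Subgroup P) (hN : N.index = 2) :
    (∀ u ∈ N, ∀ v ∈ N, u * v = v * u) ↔ A₁ ⊓ A₂ ≤ N := by
  have hZ := inf_le_center_of_index_two A₁ A₂ h₁ h₂ hne hc₁ hc₂
  have hZcard := card_inf_max 2 4 Nat.prime_two hP (by norm_num) A₁ A₂ h₁ h₂ hne
  have hNcard := (index_iff_card 2 4 Nat.prime_two hP (by norm_num) N).mp hN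
  constructor
  · intro hab
    by_contra hle
    obtain ⟨z, hz, hzN⟩ := SetLike.not_le_iff_exists.mp hle
    obtain ⟨x, y, hxy⟩ := hna
    apply hxy
    have hzc := hZ hz
    have key : ∀ u : P, ∃ n ∈ N, ∃ c ∈ Subgroup.center P, u = c * n := by
      intro u
      by_cases hu : u ∈ N
      · exact ⟨u, hu, 1, Subgroup.one_mem _, (one_mul u).symm⟩
      · refine ⟨z⁻¹ * u, ?_, z, hzc, by group⟩
        rw [Subgroup.mul_mem_iff_of_index_two hN]
        constructor
        · intro h
          exact absurd (by simpa using N.inv_mem h) hzN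
        · intro h
          exact absurd h hu
    obtain ⟨n₁, hn₁, c₁, hc₁', rfl⟩ := key x
    obtain ⟨n₂, hn₂, c₂, hc₂', rfl⟩ := key y
    have e := hab n₁ hn₁ n₂ hn₂
    have e1 := Subgroup.mem_center_iff.mp hc₁'
    have e2 := Subgroup.mem_center_iff.mp hc₂'
    calc c₁ * n₁ * (c₂ * n₂) = c₁ * (n₁ * c₂) * n₂ := by group
      _ = c₁ * (c₂ * n₁) * n₂ := by rw [e2 n₁]
      _ = c₁ * c₂ * (n₁ * n₂) := by group
      _ = c₁ * c₂ * (n₂ * n₁) := by rw [e]
      _ = (c₂ * c₁) * (n₂ * n₁) := by rw [e2 c₁]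
      _ = c₂ * (c₁ * n₂) * n₁ := by group
      _ = c₂ * (n₂ * c₁) * n₁ := by rw [← e1 n₂]
      _ = c₂ * n₂ * (c₁ * n₁) := by group
  · intro hle u hu v hv
    by_cases huZ : u ∈ A₁ ⊓ A₂
    · exact (Subgroup.mem_center_iff.mp (hZ huZ) v).symm
    by_cases hvZ : v ∈ A₁ ⊓ A₂
    · exact Subgroup.mem_center_iff.mp (hZ hvZ) u
    have hrel : ((A₁ ⊓ A₂).subgroupOf N).index = 2 := by
      have := card_eq_card_mul_relIndex hle
      rw [hNcard, hZcard] at this
      change (A₁ ⊓ A₂).relIndex N = 2
      norm_num at this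
      omega
    have h3 : (⟨u, hu⟩ : N)⁻¹ * ⟨v, hv⟩ ∈ (A₁ ⊓ A₂).subgroupOf N := by
      rw [Subgroup.mul_mem_iff_of_index_two hrel]
      constructor
      · intro h
        have h' := Subgroup.inv_mem _ h
        rw [inv_inv, Subgroup.mem_subgroupOf] at h'
        exact absurd h' huZ
      · intro h
        rw [Subgroup.mem_subgroupOf] at h
        exact absurd h hvZ
    have h4 : u⁻¹ * v ∈ A₁ ⊓ A₂ := by
      rw [Subgroup.mem_subgroupOf] at h3
      exact h3
    have h5 := Subgroup.mem_center_iff.mp (hZ h4) u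
    calc u * v = u * (u * (u⁻¹ * v)) := by group
      _ = u * ((u⁻¹ * v) * u) := by rw [h5]
      _ = v * u := by group

/-- a group of order `16` with `|P'| = 2` has an odd number of abelian maximal subgroups. -/
theorem abelian_max_odd {P : Type*} [Group P] [Finite P] (hP : Nat.card P = 2 ^ 4)
    (hc : Nat.card (commutator P) = 2) :
    Odd (Nat.card {N : Subgroup P // N.index = 2 ∧ ∀ u ∈ N, ∀ v ∈ N, u * v = v * u}) := by
  have hPp : IsPGroup 2 P := IsPGroup.of_card hP
  obtain ⟨A₁, h₁, hc₁⟩ := exists_abelian_max (by rw [hP]; norm_num) hc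
  have hna : ∃ x y : P, x * y ≠ y * x := by
    by_contra hcon
    push Not at hcon
    have : commutator P = ⊥ := by
      rw [commutator_eq_bot_iff_center_eq_top, eq_top_iff]
      intro z _
      rw [Subgroup.mem_center_iff]
      intro g
      exact hcon g z
    rw [this, Subgroup.card_bot] at hc
    omega
  by_cases hex : ∃ A₂ : Subgroup P, A₂.index = 2 ∧ (∀ u ∈ A₂, ∀ v ∈ A₂, u * v = v * u) ∧ A₁ ≠ A₂
  · obtain ⟨A₂, h₂, hc₂, hne⟩ := hex
    have hiff := abelian_max_iff hP hna A₁ A₂ h₁ h₂ hne hc₁ hc₂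
    have hcard : Nat.card {N : Subgroup P // N.index = 2 ∧ ∀ u ∈ N, ∀ v ∈ N, u * v = v * u} =
        Nat.card {N : Subgroup P // N.index = 2 ∧ A₁ ⊓ A₂ ≤ N} := by
      apply Nat.card_congr
      apply Equiv.subtypeEquivRight
      intro N
      constructor
      · rintro ⟨hN, hab⟩
        exact ⟨hN, (hiff N hN).mp hab⟩
      · rintro ⟨hN, hle⟩
        exact ⟨hN, (hiff N hN).mpr hle⟩
    rw [hcard]
    have hD : A₁ ⊓ A₂ ≠ ⊤ := by
      intro h
      apply ne_top_of_index_two A₁ h₁
      rw [eq_top_iff, ← h]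
      exact inf_le_left
    have := Cfsg.Agent.S4003.card_max_containing 2 Nat.prime_two hPp (A₁ ⊓ A₂) hD
    rw [Nat.odd_iff]
    exact this
  · push Not at hex
    have hsub : Subsingleton {N : Subgroup P // N.index = 2 ∧
        ∀ u ∈ N, ∀ v ∈ N, u * v = v * u} := by
      constructor
      rintro ⟨B₁, hB₁, cB₁⟩ ⟨B₂, hB₂, cB₂⟩
      apply Subtype.ext
      change B₁ = B₂
      have e1 : A₁ = B₁ := hex B₁ hB₁ cB₁
      have e2 : A₁ = B₂ := hex B₂ hB₂ cB₂
      rw [← e1, ← e2]
    have hne : Nonempty {N : Subgroup P // N.index = 2 ∧ ∀ u ∈ N, ∀ v ∈ N, u * v = v * u} :=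
      ⟨⟨A₁, h₁, hc₁⟩⟩
    have : Nat.card {N : Subgroup P // N.index = 2 ∧ ∀ u ∈ N, ∀ v ∈ N, u * v = v * u} = 1 := by
      rw [Nat.card_eq_one_iff_unique]
      exact ⟨hsub, hne⟩
    rw [this]
    exact odd_one

end Cfsg.Agent.Lib.Helper43.Kul
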