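import Mathlib
import Cfsg.Agent.Lib.Helper43.KulA
import Cfsg.Agent.Lib.Helper43.KulB
import Cfsg.Agent.Lib.Helper43.KulC
import Cfsg.Agent.Lib.Helper43.KulH
import Cfsg.Agent.Lib.Helper43.KulI
import Cfsg.Agent.Lib.Helper43.KulJ
import Cfsg.Agent.Lib.Helper43.KulK
import Cfsg.Agent.Lib.Helper43.KulL
import Cfsg.Agent.Lib.Helper43.KulM
import Cfsg.Agent.Lib.Helper43.KulN
import Cfsg.Agent.Lib.Helper43.KulO
import Cfsg.Agent.S3993
import Cfsg.Agent.S4003

set_option autoImplicit false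

namespace Cfsg.Agent.Lib.Helper43.Kul

universe u

open scoped commutatorElement

/-- Step 1: with a maximal subgroup `M₀` such that `|M₀ : M₀'| = 4`, in a noncyclic `2`-group `Y`
with `|Y : Y'| ≠ 4`, the commutator subgroup is cyclic of order `2^(r-3)`. -/
theorem comm_cyclic_of_bad_max {Y : Type u} [Group Y] [Finite Y] (r : ℕ) (hr : 4 ≤ r)
    (hY : Nat.card Y = 2 ^ r) (hnc : ¬ IsCyclic Y) (h8 : (commutator Y).index ≠ 4)
    (M₀ : Subgroup Y) (hM₀ : M₀.index = 2) (hM₀4 : (commutator ↥M₀).index = 4) :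
    ∃ b : Y, commutator Y = Subgroup.zpowers b ∧ orderOf b = 2 ^ (r - 3) := by
  have hMcard : Nat.card M₀ = 2 ^ (r - 1) :=
    (index_iff_card 2 r Nat.prime_two hY (by omega) M₀).mp hM₀
  obtain ⟨a₀, ha₀⟩ := exists_orderOf_of_comm_index_four (r - 1) (by omega) ↥M₀ hMcard hM₀4
  have hA₀i : (Subgroup.zpowers a₀).index = 2 := by
    rw [index_iff_card 2 (r - 1) Nat.prime_two hMcard (by omega), Nat.card_zpowers, ha₀]
  have hle₀ := comm_le_of_index_two (Subgroup.zpowers a₀) hA₀i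
  have hcc₀ := card_comm_of_index_four (r - 1) (by omega) hMcard hM₀4
  obtain ⟨s, rfl⟩ : ∃ s, r = s + 4 := ⟨r - 4, by omega⟩
  have ha₀' : orderOf a₀ = 2 ^ (s + 1 + 1) := by
    rw [ha₀]
    congr 1
  have hb₀ : orderOf (a₀ ^ 2) = 2 ^ (s + 1) := orderOf_sq_of_two_pow a₀ (s + 1) ha₀'
  have hcc₀' : Nat.card (commutator ↥M₀) = 2 ^ (s + 1) := by
    rw [hcc₀]
    congr 1
  have heq₀ : commutator ↥M₀ = Subgroup.zpowers (a₀ ^ 2) := by
    apply Subgroup.eq_of_le_of_card_ge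
    · intro c hc
      apply mem_zpowers_sq a₀ c (s + 1) ha₀' (hle₀ hc)
      have h5 : (⟨c, hc⟩ : commutator ↥M₀) ^ 2 ^ (s + 1) = 1 := by
        rw [← orderOf_dvd_iff_pow_eq_one]
        have := orderOf_dvd_natCard (⟨c, hc⟩ : commutator ↥M₀)
        rwa [hcc₀'] at this
      exact congrArg Subtype.val h5
    · rw [Nat.card_zpowers, hb₀, hcc₀']
  refine ⟨((a₀ ^ 2 : ↥M₀) : Y), ?_, ?_⟩
  · symm
    apply Subgroup.eq_of_le_of_card_ge
    · have h1 : Subgroup.zpowers (((a₀ ^ 2 : ↥M₀) : Y)) =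
          (commutator ↥M₀).map M₀.subtype := by
        rw [heq₀, MonoidHom.map_zpowers]
        rfl
      rw [h1, Subgroup.map_subtype_commutator, commutator_def]
      exact Subgroup.commutator_mono le_top le_top
    · rw [Nat.card_zpowers, Subgroup.orderOf_coe, hb₀]
      have := card_comm_dvd_of_index_ne_four (s + 1) (by rw [hY]) hnc h8
      exact Nat.le_of_dvd (by positivity) this
  · rw [Subgroup.orderOf_coe, hb₀]
    congr 1

/-- Step 2: the maximal subgroups `N` with `|N : N'| = 4` are those with `N' ≰ ⟨b²⟩`. -/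
theorem bad_iff_not_le {Y : Type u} [Group Y] [Finite Y] (r : ℕ) (hr : 4 ≤ r)
    (hY : Nat.card Y = 2 ^ r) (b : Y) (hb : commutator Y = Subgroup.zpowers b)
    (hbo : orderOf b = 2 ^ (r - 3)) (N : Subgroup Y) (hN : N.index = 2) :
    (commutator ↥N).index = 4 ↔ ¬ (⁅N, N⁆ ≤ Subgroup.zpowers (b ^ 2)) := by
  obtain ⟨s, rfl⟩ : ∃ s, r = s + 4 := ⟨r - 4, by omega⟩
  have hbo' : orderOf b = 2 ^ (s + 1) := by
    rw [hbo]
    congr 1
  have hb2 : orderOf (b ^ 2) = 2 ^ s := orderOf_sq_of_two_pow b s hbo'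
  have hNcard : Nat.card N = 2 ^ (s + 3) := by
    have := (index_iff_card 2 (s + 4) Nat.prime_two hY (by omega) N).mp hN
    simpa using this
  have hmap : (commutator ↥N).map N.subtype = ⁅N, N⁆ := Subgroup.map_subtype_commutator N
  have hcardmap : Nat.card ↥(⁅N, N⁆) = Nat.card (commutator ↥N) := by
    rw [← hmap]
    exact Subgroup.card_map_of_injective N.subtype_injective
  have hmul := Subgroup.card_mul_index (commutator ↥N)
  rw [hNcard] at hmul
  have hNNle : ⁅N, N⁆ ≤ Subgroup.zpowers b := by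
    rw [← hb, commutator_def]
    exact Subgroup.commutator_mono le_top le_top
  have e34 : 2 ^ (s + 3) = 2 ^ (s + 1) * 4 := by
    rw [show s + 3 = s + 1 + 2 by omega, pow_add]
    norm_num
  constructor
  · intro h4 hle
    rw [h4, e34] at hmul
    have h1 : Nat.card (commutator ↥N) = 2 ^ (s + 1) := by omega
    have h2 := Subgroup.card_le_of_le hle
    rw [hcardmap, h1, Nat.card_zpowers, hb2] at h2
    have : 2 ^ s < 2 ^ (s + 1) := Nat.pow_lt_pow_right (by norm_num) (by omega)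
    omega
  · intro hnle
    obtain ⟨c, hc, hcn⟩ := SetLike.not_le_iff_exists.mp hnle
    have hcb : c ∈ Subgroup.zpowers b := hNNle hc
    have hc1 : c ^ 2 ^ s ≠ 1 := fun h => hcn (mem_zpowers_sq b c s hbo' hcb h)
    have hbc : b ∈ Subgroup.zpowers c := mem_zpowers_of_pow_ne_one b c s hbo' hcb hc1
    have hle2 : Subgroup.zpowers b ≤ ⁅N, N⁆ := by
      rw [Subgroup.zpowers_le]
      exact (Subgroup.zpowers_le.mpr hc) hbc
    have h1 : Nat.card (commutator ↥N) = 2 ^ (s + 1) := by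
      rw [← hcardmap, ← hbo', ← Nat.card_zpowers]
      exact congrArg (fun H : Subgroup Y => Nat.card H) (le_antisymm hNNle hle2)
    rw [h1, e34] at hmul
    exact Nat.eq_of_mul_eq_mul_left (by positivity) hmul

/-- `⟨b²⟩` is normal when `⟨b⟩ = Y'`. -/
theorem zpowers_sq_normal {Y : Type*} [Group Y] (b : Y) (hb : commutator Y = Subgroup.zpowers b) :
    (Subgroup.zpowers (b ^ 2)).Normal := by
  constructor
  intro n hn g
  obtain ⟨j, rfl⟩ := Subgroup.mem_zpowers_iff.mp hn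
  have hnorm : (commutator Y).Normal := inferInstance
  have h1 : g * b * g⁻¹ ∈ Subgroup.zpowers b := by
    rw [← hb]
    exact hnorm.conj_mem b (hb ▸ Subgroup.mem_zpowers b) g
  obtain ⟨i, hi⟩ := Subgroup.mem_zpowers_iff.mp h1
  rw [Subgroup.mem_zpowers_iff]
  refine ⟨i * j, ?_⟩
  have h2 : g * (b ^ 2) ^ j * g⁻¹ = (g * b * g⁻¹) ^ (2 * j) := by
    rw [conj_zpow, ← zpow_natCast b 2, ← zpow_mul]
    norm_num
  rw [h2, ← hi, ← zpow_mul, ← zpow_natCast b 2, ← zpow_mul]
  congr 1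
  push_cast
  ring

/-- Step 3: maximal subgroups `N` of `Y` with `N' ≤ K` correspond to abelian maximal subgroups
of `Y ⧸ K`. -/
theorem card_max_comm_le {Y : Type u} [Group Y] [Finite Y] (K : Subgroup Y) [K.Normal]
    (hK : K ≤ commutator Y) :
    Nat.card {N : Subgroup Y // N.index = 2 ∧ ⁅N, N⁆ ≤ K} =
      Nat.card {N : Subgroup (Y ⧸ K) // N.index = 2 ∧ ∀ u ∈ N, ∀ v ∈ N, u * v = v * u} := by
  have hker : ∀ N : Subgroup Y, N.index = 2 → (QuotientGroup.mk' K).ker ≤ N := by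
    intro N hN
    rw [QuotientGroup.ker_mk']
    exact hK.trans (comm_le_of_index_two N hN)
  apply Nat.card_congr
  refine
    { toFun := fun N => ⟨N.1.map (QuotientGroup.mk' K), ?_, ?_⟩
      invFun := fun N => ⟨N.1.comap (QuotientGroup.mk' K), ?_, ?_⟩
      left_inv := ?_
      right_inv := ?_ }
  · rw [Subgroup.index_map_eq _ (QuotientGroup.mk'_surjective K) (hker N.1 N.2.1)]
    exact N.2.1
  · rintro u ⟨n₁, hn₁, rfl⟩ v ⟨n₂, hn₂, rfl⟩
    rw [← map_mul, ← map_mul]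
    change ((n₁ * n₂ : Y) : Y ⧸ K) = ((n₂ * n₁ : Y) : Y ⧸ K)
    rw [QuotientGroup.eq]
    have h1 : (n₁ * n₂)⁻¹ * (n₂ * n₁) = ⁅n₂⁻¹, n₁⁻¹⁆ := by
      rw [commutatorElement_def]
      group
    rw [h1]
    exact N.2.2 (Subgroup.commutator_mem_commutator (N.1.inv_mem hn₂) (N.1.inv_mem hn₁))
  · rw [Subgroup.index_comap_of_surjective _ (QuotientGroup.mk'_surjective K)]
    exact N.2.1
  · rw [Subgroup.commutator_le]
    intro g₁ hg₁ g₂ hg₂
    rw [← QuotientGroup.eq_one_iff, commutatorElement_def]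
    have h1 := N.2.2 _ (Subgroup.mem_comap.mp hg₁) _ (Subgroup.mem_comap.mp hg₂)
    simp only [QuotientGroup.mk'_apply] at h1
    rw [QuotientGroup.mk_mul, QuotientGroup.mk_mul, QuotientGroup.mk_mul, QuotientGroup.mk_inv,
      QuotientGroup.mk_inv, h1]
    group
  · intro N
    apply Subtype.ext
    exact Subgroup.comap_map_eq_self (hker N.1 N.2.1)
  · intro N
    apply Subtype.ext
    exact Subgroup.map_comap_eq_self_of_surjective (QuotientGroup.mk'_surjective K) N.1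

/-- (S2) a noncyclic `2`-group of order `≥ 16` with `|Y : Y'| ≠ 4` has an even number of
maximal subgroups `M` with `|M : M'| = 4`. -/
theorem bad_max_even {Y : Type u} [Group Y] [Finite Y] (r : ℕ) (hr : 4 ≤ r)
    (hY : Nat.card Y = 2 ^ r) (hnc : ¬ IsCyclic Y) (h8 : (commutator Y).index ≠ 4) :
    Even (Nat.card {M : Subgroup Y // M.index = 2 ∧ (commutator ↥M).index = 4}) := by
  by_cases hex : ∃ M₀ : Subgroup Y, M₀.index = 2 ∧ (commutator ↥M₀).index = 4
  swap
  · have hemp : IsEmpty {M : Subgroup Y // M.index = 2 ∧ (commutator ↥M).index = 4} :=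
      ⟨fun M => hex ⟨M.1, M.2⟩⟩
    rw [Nat.card_of_isEmpty]
    exact Even.zero
  obtain ⟨M₀, hM₀, hM₀4⟩ := hex
  obtain ⟨b, hb, hbo⟩ := comm_cyclic_of_bad_max r hr hY hnc h8 M₀ hM₀ hM₀4
  have hKn : (Subgroup.zpowers (b ^ 2)).Normal := zpowers_sq_normal b hb
  have hKle : Subgroup.zpowers (b ^ 2) ≤ commutator Y := by
    rw [hb, Subgroup.zpowers_le]
    exact Subgroup.pow_mem _ (Subgroup.mem_zpowers b) 2
  obtain ⟨s, rfl⟩ : ∃ s, r = s + 4 := ⟨r - 4, by omega⟩
  have hbo' : orderOf b = 2 ^ (s + 1) := by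
    rw [hbo]
    congr 1
  have hb2 : orderOf (b ^ 2) = 2 ^ s := orderOf_sq_of_two_pow b s hbo'
  -- the quotient has order 16 and commutator subgroup of order 2
  have hQ : Nat.card (Y ⧸ Subgroup.zpowers (b ^ 2)) = 2 ^ 4 := by
    have h1 := Subgroup.card_eq_card_quotient_mul_card_subgroup (Subgroup.zpowers (b ^ 2))
    rw [hY, Nat.card_zpowers, hb2, show s + 4 = 4 + s by omega, pow_add] at h1
    exact (Nat.eq_of_mul_eq_mul_right (by positivity) h1).symm
  have hQc : Nat.card (commutator (Y ⧸ Subgroup.zpowers (b ^ 2))) = 2 := by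
    have h1 := comm_index_quotient (Subgroup.zpowers (b ^ 2)) hKle
    have h2 := Subgroup.card_mul_index (commutator Y)
    rw [hb, Nat.card_zpowers, hbo', hY, ← hb, show s + 4 = s + 1 + 3 by omega,
      pow_add 2 (s + 1) 3] at h2
    have h3 : (commutator Y).index = 2 ^ 3 := Nat.eq_of_mul_eq_mul_left (by positivity) h2
    rw [h3] at h1
    have h4 := Subgroup.card_mul_index (commutator (Y ⧸ Subgroup.zpowers (b ^ 2)))
    rw [h1, hQ] at h4
    omega
  have hodd := abelian_max_odd hQ hQc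
  rw [← card_max_comm_le (Subgroup.zpowers (b ^ 2)) hKle] at hodd
  -- the split
  have hm := two_group_max_count (s + 4) hY hnc
  classical
  have := Fintype.ofFinite (Subgroup Y)
  set 𝔐 : Finset (Subgroup Y) := Finset.univ.filter (fun M : Subgroup Y => M.index = 2) with h𝔐
  have e1 : Nat.card {M : Subgroup Y // M.index = 2} = 𝔐.card :=
    Nat.subtype_card _ (by simp [h𝔐])
  have e2 : Nat.card {M : Subgroup Y // M.index = 2 ∧ (commutator ↥M).index = 4} =
      (𝔐.filter (fun M : Subgroup Y => ¬ (⁅M, M⁆ ≤ Subgroup.zpowers (b ^ 2)))).card := by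
    apply Nat.subtype_card
    intro M
    simp only [h𝔐, Finset.mem_filter, Finset.mem_univ, true_and]
    constructor
    · rintro ⟨h1, h2⟩
      exact ⟨h1, (bad_iff_not_le (s + 4) hr hY b hb hbo M h1).mpr h2⟩
    · rintro ⟨h1, h2⟩
      exact ⟨h1, (bad_iff_not_le (s + 4) hr hY b hb hbo M h1).mp h2⟩
  have e3 : Nat.card {N : Subgroup Y // N.index = 2 ∧ ⁅N, N⁆ ≤ Subgroup.zpowers (b ^ 2)} =
      (𝔐.filter (fun M : Subgroup Y => ⁅M, M⁆ ≤ Subgroup.zpowers (b ^ 2))).card := by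
    apply Nat.subtype_card
    intro M
    simp [h𝔐]
  have e4 := Finset.card_filter_add_card_filter_not (s := 𝔐)
    (fun M : Subgroup Y => ⁅M, M⁆ ≤ Subgroup.zpowers (b ^ 2))
  rw [e1] at hm
  rw [e3] at hodd
  rw [e2]
  have hm' : 𝔐.card % 4 = 3 := hm
  obtain ⟨t, ht⟩ := hodd
  rw [Nat.even_iff]
  omega

end Cfsg.Agent.Lib.Helper43.Kul
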