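import Mathlib
import Cfsg.Agent.Lib.Helper43.KulA
import Cfsg.Agent.Lib.Helper43.KulB
import Cfsg.Agent.Lib.Helper43.KulC
import Cfsg.Agent.Lib.Helper43.KulH
import Cfsg.Agent.Lib.Helper43.KulI
import Cfsg.Agent.Lib.Helper43.KulJ
import Cfsg.Agent.Lib.Helper43.KulK
import Cfsg.Agent.Lib.Helper43.KulL
import Cfsg.Agent.Lib.Helper43.KulM
import Cfsg.Agent.Lib.Helper43.KulN
import Cfsg.Agent.Lib.Helper43.KulO
import Cfsg.Agent.Lib.Helper43.KulP

set_option autoImplicit false

namespace Cfsg.Agent.Lib.Helper43.Kul

universe u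

open scoped commutatorElement

/-- a cyclic `2`-group has exactly one subgroup of each possible order. -/
theorem cyclic_count {X : Type*} [Group X] [Finite X] [IsCyclic X] (n k : ℕ)
    (hX : Nat.card X = 2 ^ n) (hk : k ≤ n) :
    Nat.card {V : Subgroup X // Nat.card V = 2 ^ k} = 1 := by
  have hfact : Fact (Nat.Prime 2) := ⟨Nat.prime_two⟩
  rw [Nat.card_eq_one_iff_unique]
  constructor
  · constructor
    rintro ⟨U, hU⟩ ⟨V, hV⟩
    exact Subtype.ext (cyclic_subgroup_unique U V (hU.trans hV.symm))
  · obtain ⟨K, hK⟩ := Sylow.exists_subgroup_card_pow_prime 2 (hX ▸ pow_dvd_pow 2 hk)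
    exact ⟨⟨K, hK⟩⟩

/-- the number of subgroups of order `2^k` of a noncyclic `2`-group, modulo `4`:
`≡ 3` unless `|Y : Y'| = 4` (and `|Y| ≥ 8`), in which case `≡ 1` for `k ≤ r - 2`. -/
theorem two_group_count : ∀ (r : ℕ) (Y : Type u) [Group Y] [Finite Y], Nat.card Y = 2 ^ r →
    ¬ IsCyclic Y →
    ((¬ (3 ≤ r ∧ (commutator Y).index = 4)) → ∀ k, 1 ≤ k → k < r →
        Nat.card {U : Subgroup Y // Nat.card U = 2 ^ k} ≡ 3 [MOD 4]) ∧
    ((3 ≤ r ∧ (commutator Y).index = 4) → ∀ k, 1 ≤ k → k + 2 ≤ r →
        Nat.card {U : Subgroup Y // Nat.card U = 2 ^ k} ≡ 1 [MOD 4]) := by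
  intro r
  induction r using Nat.strong_induction_on with
  | _ r ih =>
  intro Y _ _ hY hnc
  classical
  have := Fintype.ofFinite (Subgroup Y)
  set 𝔐 : Finset (Subgroup Y) := Finset.univ.filter (fun M : Subgroup Y => M.index = 2)
    with h𝔐def
  have h𝔐 : ∀ M, M ∈ 𝔐 ↔ M.index = 2 := by simp [h𝔐def]
  have hm : 𝔐.card ≡ 3 [MOD 4] := by
    have := two_group_max_count r hY hnc
    rwa [Nat.subtype_card 𝔐 h𝔐] at this
  have hcyc : Nat.card {M : Subgroup Y // M.index = 2 ∧ IsCyclic ↥M} =
      (𝔐.filter (fun M : Subgroup Y => IsCyclic ↥M)).card :=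
    Nat.subtype_card _ (by simp [h𝔐def])
  have hbadc : Nat.card {M : Subgroup Y // M.index = 2 ∧ (commutator ↥M).index = 4} =
      (𝔐.filter (fun M : Subgroup Y => (commutator ↥M).index = 4)).card :=
    Nat.subtype_card _ (by simp [h𝔐def])
  -- the core congruence
  have core : ∀ k, 1 ≤ k → k + 2 ≤ r →
      Nat.card {U : Subgroup Y // Nat.card U = 2 ^ k} +
        2 * (𝔐.filter (fun M : Subgroup Y => IsCyclic ↥M ∨
          (k + 3 ≤ r ∧ (commutator ↥M).index = 4))).card ≡ 3 [MOD 4] := by
    intro k hk1 hk2
    set 𝔘 : Finset (Subgroup Y) := Finset.univ.filter (fun U : Subgroup Y => Nat.card U = 2 ^ k)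
      with h𝔘def
    have h𝔘 : ∀ U, U ∈ 𝔘 ↔ Nat.card U = 2 ^ k := by simp [h𝔘def]
    have hrec := count_recursion 2 r k Nat.prime_two hY hk2 𝔐 𝔘 h𝔐 h𝔘
    have hterm : ∀ M ∈ 𝔐, (𝔘.filter (fun U => U ≤ M)).card +
        2 * (if (IsCyclic ↥M ∨ (k + 3 ≤ r ∧ (commutator ↥M).index = 4)) then 1 else 0)
          ≡ 3 [MOD 4] := by
      intro M hM
      have hMi := (h𝔐 M).mp hM
      have hMcard : Nat.card M = 2 ^ (r - 1) :=
        (index_iff_card 2 r Nat.prime_two hY (by omega) M).mp hMi
      have e1 : (𝔘.filter (fun U => U ≤ M)).card =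
          Nat.card {V : Subgroup ↥M // Nat.card V = 2 ^ k} := by
        rw [card_subgroups_le M (2 ^ k)]
        symm
        apply Nat.subtype_card
        intro U
        simp [h𝔘]
      rw [e1]
      by_cases hMc : IsCyclic ↥M
      · rw [if_pos (Or.inl hMc)]
        have h1 : Nat.card {V : Subgroup ↥M // Nat.card V = 2 ^ k} = 1 :=
          cyclic_count (r - 1) k hMcard (by omega)
        rw [h1]
      · obtain ⟨ih1, ih2⟩ := ih (r - 1) (by omega) ↥M hMcard hMc
        by_cases hbad : (commutator ↥M).index = 4
        · by_cases hk3 : k + 3 ≤ r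
          · rw [if_pos (Or.inr ⟨hk3, hbad⟩)]
            have h1 := ih2 ⟨by omega, hbad⟩ k hk1 (by omega)
            exact Nat.ModEq.add_right (2 * 1) h1
          · rw [if_neg (by
              rintro (h | h)
              · exact hMc h
              · exact hk3 h.1)]
            by_cases h3 : 3 ≤ r - 1
            · have hk : k = r - 1 - 1 := by omega
              have hmM := two_group_max_count (r - 1) hMcard hMc
              have e2 : Nat.card {V : Subgroup ↥M // Nat.card V = 2 ^ k} =
                  Nat.card {V : Subgroup ↥M // V.index = 2} := by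
                apply Nat.card_congr
                apply Equiv.subtypeEquivRight
                intro V
                rw [hk]
                exact (index_iff_card 2 (r - 1) Nat.prime_two hMcard (by omega) V).symm
              rw [e2]
              exact hmM
            · have h1 := ih1 (fun h => h3 h.1) k hk1 (by omega)
              exact h1
        · rw [if_neg (by
            rintro (h | h)
            · exact hMc h
            · exact hbad h.2)]
          have h1 := ih1 (fun h => hbad h.2) k hk1 (by omega)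
          exact h1
    have hsum := Nat.ModEq.sum hterm
    rw [Finset.sum_add_distrib, Finset.sum_const, smul_eq_mul, ← Finset.mul_sum,
      Finset.sum_boole] at hsum
    have e𝔘 : Nat.card {U : Subgroup Y // Nat.card U = 2 ^ k} = 𝔘.card :=
      Nat.subtype_card 𝔘 h𝔘
    rw [e𝔘]
    have hmm : 𝔐.card * 𝔐.card ≡ 3 * 3 [MOD 4] := Nat.ModEq.mul hm hm
    simp only [Nat.cast_id] at hsum
    generalize 𝔐.card * 𝔐.card = q at hmm hrec
    generalize ∑ M ∈ 𝔐, (𝔘.filter (fun U => U ≤ M)).card = S at hsum hrec
    unfold Nat.ModEq at *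
    omega
  constructor
  · -- R1
    intro hnb k hk1 hk
    by_cases hk2 : k + 2 ≤ r
    · have hc := core k hk1 hk2
      have h8 : (commutator Y).index ≠ 4 := fun h => hnb ⟨by omega, h⟩
      have hev1 := cyclic_max_even r (by omega) hY hnc h8
      rw [hcyc] at hev1
      have hB : Even (𝔐.filter (fun M : Subgroup Y => IsCyclic ↥M ∨
          (k + 3 ≤ r ∧ (commutator ↥M).index = 4))).card := by
        by_cases hk3 : k + 3 ≤ r
        · have hev2 := bad_max_even r (by omega) hY hnc h8
          rw [hbadc] at hev2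
          have hfil : 𝔐.filter (fun M : Subgroup Y => IsCyclic ↥M ∨
              (k + 3 ≤ r ∧ (commutator ↥M).index = 4)) =
              𝔐.filter (fun M : Subgroup Y => IsCyclic ↥M) ∪
                𝔐.filter (fun M : Subgroup Y => (commutator ↥M).index = 4) := by
            rw [← Finset.filter_or]
            apply Finset.filter_congr
            intro M _
            simp [hk3]
          rw [hfil, Finset.card_union_of_disjoint]
          · exact hev1.add hev2
          · rw [Finset.disjoint_filter]
            intro M hM hMc hbad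
            have hMcard : Nat.card M = 2 ^ (r - 1) :=
              (index_iff_card 2 r Nat.prime_two hY (by omega) M).mp ((h𝔐 M).mp hM)
            exact not_cyclic_of_comm_index_four (r - 1) (by omega) hMcard hbad hMc
        · have hfil : 𝔐.filter (fun M : Subgroup Y => IsCyclic ↥M ∨
              (k + 3 ≤ r ∧ (commutator ↥M).index = 4)) =
              𝔐.filter (fun M : Subgroup Y => IsCyclic ↥M) := by
            apply Finset.filter_congr
            intro M _
            simp [hk3]
          rw [hfil]
          exact hev1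
      obtain ⟨t, ht⟩ := hB
      rw [ht] at hc
      unfold Nat.ModEq at *
      omega
    · have hkr : k = r - 1 := by omega
      have e2 : Nat.card {U : Subgroup Y // Nat.card U = 2 ^ k} =
          Nat.card {U : Subgroup Y // U.index = 2} := by
        apply Nat.card_congr
        apply Equiv.subtypeEquivRight
        intro V
        rw [hkr]
        exact (index_iff_card 2 r Nat.prime_two hY (by omega) V).symm
      rw [e2]
      exact two_group_max_count r hY hnc
  · -- R2
    rintro ⟨hr3, h4⟩ k hk1 hk2
    have hc := core k hk1 hk2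
    have hod1 := cyclic_max_odd r hr3 hY h4
    rw [hcyc] at hod1
    have hB : Odd (𝔐.filter (fun M : Subgroup Y => IsCyclic ↥M ∨
        (k + 3 ≤ r ∧ (commutator ↥M).index = 4))).card := by
      by_cases hk3 : k + 3 ≤ r
      · have hfil : 𝔐.filter (fun M : Subgroup Y => IsCyclic ↥M ∨
            (k + 3 ≤ r ∧ (commutator ↥M).index = 4)) = 𝔐 := by
          rw [Finset.filter_eq_self]
          intro M hM
          by_cases hMc : IsCyclic ↥M
          · exact Or.inl hMc
          · exact Or.inr ⟨hk3, max_comm_index_four r (by omega) hY h4 M ((h𝔐 M).mp hM) hMc⟩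
        rw [hfil, Nat.odd_iff]
        have hm' : 𝔐.card % 4 = 3 := hm
        omega
      · have hfil : 𝔐.filter (fun M : Subgroup Y => IsCyclic ↥M ∨
            (k + 3 ≤ r ∧ (commutator ↥M).index = 4)) =
            𝔐.filter (fun M : Subgroup Y => IsCyclic ↥M) := by
          apply Finset.filter_congr
          intro M _
          simp [hk3]
        rw [hfil]
        exact hod1
    obtain ⟨t, ht⟩ := hB
    rw [ht] at hc
    unfold Nat.ModEq at *
    omega

end Cfsg.Agent.Lib.Helper43.Kul
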