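import Mathlib
import Cfsg.Agent.Lib.Helper52.OutDefs
import Cfsg.Agent.Lib.Helper52.OAMain
import Cfsg.Agent.Lib.Helper86.OAEM
import Cfsg.Prelude.Def_LieTypeDatum

/-!
# Outer automorphisms of orthogonal groups, piece OU-U3 (for helper52)

A semisimilarity pair `(h, τ)` of a non-degenerate quadratic form in dimension at least 7 which
induces the identity automorphism of `PΩ` is `(scalar, id)`.
-/

set_option autoImplicit false

namespace Cfsg.Agent.Lib.Helper43.OUU3

open Module QuadraticMap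
open Cfsg.Agent.Lib.Helper51 Cfsg.Agent.Lib.Helper52 Cfsg.Agent.Lib.Helper52.OA
open Cfsg.Agent.Lib.Helper52.OU

variable {ι : Type} [Fintype ι] [DecidableEq ι] {F : Type*} [Field F]

local notation "mt(" g ")" => ((g : Matrix.GeneralLinearGroup ι F) : Matrix ι ι F)

/-- A matrix having every non-zero singular vector as an eigenvector is a scalar
(the matrix version of `eq_smul_of_fix_singular`). -/
theorem mat_eq_smul_of_fix_singular [Fintype F] (Q : QuadraticForm F (ι → F))
    (hQ : (polarBilin Q).Nondegenerate) (hn : 5 ≤ Fintype.card ι)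
    (M : Matrix ι ι F)
    (hg : ∀ v : ι → F, v ≠ 0 → Q v = 0 → ∃ c : F, M.mulVec v = c • v) :
    ∃ lam : F, ∀ x, M.mulVec x = lam • x := by
  classical
  obtain ⟨u₀, hu₀0, hu₀, -⟩ := exists_singular_orth Q hQ ∅ (by simp; omega)
  obtain ⟨lam, hlam⟩ := hg u₀ hu₀0 hu₀
  have K1 : ∀ v s : ι → F, v ≠ 0 → Q v = 0 → Q s = 0 → polar ⇑Q v s = 0 →
      s ∉ Submodule.span F ({v} : Set (ι → F)) → ∀ c : F, M.mulVec v = c • v →
      M.mulVec s = c • s := by
    intro v s hv0 hv hs hvs hsv c hc
    have hs0 : s ≠ 0 := by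
      rintro rfl
      exact hsv (Submodule.zero_mem _)
    obtain ⟨c', hc'⟩ := hg s hs0 hs
    have hvs0 : v + s ≠ 0 := by
      intro h
      apply hsv
      have e : s = (-1 : F) • v := by
        rw [neg_one_smul]
        exact eq_neg_of_add_eq_zero_right h
      rw [e]
      exact Submodule.smul_mem _ _ (Submodule.mem_span_singleton_self v)
    have hQvs : Q (v + s) = 0 := by
      have e : Q (v + s) = Q v + Q s + polar ⇑Q v s := by unfold QuadraticMap.polar; ring
      rw [e, hv, hs, hvs]; ring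
    obtain ⟨μ, hμ⟩ := hg (v + s) hvs0 hQvs
    rw [Matrix.mulVec_add, hc, hc', smul_add] at hμ
    have h1 : (c' - μ) • s = (μ - c) • v := by
      rw [sub_smul, sub_smul]
      have e1 : c' • s = μ • v + μ • s - c • v := by rw [← hμ]; abel
      rw [e1]; abel
    by_cases h2 : c' - μ = 0
    · have h3 : (μ - c) • v = 0 := by rw [← h1, h2, zero_smul]
      rcases smul_eq_zero.mp h3 with h | h
      · rw [hc', sub_eq_zero.mp h2, sub_eq_zero.mp h]
      · exact absurd h hv0
    · exfalso
      apply hsv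
      rw [Submodule.mem_span_singleton]
      exact ⟨(c' - μ)⁻¹ * (μ - c), by
        rw [← smul_smul, ← h1, smul_smul, inv_mul_cancel₀ h2, one_smul]⟩
  have Kall : ∀ v : ι → F, v ≠ 0 → Q v = 0 → M.mulVec v = lam • v := by
    intro v hv0 hv
    by_cases hmem : v ∈ Submodule.span F ({u₀} : Set (ι → F))
    · obtain ⟨a, rfl⟩ := Submodule.mem_span_singleton.mp hmem
      rw [Matrix.mulVec_smul, hlam, smul_comm]
    by_cases horth : polar ⇑Q u₀ v = 0
    · exact K1 u₀ v hu₀0 hu₀ hv horth hmem lam hlam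
    · obtain ⟨d, hd0, hQd, ho⟩ := exists_singular_orth Q hQ {u₀, v}
        (by have := Finset.card_le_two (a := u₀) (b := v); omega)
      have hud : polar ⇑Q u₀ d = 0 := ho u₀ (by simp)
      have hvd : polar ⇑Q v d = 0 := ho v (by simp)
      have hvu : polar ⇑Q v u₀ ≠ 0 := by rw [polar_comm]; exact horth
      have n1 : d ∉ Submodule.span F ({u₀} : Set (ι → F)) := by
        intro h
        obtain ⟨c, rfl⟩ := Submodule.mem_span_singleton.mp h
        rw [polar_smul_right, smul_eq_mul] at hvd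
        rcases mul_eq_zero.mp hvd with h | h
        · apply hd0; rw [h, zero_smul]
        · exact hvu h
      have n2 : v ∉ Submodule.span F ({d} : Set (ι → F)) := by
        intro h
        obtain ⟨c, hc⟩ := Submodule.mem_span_singleton.mp h
        apply horth
        rw [← hc, polar_smul_right, hud, smul_zero]
      have hd := K1 u₀ d hu₀0 hu₀ hQd hud n1 lam hlam
      exact K1 d v hd0 hQd hv (by rw [polar_comm]; exact hvd) n2 lam hd
  have hpos : ∀ x : ι → F, polar ⇑Q u₀ x ≠ 0 → M.mulVec x = lam • x := by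
    intro x hx
    obtain ⟨a, ha⟩ : ∃ a, a = Q x / polar ⇑Q u₀ x := ⟨_, rfl⟩
    have hs : Q (x - a • u₀) = 0 := by
      rw [Q_sub_smul', hu₀, ha]
      field_simp
      ring
    have hs0 : x - a • u₀ ≠ 0 := by
      intro h
      apply hx
      rw [sub_eq_zero] at h
      rw [h, polar_smul_right, Cfsg.Agent.Lib.Helper51.polar_self, hu₀]
      simp
    have h1 := Kall _ hs0 hs
    calc M.mulVec x = M.mulVec ((x - a • u₀) + a • u₀) := by
          congr 1; abel
      _ = lam • (x - a • u₀) + a • lam • u₀ := by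
          rw [Matrix.mulVec_add, Matrix.mulVec_smul, h1, hlam]
      _ = lam • x := by module
  refine ⟨lam, fun x => ?_⟩
  by_cases hx : polar ⇑Q u₀ x = 0
  · obtain ⟨x₀, hx₀⟩ := exists_polar_ne_zero Q hQ u₀ hu₀0
    have h1 := hpos (x + x₀) (by rw [polar_add_right, hx, zero_add]; exact hx₀)
    have h2 := hpos x₀ hx₀
    rw [Matrix.mulVec_add, h2, smul_add] at h1
    exact add_right_cancel h1
  · exact hpos x hx

/-- PIECE OU-U3: a semisimilarity pair inducing the identity on `PΩ` is `(scalar, id)`. -/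
theorem ind_one_scalar [Fintype F] (Q : QuadraticForm F (ι → F))
    (hQ : (polarBilin Q).Nondegenerate) (hn : 7 ≤ Fintype.card ι)
    (hconj : ∀ (g : GL ι F) (σ : F ≃+* F), Cfsg.IsSemisimilarityPair ⇑Q g σ →
      ∀ s : ↥(Cfsg.Omega F ⇑Q), ∃ s' : ↥(Cfsg.Omega F ⇑Q),
        mt((s' : ↥(Cfsg.isometryGroup F ⇑Q)))
          = mt(g) * (mt((s : ↥(Cfsg.isometryGroup F ⇑Q)))).map σ * mt(g⁻¹))
    (h : GL ι F) (τ : F ≃+* F) (hh : Ind ⇑Q 1 h τ) :
    τ = RingEquiv.refl F ∧ ∃ c : Fˣ, mt(h) = (c : F) • (1 : Matrix ι ι F) := by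
  classical
  have hn5 : 5 ≤ Fintype.card ι := by omega
  obtain ⟨⟨c, hc⟩, hind⟩ := hh
  obtain ⟨T, hT⟩ : ∃ T : (ι → F) → (ι → F), ∀ v, T v = mt(h).mulVec (fun i => τ (v i)) :=
    ⟨_, fun _ => rfl⟩
  have hadd : ∀ x y, T (x + y) = T x + T y := by
    intro x y
    rw [hT, hT, hT, ← Matrix.mulVec_add]
    congr 1
    funext i
    simp
  have hsub : ∀ x y, T (x - y) = T x - T y := by
    intro x y
    have h1 := hadd (x - y) y
    rw [sub_add_cancel] at h1
    rw [h1]; abel
  have hsemi : ∀ (t : F) x, T (t • x) = τ t • T x := by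
    intro t x
    rw [hT, hT, ← Matrix.mulVec_smul]
    congr 1
    funext i
    simp
  have hinj : ∀ x, T x = 0 → x = 0 := by
    intro x hx
    have h1 : mt(h⁻¹).mulVec (T x) = fun i => τ (x i) := by
      rw [hT, Matrix.mulVec_mulVec, ← Units.val_mul, inv_mul_cancel, Units.val_one,
        Matrix.one_mulVec]
    rw [hx, Matrix.mulVec_zero] at h1
    funext i
    have h2 := congrFun h1 i
    simpa using h2.symm
  have hQT : ∀ x, Q (T x) = (c : F) * τ (Q x) := by
    intro x
    rw [hT]
    exact hc x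
  obtain ⟨G, hG1, -, hG3⟩ := Cfsg.Agent.Lib.Helper86.OAEM.semisim_matrix Q T τ c c.ne_zero hadd
    hsemi hinj hQT
  have hGh : G = h := by
    apply Units.ext
    apply matrix_ext_mulVec
    intro x
    have h1 := hG1 (fun i => τ.symm (x i))
    rw [hT] at h1
    simpa using h1
  rw [hGh] at hG3
  -- the key identity of Eichler matrices
  have hE : ∀ e w : ι → F, Q e = 0 → polar ⇑Q e w = 0 →
      eichMat Q e w = eichMat Q (T e) ((c : F)⁻¹ • T w) := by
    intro e w he hew
    obtain ⟨s', hs'⟩ := hconj h τ ⟨c, hc⟩ (eo Q hQ hn5 e w he hew)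
    have h1 := hind (eo Q hQ hn5 e w he hew) s' hs'
    rw [MulAut.one_apply] at h1
    rw [eo_coe, coe_eich, hG3] at hs'
    obtain ⟨x, hx0, -, hxo⟩ := exists_singular_orth Q hQ {e, w, T e, T w} (by
      have := Finset.card_le_four (a := e) (b := w) (c := T e) (d := T w); omega)
    have hx1 : polar ⇑Q e x = 0 := hxo e (by simp)
    have hx2 : polar ⇑Q w x = 0 := hxo w (by simp)
    have hx3 : polar ⇑Q (T e) x = 0 := hxo (T e) (by simp)
    have hx4 : polar ⇑Q (T w) x = 0 := hxo (T w) (by simp)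
    have h2 : eo Q hQ hn5 e w he hew = s' := by
      apply pj_inj_of_fix Q hQ hn _ _ x hx0
      · rw [eo_coe, coe_eich]
        exact eichMat_mulVec_of_orth Q e w x hx2 hx1
      · rw [hs']
        apply eichMat_mulVec_of_orth Q
        · rw [polar_smul_left, hx4, smul_zero]
        · exact hx3
      · exact h1
    rw [← hs', ← h2, eo_coe, coe_eich]
  -- `T e ∈ span {e, w}`
  have hspan : ∀ e w : ι → F, e ≠ 0 → Q e = 0 → polar ⇑Q e w = 0 →
      w ∉ Submodule.span F ({e} : Set (ι → F)) →
      T e ∈ Submodule.span F ({e, w} : Set (ι → F)) := by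
    intro e w he0 he hew hw
    have h1 := hE e w he hew
    have hTe0 : T e ≠ 0 := fun h0 => he0 (hinj e h0)
    have hnot : (c : F)⁻¹ • T w ∉ Submodule.span F ({T e} : Set (ι → F)) := by
      intro hmem
      obtain ⟨a, ha⟩ := Submodule.mem_span_singleton.mp hmem
      apply hw
      rw [Submodule.mem_span_singleton]
      refine ⟨τ.symm ((c : F) * a), ?_⟩
      have h2 : T (w - τ.symm ((c : F) * a) • e) = 0 := by
        rw [hsub, hsemi, RingEquiv.apply_symm_apply, mul_smul, ha, smul_smul,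
          mul_inv_cancel₀ c.ne_zero, one_smul, sub_self]
      exact (sub_eq_zero.mp (hinj _ h2)).symm
    have h3 := span_le_of_eichMat_eq Q hQ (T e) ((c : F)⁻¹ • T w) e w hTe0 hnot h1.symm
    exact h3 (Submodule.subset_span (by simp))
  -- every non-zero singular vector is an eigenvector of `T`
  have heig : ∀ e : ι → F, e ≠ 0 → Q e = 0 → ∃ a : F, T e = a • e := by
    intro e he0 he
    obtain ⟨y, hy⟩ := exists_polar_ne_zero Q hQ e he0
    obtain ⟨w1, hw10, hQw1, ho1⟩ := exists_singular_orth Q hQ {e, y} (by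
      have := Finset.card_le_two (a := e) (b := y); omega)
    have hew1 : polar ⇑Q e w1 = 0 := ho1 e (by simp)
    have hyw1 : polar ⇑Q y w1 = 0 := ho1 y (by simp)
    obtain ⟨y1, hy1⟩ := exists_polar_ne_zero Q hQ w1 hw10
    obtain ⟨w2, hw20, hQw2, ho2⟩ := exists_singular_orth Q hQ {e, y, y1} (by
      have := Finset.card_le_three (a := e) (b := y) (c := y1); omega)
    have hew2 : polar ⇑Q e w2 = 0 := ho2 e (by simp)
    have hyw2 : polar ⇑Q y w2 = 0 := ho2 y (by simp)
    have hy1w2 : polar ⇑Q y1 w2 = 0 := ho2 y1 (by simp)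
    have hye : polar ⇑Q y e ≠ 0 := by rw [polar_comm]; exact hy
    have hnotspan : ∀ w : ι → F, w ≠ 0 → polar ⇑Q y w = 0 →
        w ∉ Submodule.span F ({e} : Set (ι → F)) := by
      intro w hw0 hyw hmem
      obtain ⟨a, rfl⟩ := Submodule.mem_span_singleton.mp hmem
      rw [polar_smul_right, smul_eq_mul] at hyw
      rcases mul_eq_zero.mp hyw with h0 | h0
      · exact hw0 (by rw [h0, zero_smul])
      · exact hye h0
    obtain ⟨a1, b1, h1⟩ := Submodule.mem_span_pair.mp
      (hspan e w1 he0 he hew1 (hnotspan w1 hw10 hyw1))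
    obtain ⟨a2, b2, h2⟩ := Submodule.mem_span_pair.mp
      (hspan e w2 he0 he hew2 (hnotspan w2 hw20 hyw2))
    have h3 : a1 = a2 := by
      have e1 : polar ⇑Q y (T e) = a1 * polar ⇑Q y e := by
        rw [← h1, polar_add_right, polar_smul_right, polar_smul_right, hyw1]; simp
      have e2 : polar ⇑Q y (T e) = a2 * polar ⇑Q y e := by
        rw [← h2, polar_add_right, polar_smul_right, polar_smul_right, hyw2]; simp
      exact mul_right_cancel₀ hye (e1.symm.trans e2)
    have h4 : b1 = 0 := by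
      have e1 : polar ⇑Q y1 (T e) = a1 * polar ⇑Q y1 e + b1 * polar ⇑Q y1 w1 := by
        rw [← h1, polar_add_right, polar_smul_right, polar_smul_right]; simp
      have e2 : polar ⇑Q y1 (T e) = a2 * polar ⇑Q y1 e := by
        rw [← h2, polar_add_right, polar_smul_right, polar_smul_right, hy1w2]; simp
      rw [e2, h3] at e1
      have hw1y1 : polar ⇑Q y1 w1 ≠ 0 := by rw [polar_comm]; exact hy1
      have h5 : b1 * polar ⇑Q y1 w1 = 0 := by linear_combination -e1
      rcases mul_eq_zero.mp h5 with h0 | h0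
      · exact h0
      · exact absurd h0 hw1y1
    exact ⟨a1, by rw [← h1, h4, zero_smul, add_zero]⟩
  -- `τ` is the identity
  obtain ⟨e0, he00, hQe0, -⟩ := exists_singular_orth Q hQ ∅ (by simp; omega)
  obtain ⟨y, hy⟩ := exists_polar_ne_zero Q hQ e0 he00
  obtain ⟨w1, hw10, hQw1, ho1⟩ := exists_singular_orth Q hQ {e0, y} (by
    have := Finset.card_le_two (a := e0) (b := y); omega)
  have hew1 : polar ⇑Q e0 w1 = 0 := ho1 e0 (by simp)
  have hyw1 : polar ⇑Q y w1 = 0 := ho1 y (by simp)
  have hye : polar ⇑Q y e0 ≠ 0 := by rw [polar_comm]; exact hy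
  obtain ⟨a, ha⟩ := heig e0 he00 hQe0
  obtain ⟨b, hb⟩ := heig w1 hw10 hQw1
  have ha0 : a ≠ 0 := by
    rintro rfl
    rw [zero_smul] at ha
    exact he00 (hinj e0 ha)
  have hkey : ∀ t : F, τ t * b = a * t := by
    intro t
    have hQv : Q (e0 + t • w1) = 0 := by
      rw [Q_add_smul, hQe0, hQw1, hew1]; ring
    have hv0 : e0 + t • w1 ≠ 0 := by
      intro h0
      have h1 : polar ⇑Q y (e0 + t • w1) = 0 := by rw [h0]; simp
      rw [polar_add_right, polar_smul_right, hyw1, smul_zero, add_zero] at h1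
      exact hye h1
    obtain ⟨d, hd⟩ := heig _ hv0 hQv
    rw [hadd, hsemi, ha, hb, smul_add] at hd
    -- hd : a • e0 + τ t • b • w1 = d • e0 + d • t • w1
    have h1 : a = d := by
      have h2 := congrArg (fun v => polar ⇑Q y v) hd
      simp only [polar_add_right, polar_smul_right, hyw1, smul_eq_mul, mul_zero, add_zero] at h2
      exact mul_right_cancel₀ hye h2
    rw [← h1] at hd
    have h3 : (τ t * b - a * t) • w1 = 0 := by
      rw [sub_smul, mul_smul, mul_smul]
      have h4 := add_left_cancel hd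
      rw [h4, sub_self]
    rcases smul_eq_zero.mp h3 with h5 | h5
    · exact sub_eq_zero.mp h5
    · exact absurd h5 hw10
  have hba : b = a := by
    have h1 := hkey 1
    rw [map_one, one_mul, mul_one] at h1
    exact h1
  have hτ : τ = RingEquiv.refl F := by
    apply RingEquiv.ext
    intro t
    have h1 := hkey t
    rw [hba, mul_comm] at h1
    exact mul_left_cancel₀ ha0 h1
  refine ⟨hτ, ?_⟩
  subst hτ
  have hT' : ∀ v, T v = mt(h).mulVec v := fun v => hT v
  obtain ⟨lam, hlam⟩ := mat_eq_smul_of_fix_singular Q hQ hn5 mt(h) (fun v hv0 hv => by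
    obtain ⟨a', ha'⟩ := heig v hv0 hv
    exact ⟨a', by rw [← hT', ha']⟩)
  have hlam0 : lam ≠ 0 := by
    rintro rfl
    have h1 := hlam e0
    rw [zero_smul, ← hT'] at h1
    exact he00 (hinj e0 h1)
  refine ⟨Units.mk0 lam hlam0, ?_⟩
  apply matrix_ext_mulVec
  intro x
  rw [hlam x, Units.val_mk0, Matrix.smul_mulVec, Matrix.one_mulVec]

end Cfsg.Agent.Lib.Helper43.OUU3
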