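import Cfsg.Agent.Lib.Helper6.OddGr1

/-!
# S3265, piece OG-B5 (for helper6)

Block B5: a cycle-type orbit of period 2 together with a cycle-type orbit of even period.
-/

set_option autoImplicit false
set_option linter.unusedSectionVars false
set_option linter.unusedVariables false

namespace Cfsg.Agent.Lib.Helper43.OddGr

open Equiv Cfsg.Agent.Lib.Helper6.OddGr

variable {Ω : Type*} [Fintype Ω] [DecidableEq Ω] {x y : Perm Ω}

/-- distinct powers below the period give distinct points -/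
theorem pow_apply_ne_of_lt (x y : Perm Ω) (s : Ω) (i j : ℕ) (hij : i < j)
    (hj : j < i + per x y s) : ((x * y) ^ i) s ≠ ((x * y) ^ j) s := by
  intro h
  have h1 := (zpow_apply_eq_zpow_apply_iff x y s (j : ℤ) (i : ℤ)).mp (by
    rw [zpow_natCast, zpow_natCast]; exact h.symm)
  have h2 := Int.le_of_dvd (by omega) h1
  omega

theorem blockB5 (hx : x * x = 1) (hy : y * y = 1) {a w : Ω} (hcta : CT x y a)
    (hpa : per x y a = 2) (hctw : CT x y w) (hevw : Even (per x y w)) (hw : w ∉ Orb x y a) :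
    ∃ κ : Perm Ω, Solves x y κ (Orb x y a ∪ Orb x y w) := by
  classical
  obtain ⟨m, hm⟩ : ∃ m, m = per x y w := ⟨_, rfl⟩
  have hmpos : 0 < m := by rw [hm]; exact per_pos x y w
  have hmev : Even m := by rw [hm]; exact hevw
  have hm2 : 2 ≤ m := by
    obtain ⟨k, hk⟩ := hmev
    omega
  have hperx : per x y (x w) = m := by rw [per_x_apply hx hy, hm]
  -- the four points of `Orb a`
  obtain ⟨n1, n2, n3, n4, n5, n6⟩ := hcta.four_ne hx hy hpa
  have ha_mem : a ∈ Orb x y a := mem_orb_self x y a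
  have hxa_mem : x a ∈ Orb x y a := x_mem_orb_self x y a
  have hca_mem : (x * y) a ∈ Orb x y a := orb_c ha_mem
  have hya_mem : y a ∈ Orb x y a := orb_y hx hy ha_mem
  have hdisj : Disjoint (Orb x y w) (Orb x y a) := orb_disjoint hx hy hw
  have hw_mem : w ∈ Orb x y w := mem_orb_self x y w
  have hyw_mem : y w ∈ Orb x y w := orb_y hx hy hw_mem
  have hWmem : ∀ k : ℕ, ((x * y) ^ k) w ∈ Orb x y w := fun k => by
    have h1 := zpow_mem_orb x y w (k : ℤ)
    rwa [zpow_natCast] at h1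
  have hVmem : ∀ k : ℕ, ((x * y) ^ k) (x w) ∈ Orb x y w := fun k => by
    have h1 := zpow_x_mem_orb x y w (k : ℤ)
    rwa [zpow_natCast] at h1
  have hne_of : ∀ s t, s ∈ Orb x y w → t ∈ Orb x y a → s ≠ t := by
    intro s t hs ht hst
    rw [hst] at hs
    exact Set.disjoint_left.mp hdisj hs ht
  have hyw_ne_w : y w ≠ w := hctw.y_ne hx
  -- `y w = c^(m-1) (x w)`
  have hF4 : ((x * y) ^ (m - 1)) (x w) = y w := by
    rw [y_apply hx hy w]
    have h1 := (zpow_apply_eq_zpow_apply_iff x y (x w) ((m - 1 : ℕ) : ℤ) (-1)).mpr (by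
      rw [hperx]
      have h2 : ((m - 1 : ℕ) : ℤ) - (-1) = (m : ℤ) := by omega
      rw [h2])
    rwa [zpow_natCast] at h1
  have hWV : ∀ i j : ℕ, ((x * y) ^ i) w ≠ ((x * y) ^ j) (x w) := by
    intro i j
    have h1 := hctw.zpow_ne (i : ℤ) (j : ℤ)
    rwa [zpow_natCast, zpow_natCast] at h1
  -- the two 3-cycles
  obtain ⟨κ₁, hκ₁⟩ : ∃ κ₁ : Perm Ω, κ₁ = c3 a ((x * y) a) (y w) := ⟨_, rfl⟩
  obtain ⟨κ₂, hκ₂⟩ : ∃ κ₂ : Perm Ω, κ₂ = c3 (x a) (y a) w := ⟨_, rfl⟩
  -- inequalities between the six points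
  have d1 : a ≠ (x * y) a := n2.symm
  have d2 : a ≠ y w := (hne_of _ _ hyw_mem ha_mem).symm
  have d3 : (x * y) a ≠ y w := (hne_of _ _ hyw_mem hca_mem).symm
  have d4 : x a ≠ y a := n5.symm
  have d5 : x a ≠ w := (hne_of _ _ hw_mem hxa_mem).symm
  have d6 : y a ≠ w := (hne_of _ _ hw_mem hya_mem).symm
  have d7 : a ≠ x a := n1.symm
  have d8 : a ≠ y a := n3.symm
  have d9 : a ≠ w := (hne_of _ _ hw_mem ha_mem).symm
  have d10 : (x * y) a ≠ x a := n4
  have d11 : (x * y) a ≠ y a := n6.symm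
  have d12 : (x * y) a ≠ w := (hne_of _ _ hw_mem hca_mem).symm
  have d13 : y w ≠ x a := hne_of _ _ hyw_mem hxa_mem
  have d14 : y w ≠ y a := hne_of _ _ hyw_mem hya_mem
  have d15 : y w ≠ w := hyw_ne_w
  -- values of the 3-cycles
  have k1a : κ₁ a = (x * y) a := by rw [hκ₁]; exact c3_apply_1 d1 d2
  have k1ca : κ₁ ((x * y) a) = y w := by rw [hκ₁]; exact c3_apply_2 d2 d3
  have k1yw : κ₁ (y w) = a := by rw [hκ₁]; exact c3_apply_3 _ _ _
  have k1fix : ∀ s, s ≠ a → s ≠ (x * y) a → s ≠ y w → κ₁ s = s := by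
    intro s h1 h2 h3
    rw [hκ₁]; exact c3_apply_of_ne h1 h2 h3
  have k2xa : κ₂ (x a) = y a := by rw [hκ₂]; exact c3_apply_1 d4 d5
  have k2ya : κ₂ (y a) = w := by rw [hκ₂]; exact c3_apply_2 d5 d6
  have k2w : κ₂ w = x a := by rw [hκ₂]; exact c3_apply_3 _ _ _
  have k2fix : ∀ s, s ≠ x a → s ≠ y a → s ≠ w → κ₂ s = s := by
    intro s h1 h2 h3
    rw [hκ₂]; exact c3_apply_of_ne h1 h2 h3
  -- values of `σ = x * y * κ`
  have hσ : ∀ s, (x * y * (κ₁ * κ₂)) s = (x * y) (κ₁ (κ₂ s)) := fun s => rfl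
  have σa : (x * y * (κ₁ * κ₂)) a = a := by
    rw [hσ, k2fix a d7 d8 d9, k1a, c_c_of_per_two hpa]
  have σca : (x * y * (κ₁ * κ₂)) ((x * y) a) = x w := by
    rw [hσ, k2fix _ d10 d11 d12, k1ca, c_apply, apply_apply_of_sq hy]
  have σyw : (x * y * (κ₁ * κ₂)) (y w) = (x * y) a := by
    rw [hσ, k2fix _ d13 d14 d15, k1yw]
  have σxa : (x * y * (κ₁ * κ₂)) (x a) = x a := by
    rw [hσ, k2xa, k1fix _ d8.symm d11.symm d14.symm, c_y_of_per_two hx hy hpa]
  have σya : (x * y * (κ₁ * κ₂)) (y a) = (x * y) w := by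
    rw [hσ, k2ya, k1fix _ d9.symm d12.symm d15.symm]
  have σw : (x * y * (κ₁ * κ₂)) w = y a := by
    rw [hσ, k2w, k1fix _ d7.symm d10.symm d13.symm, c_x_of_per_two hx hy hpa]
  have σfix : ∀ s, s ≠ a → s ≠ (x * y) a → s ≠ y w → s ≠ x a → s ≠ y a → s ≠ w →
      (x * y * (κ₁ * κ₂)) s = (x * y) s := by
    intro s h1 h2 h3 h4 h5 h6
    rw [hσ, k2fix s h4 h5 h6, k1fix s h1 h2 h3]
  -- walk 1
  obtain ⟨q1, hq1⟩ : ∃ q1 : ℕ → Ω, ∀ i, q1 i = if i = 0 then (x * y) a else
      if i ≤ m then ((x * y) ^ (i - 1)) (x w) else (x * y) a := ⟨_, fun _ => rfl⟩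
  have q1_0 : q1 0 = (x * y) a := by rw [hq1, if_pos rfl]
  have q1_mid : ∀ i, 1 ≤ i → i ≤ m → q1 i = ((x * y) ^ (i - 1)) (x w) := by
    intro i h1 h2
    rw [hq1, if_neg (by omega), if_pos h2]
  have q1_end : q1 (m + 1) = (x * y) a := by
    rw [hq1, if_neg (by omega), if_neg (by omega)]
  have step1 : ∀ i, i < m + 1 → (x * y * (κ₁ * κ₂)) (q1 i) = q1 (i + 1) := by
    intro i hi
    rcases Nat.eq_zero_or_pos i with h0 | h0
    · subst h0
      rw [q1_0, σca, q1_mid 1 le_rfl (by omega)]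
      simp
    · rcases Nat.lt_or_ge i m with h1 | h1
      · rw [q1_mid i h0 h1.le, q1_mid (i + 1) (by omega) (by omega)]
        rw [σfix]
        · rw [← Perm.mul_apply, ← pow_succ']
          congr 2
          omega
        · exact hne_of _ _ (hVmem _) ha_mem
        · exact hne_of _ _ (hVmem _) hca_mem
        · rw [← hF4]
          exact pow_apply_ne_of_lt x y (x w) (i - 1) (m - 1) (by omega) (by rw [hperx]; omega)
        · exact hne_of _ _ (hVmem _) hxa_mem
        · exact hne_of _ _ (hVmem _) hya_mem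
        · have h2 := hWV 0 (i - 1)
          rw [pow_zero, Perm.one_apply] at h2
          exact h2.symm
      · have him : i = m := by omega
        subst him
        rw [q1_mid i h0 le_rfl, hF4, σyw, q1_end]
  have close1 : q1 (m + 1) = q1 0 := by rw [q1_end, q1_0]
  -- walk 2
  obtain ⟨q2, hq2⟩ : ∃ q2 : ℕ → Ω, ∀ i, q2 i = if i = 0 then y a else
      if i ≤ m then ((x * y) ^ i) w else y a := ⟨_, fun _ => rfl⟩
  have q2_0 : q2 0 = y a := by rw [hq2, if_pos rfl]
  have q2_mid : ∀ i, 1 ≤ i → i ≤ m → q2 i = ((x * y) ^ i) w := by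
    intro i h1 h2
    rw [hq2, if_neg (by omega), if_pos h2]
  have q2_end : q2 (m + 1) = y a := by
    rw [hq2, if_neg (by omega), if_neg (by omega)]
  have hWm : ((x * y) ^ m) w = w := by rw [hm]; exact pow_per_apply x y w
  have step2 : ∀ i, i < m + 1 → (x * y * (κ₁ * κ₂)) (q2 i) = q2 (i + 1) := by
    intro i hi
    rcases Nat.eq_zero_or_pos i with h0 | h0
    · subst h0
      rw [q2_0, σya, q2_mid 1 le_rfl (by omega), pow_one]
    · rcases Nat.lt_or_ge i m with h1 | h1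
      · rw [q2_mid i h0 h1.le, q2_mid (i + 1) (by omega) (by omega)]
        rw [σfix]
        · rw [← Perm.mul_apply, ← pow_succ']
        · exact hne_of _ _ (hWmem _) ha_mem
        · exact hne_of _ _ (hWmem _) hca_mem
        · rw [← hF4]
          exact hWV _ _
        · exact hne_of _ _ (hWmem _) hxa_mem
        · exact hne_of _ _ (hWmem _) hya_mem
        · have h2 := pow_apply_ne_of_lt x y w 0 i h0 (by rw [← hm]; omega)
          rw [pow_zero, Perm.one_apply] at h2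
          exact h2.symm
      · have him : i = m := by omega
        subst him
        rw [q2_mid i h0 le_rfl, hWm, σw, q2_end]
  have close2 : q2 (m + 1) = q2 0 := by rw [q2_end, q2_0]
  have hodd : Odd (m + 1) := hmev.add_one
  have op1 := op_of_walk (x * y * (κ₁ * κ₂)) q1 (m + 1) hodd step1 close1
  have op2 := op_of_walk (x * y * (κ₁ * κ₂)) q2 (m + 1) hodd step2 close2
  -- assembly
  refine ⟨κ₁ * κ₂, ?_, ?_, ⟨3, by decide, ?_⟩, ?_⟩
  · -- fixed outside
    intro s hs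
    have hs1 : s ∉ Orb x y a := fun h => hs (Or.inl h)
    have hs2 : s ∉ Orb x y w := fun h => hs (Or.inr h)
    rw [Perm.mul_apply, k2fix s (fun h => hs1 (h ▸ hxa_mem)) (fun h => hs1 (h ▸ hya_mem))
      (fun h => hs2 (h ▸ hw_mem)),
      k1fix s (fun h => hs1 (h ▸ ha_mem)) (fun h => hs1 (h ▸ hca_mem))
      (fun h => hs2 (h ▸ hyw_mem))]
  · -- inverted by `y`
    have e1 : y * κ₁ * y = κ₂⁻¹ := by
      rw [hκ₁, hκ₂, c3_conj_invol hy, c3_inv, y_c_of_per_two hx hy hpa, apply_apply_of_sq hy]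
      exact (c3_rotate d6.symm d5.symm d4.symm).symm
    have e2 : y * κ₂ * y = κ₁⁻¹ := by
      rw [hκ₁, hκ₂, c3_conj_invol hy, c3_inv, apply_apply_of_sq hy,
        ← xy_eq_yx_of_per_two hx hy hpa]
      exact (c3_rotate d3.symm d2.symm d1.symm).symm
    have e3 : y * (κ₁ * κ₂) * y = (y * κ₁ * y) * (y * κ₂ * y) := by
      simp only [mul_assoc]
      rw [← mul_assoc y y, hy, one_mul]
    rw [e3, e1, e2, mul_inv_rev]
  · -- order divides 3
    have hcomm : Commute κ₁ κ₂ := by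
      rw [hκ₁, hκ₂]
      exact c3_commute d7 d8 d9 d10 d11 d12 d13 d14 d15
    rw [hcomm.mul_pow, hκ₁, hκ₂, c3_pow_three d1 d2 d3, c3_pow_three d4 d5 d6, one_mul]
  · -- odd-periodic points
    rintro s (hs | hs)
    · rw [orb_of_per_two hx hy hpa] at hs
      simp only [Set.mem_insert_iff, Set.mem_singleton_iff] at hs
      rcases hs with rfl | rfl | rfl | rfl
      · exact op_of_fixed _ σa
      · exact op_of_fixed _ σxa
      · have h1 := op1 0 (by omega)
        rwa [q1_0] at h1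
      · have h1 := op2 0 (by omega)
        rwa [q2_0] at h1
    · rw [mem_orb_iff' hx hy] at hs
      rcases hs with ⟨k, hk, rfl⟩ | ⟨k, hk, rfl⟩
      · rw [← hm] at hk
        rcases Nat.eq_zero_or_pos k with h0 | h0
        · subst h0
          have h1 := op2 m (by omega)
          rw [q2_mid m (by omega) le_rfl, hWm] at h1
          simpa using h1
        · have h1 := op2 k (by omega)
          rwa [q2_mid k h0 hk.le] at h1
      · rw [← hm] at hk
        have h1 := op1 (k + 1) (by omega)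
        rw [q1_mid (k + 1) (by omega) (by omega)] at h1
        simpa using h1

end Cfsg.Agent.Lib.Helper43.OddGr
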