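import Mathlib

/-!
# Project QB (helper48, S2359), piece CENTINTER (backup seat, helper43)
-/

set_option autoImplicit false

namespace Cfsg.Agent.Lib.Helper48.QB

theorem centinterb_sq : ∀ ε : Multiplicative (ZMod 2), ε ^ 2 = 1 := by decide

-- QB-CENTINTER
theorem cent_inter {G L : Type*} [Group G] [Group L] (J y : G) (hJy : J * y = y * J)
    (e : Subgroup.centralizer {J} ≃* Multiplicative (ZMod 2) × L) (r M : ℕ) (hr : r.Prime)
    (hr2 : r ≠ 2) (hy : orderOf y = r)
    (hL : ∀ l : L, orderOf l = r → Nat.card (Subgroup.centralizer {l}) = M ∧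
      ∀ a ∈ Subgroup.centralizer {l}, ∀ b ∈ Subgroup.centralizer {l}, a * b = b * a) :
    Nat.card (Subgroup.centralizer ({y, J} : Set G)) = 2 * M ∧
      ∀ a ∈ Subgroup.centralizer ({y, J} : Set G), ∀ b ∈ Subgroup.centralizer ({y, J} : Set G),
        a * b = b * a := by
  classical
  have hyJ : y ∈ Subgroup.centralizer ({J} : Set G) := by
    rw [Subgroup.mem_centralizer_iff]
    intro h hh
    rw [Set.mem_singleton_iff] at hh
    rw [hh]
    exact hJy
  obtain ⟨ε, l, hεl⟩ : ∃ ε l, e ⟨y, hyJ⟩ = (ε, l) := ⟨_, _, rfl⟩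
  have hord : orderOf (e ⟨y, hyJ⟩) = r := by
    rw [MulEquiv.orderOf_eq, ← hy]
    exact Subgroup.orderOf_mk _ _
  have hpow : (ε, l) ^ r = 1 := by
    rw [← hεl, ← hord]
    exact pow_orderOf_eq_one _
  have hε : ε = 1 := by
    have h1 : ε ^ r = 1 := by simpa using congrArg Prod.fst hpow
    have h2 : ε ^ 2 = 1 := centinterb_sq ε
    have h3 : ε ^ Nat.gcd r 2 = 1 := pow_gcd_eq_one.mpr ⟨h1, h2⟩
    have hg : Nat.gcd r 2 = 1 := by
      rw [Nat.gcd_comm]
      exact (Nat.coprime_primes Nat.prime_two hr).mpr (Ne.symm hr2)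
    rw [hg, pow_one] at h3
    exact h3
  subst hε
  have hl : orderOf l = r := by
    have h1 := Prod.orderOf ((1 : Multiplicative (ZMod 2)), l)
    have h0 : orderOf ((1 : Multiplicative (ZMod 2)), l) = r := by
      rw [← hεl]
      exact hord
    rw [h0] at h1
    simpa using h1.symm
  obtain ⟨hM, hcomm⟩ := hL l hl
  have hmemJ : ∀ a ∈ Subgroup.centralizer ({y, J} : Set G),
      a ∈ Subgroup.centralizer ({J} : Set G) := by
    intro a ha
    rw [Subgroup.mem_centralizer_iff] at ha ⊢
    intro h hh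
    rw [Set.mem_singleton_iff] at hh
    rw [hh]
    exact ha J (Set.mem_insert_of_mem _ rfl)
  have hchar : ∀ (a : G) (haJ : a ∈ Subgroup.centralizer ({J} : Set G)),
      a ∈ Subgroup.centralizer ({y, J} : Set G) ↔
        (e ⟨a, haJ⟩).2 ∈ Subgroup.centralizer ({l} : Set L) := by
    intro a haJ
    have hJa : J * a = a * J := Subgroup.mem_centralizer_iff.mp haJ J rfl
    have key : y * a = a * y ↔ l * (e ⟨a, haJ⟩).2 = (e ⟨a, haJ⟩).2 * l := by
      have h1 : y * a = a * y ↔
          (⟨y, hyJ⟩ : Subgroup.centralizer ({J} : Set G)) * ⟨a, haJ⟩ = ⟨a, haJ⟩ * ⟨y, hyJ⟩ := by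
        rw [Subtype.ext_iff]
        rfl
      rw [h1, ← e.injective.eq_iff, map_mul, map_mul, hεl, Prod.ext_iff]
      constructor
      · intro h
        exact h.2
      · intro h
        exact ⟨by simp, h⟩
    rw [Subgroup.mem_centralizer_iff, Subgroup.mem_centralizer_iff]
    constructor
    · intro h h' hh'
      rw [Set.mem_singleton_iff] at hh'
      subst hh'
      exact key.mp (h y (Set.mem_insert _ _))
    · intro h h' hh'
      rcases hh' with rfl | hh'
      · exact key.mpr (h l rfl)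
      · rw [Set.mem_singleton_iff] at hh'
        rw [hh']
        exact hJa
  refine ⟨?_, ?_⟩
  · let f : ↥(Subgroup.centralizer ({y, J} : Set G)) →
        Multiplicative (ZMod 2) × ↥(Subgroup.centralizer ({l} : Set L)) :=
      fun a => ((e ⟨a, hmemJ a a.2⟩).1,
        ⟨(e ⟨a, hmemJ a a.2⟩).2, (hchar a (hmemJ a a.2)).mp a.2⟩)
    have hf : Function.Bijective f := by
      constructor
      · intro a b hab
        have h1 : (e ⟨a, hmemJ a a.2⟩).1 = (e ⟨b, hmemJ b b.2⟩).1 :=
          congrArg (fun p : Multiplicative (ZMod 2) × ↥(Subgroup.centralizer ({l} : Set L)) =>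
            p.1) hab
        have h2 : (e ⟨a, hmemJ a a.2⟩).2 = (e ⟨b, hmemJ b b.2⟩).2 :=
          congrArg (fun p : Multiplicative (ZMod 2) × ↥(Subgroup.centralizer ({l} : Set L)) =>
            (p.2 : L)) hab
        have h3 : e ⟨a, hmemJ a a.2⟩ = e ⟨b, hmemJ b b.2⟩ := Prod.ext h1 h2
        have h4 := e.injective h3
        have h5 : (a : G) = (b : G) :=
          congrArg (fun c : ↥(Subgroup.centralizer ({J} : Set G)) => (c : G)) h4
        exact Subtype.ext h5
      · rintro ⟨δ, m, hm⟩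
        have hc : ((e.symm (δ, m) : Subgroup.centralizer ({J} : Set G)) : G)
            ∈ Subgroup.centralizer ({y, J} : Set G) := by
          rw [hchar _ (e.symm (δ, m)).2]
          simpa using hm
        refine ⟨⟨_, hc⟩, ?_⟩
        simp [f]
    have h2 : Nat.card (Multiplicative (ZMod 2)) = 2 := by
      rw [Nat.card_eq_fintype_card]
      rfl
    rw [Nat.card_eq_of_bijective f hf, Nat.card_prod, hM, h2]
  · intro a ha b hb
    have haJ := hmemJ a ha
    have hbJ := hmemJ b hb
    have h1 := (hchar a haJ).mp ha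
    have h2 := (hchar b hbJ).mp hb
    have h3 : e ⟨a, haJ⟩ * e ⟨b, hbJ⟩ = e ⟨b, hbJ⟩ * e ⟨a, haJ⟩ := by
      apply Prod.ext
      · exact mul_comm _ _
      · exact hcomm _ h1 _ h2
    rw [← map_mul, ← map_mul] at h3
    exact congrArg Subtype.val (e.injective h3)

end Cfsg.Agent.Lib.Helper48.QB
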