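import Mathlib
import Cfsg.Agent.Lib.Helper93.SUPair

/-!
# S2283 piece FR (helper43, for helper93): hyperbolic frames in `F^3` for the standard Hermitian form

* `exists_frame`: a hyperbolic frame `E, W, Fv` exists.
* `frame_complete`: a hyperbolic frame is a basis, with coordinates given by the form.
-/

set_option autoImplicit false

namespace Cfsg.Agent.Lib.Helper43.RU3

open Matrix Cfsg.Agent.Lib.Helper7 Cfsg.Agent.Lib.Helper18 Cfsg.Agent.Lib.Helper93

variable {F : Type*} [Field F] [Fintype F] {q : ℕ}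

theorem exists_frame (hF : Fintype.card F = q ^ 2) :
    ∃ E W Fv : Fin 3 → F, Cfsg.hermForm 3 F q E E = 0 ∧ Cfsg.hermForm 3 F q Fv Fv = 0 ∧
      Cfsg.hermForm 3 F q E Fv = 1 ∧ Cfsg.hermForm 3 F q W W = 1 ∧
      Cfsg.hermForm 3 F q W E = 0 ∧ Cfsg.hermForm 3 F q W Fv = 0 := by
  classical
  obtain ⟨l0, -, hl0⟩ := herm_norm_surj hF (-1 : F) (by simp)
    (by rw [herm_neg_pow hF, one_pow])
  have hq0 : q ≠ 0 := herm_q_ne_zero hF
  have hWW : Cfsg.hermForm 3 F q (Pi.single 2 1) (Pi.single 2 1) = 1 := by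
    rw [hf_single_left]
    simp
  have hEE : Cfsg.hermForm 3 F q ![1, l0, 0] ![1, l0, 0] = 0 := by
    have : l0 * l0 ^ q = -1 := by rw [← hl0, pow_succ']
    simp [Cfsg.hermForm, Fin.sum_univ_three, this, hq0]
  have hEW : Cfsg.hermForm 3 F q ![1, l0, 0] (Pi.single 2 1) = 0 := by
    rw [hf_single_right hF]
    simp
  have hE0 : (![1, l0, 0] : Fin 3 → F) ≠ 0 := by
    intro h
    have := congrFun h 0
    simp at this
  obtain ⟨f, hfW, hEf, hff⟩ :=
    exists_iso_partner_perp hF 3 (Pi.single 2 1) ![1, l0, 0] hWW hEE hEW hE0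
  exact ⟨![1, l0, 0], Pi.single 2 1, f, hEE, hff, hEf, hWW, hf_eq_zero_symm hF 3 _ _ hEW,
    hf_eq_zero_symm hF 3 _ _ hfW⟩

theorem frame_complete (hF : Fintype.card F = q ^ 2) {e W f : Fin 3 → F}
    (hee : Cfsg.hermForm 3 F q e e = 0) (hff : Cfsg.hermForm 3 F q f f = 0)
    (hef : Cfsg.hermForm 3 F q e f = 1) (hWW : Cfsg.hermForm 3 F q W W = 1)
    (hWe : Cfsg.hermForm 3 F q W e = 0) (hWf : Cfsg.hermForm 3 F q W f = 0)
    (v : Fin 3 → F) : v = Cfsg.hermForm 3 F q v f • e + Cfsg.hermForm 3 F q v W • W +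
      Cfsg.hermForm 3 F q v e • f := by
  have hfe : Cfsg.hermForm 3 F q f e = 1 := by rw [hf_conj hF 3 e f, hef, one_pow]
  have heW : Cfsg.hermForm 3 F q e W = 0 := hf_eq_zero_symm hF 3 _ _ hWe
  have hfW : Cfsg.hermForm 3 F q f W = 0 := hf_eq_zero_symm hF 3 _ _ hWf
  -- pairing a combination with the frame
  have hpair : ∀ α β φ : F,
      Cfsg.hermForm 3 F q (α • e + β • W + φ • f) f = α ∧
      Cfsg.hermForm 3 F q (α • e + β • W + φ • f) W = β ∧
      Cfsg.hermForm 3 F q (α • e + β • W + φ • f) e = φ := by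
    intro α β φ
    refine ⟨?_, ?_, ?_⟩
    · rw [hf_add_left, hf_add_left, hf_smul_left, hf_smul_left, hf_smul_left, hef, hWf, hff]
      ring
    · rw [hf_add_left, hf_add_left, hf_smul_left, hf_smul_left, hf_smul_left, heW, hWW, hfW]
      ring
    · rw [hf_add_left, hf_add_left, hf_smul_left, hf_smul_left, hf_smul_left, hee, hWe, hfe]
      ring
  have hli : LinearIndependent F ![e, W, f] := by
    rw [Fintype.linearIndependent_iff]
    intro g hg
    rw [Fin.sum_univ_three] at hg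
    simp only [Matrix.cons_val_zero, Matrix.cons_val_one, Matrix.cons_val_two,
      Matrix.head_cons, Matrix.tail_cons] at hg
    obtain ⟨h1, h2, h3⟩ := hpair (g 0) (g 1) (g 2)
    rw [hg] at h1 h2 h3
    rw [hf_zero_left] at h1 h2 h3
    intro i
    fin_cases i
    · exact h1.symm
    · exact h2.symm
    · exact h3.symm
  have hspan : Submodule.span F (Set.range ![e, W, f]) = ⊤ :=
    hli.span_eq_top_of_card_eq_finrank' (by simp)
  have hv : v ∈ Submodule.span F (Set.range ![e, W, f]) := by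
    rw [hspan]
    exact Submodule.mem_top
  obtain ⟨c, hc⟩ := (Submodule.mem_span_range_iff_exists_fun F).mp hv
  rw [Fin.sum_univ_three] at hc
  simp only [Matrix.cons_val_zero, Matrix.cons_val_one, Matrix.cons_val_two,
    Matrix.head_cons, Matrix.tail_cons] at hc
  obtain ⟨h1, h2, h3⟩ := hpair (c 0) (c 1) (c 2)
  rw [hc] at h1 h2 h3
  rw [h1, h2, h3]
  exact hc.symm

end Cfsg.Agent.Lib.Helper43.RU3
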