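import Mathlib
import Cfsg.Agent.Lib.Helper13.SqfH
import Cfsg.Agent.Lib.Helper16.SqfG
import Cfsg.Agent.Lib.Helper21.SqfE
import Cfsg.Agent.Lib.Helper34.SqfF
import Cfsg.Agent.Lib.Helper65.SqfK2

/-!
# S4130, piece SQ-MCC (assembly of pieces E, F, G, H, K2)

If all conjugacy class sizes of a finite group `G` are squarefree and the derived subgroup
`G'` is a `q`-group, then `|G'|` divides `q`.
-/

set_option autoImplicit false

namespace Cfsg.Agent.Lib.Helper43.SqfMCC

/-- A squarefree divisor of a power of the prime `q` divides `q`. -/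
theorem dvd_prime_of_squarefree_of_dvd_pow {q n k : ℕ} (hq : q.Prime) (hn : Squarefree n)
    (hd : n ∣ q ^ k) : n ∣ q := by
  obtain ⟨j, _, rfl⟩ := (Nat.dvd_prime_pow hq).mp hd
  rcases Nat.lt_or_ge j 2 with hj | hj
  · interval_cases j
    · simp
    · simp
  · exfalso
    have h2 : q * q ∣ q ^ j := by
      rw [← pow_two]
      exact pow_dvd_pow q hj
    have hu := hn q h2
    rw [Nat.isUnit_iff] at hu
    exact hq.one_lt.ne' hu

/-- PIECE SQ-MCC of S4130: squarefree class sizes and `G'` a `q`-group force `|G'| ∣ q`. -/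
theorem derived_qgroup_card {G : Type*} [Group G] [Finite G] (q : ℕ) [Fact q.Prime]
    (hsq : ∀ x : G, Squarefree (Subgroup.centralizer ({x} : Set G)).index)
    (hq : IsPGroup q (commutator G)) : Nat.card (commutator G) ∣ q := by
  have hqp : q.Prime := Fact.out
  obtain ⟨Q, hDQ⟩ := hq.exists_le_sylow
  -- `Q` is normal, since it contains the derived subgroup
  have hQn : (Q : Subgroup G).Normal := by
    refine ⟨fun n hn g => ?_⟩
    have hc : g * n * g⁻¹ * n⁻¹ ∈ commutator G := by
      rw [commutator_def]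
      exact Subgroup.commutator_mem_commutator (Subgroup.mem_top g) (Subgroup.mem_top n)
    have h1 := (Q : Subgroup G).mul_mem (hDQ hc) hn
    simpa using h1
  have hQp : IsPGroup q (Q : Subgroup G) := Q.isPGroup'
  -- all `q`-elements lie in `Q`
  have hall : ∀ g : G, (∃ k : ℕ, g ^ (q ^ k) = 1) → g ∈ (Q : Subgroup G) := by
    rintro g ⟨k, hk⟩
    have hz : IsPGroup q (Subgroup.zpowers g) := by
      rw [IsPGroup.iff_card, Nat.card_zpowers]
      exact (Nat.dvd_prime_pow hqp).mp (orderOf_dvd_of_pow_eq_one hk) |>.imp fun j hj => hj.2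
    obtain ⟨Q', hQ'⟩ := hz.exists_le_sylow
    have hu : Q' = Q := by
      have := Sylow.unique_of_normal Q hQn
      exact Subsingleton.elim _ _
    rw [← hu]
    exact hQ' (Subgroup.mem_zpowers g)
  -- commutators of `Q` are central in `G`
  have hcl : ∀ a ∈ (Q : Subgroup G), ∀ b ∈ (Q : Subgroup G),
      a * b * a⁻¹ * b⁻¹ ∈ Subgroup.center G := by
    refine Cfsg.Agent.Lib.Helper65.SqfK2.sylow_commutator_central q ?_ Q
    intro x hx
    have hu := hsq x q (by rw [← pow_two]; exact hx)
    rw [Nat.isUnit_iff] at hu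
    exact hqp.one_lt.ne' hu
  by_cases hab : ∀ a ∈ (Q : Subgroup G), ∀ b ∈ (Q : Subgroup G), a * b = b * a
  · exact Cfsg.Agent.Lib.Helper16.SqfG.commutator_card_dvd_of_abelian q hsq (Q : Subgroup G)
      hQp hab hall hDQ
  · -- `Q` nonabelian: every `q'`-element centralizes `Q`
    have hc : ∀ y : G, (orderOf y).Coprime q → ∀ u ∈ (Q : Subgroup G), y * u = u * y := by
      intro y hy u hu
      by_contra hne
      exact hab (Cfsg.Agent.Lib.Helper34.SqfF.normal_pgroup_abelian q hsq (Q : Subgroup G)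
        hQp hcl y hy ⟨u, hu, hne⟩)
    have hle : commutator G ≤ ⁅(Q : Subgroup G), (Q : Subgroup G)⁆ :=
      Cfsg.Agent.Lib.Helper13.SqfH.commutator_le_of_centralize q (Q : Subgroup G) hQp hall
        hDQ hc
    have hcl' : ∀ a ∈ (Q : Subgroup G), ∀ b ∈ (Q : Subgroup G), ∀ c ∈ (Q : Subgroup G),
        (a * b * a⁻¹ * b⁻¹) * c = c * (a * b * a⁻¹ * b⁻¹) := by
      intro a ha b hb c _
      exact (Subgroup.mem_center_iff.mp (hcl a ha b hb) c).symm
    obtain ⟨kQ, hkQ⟩ := IsPGroup.iff_card.mp hQp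
    have hbr : ∀ x ∈ (Q : Subgroup G),
        (Subgroup.centralizer ({x} : Set G)).relIndex (Q : Subgroup G) ∣ q := by
      intro x _
      have h1 : (Subgroup.centralizer ({x} : Set G)).relIndex (Q : Subgroup G) ∣ q ^ kQ := by
        rw [← hkQ]
        exact Subgroup.relIndex_dvd_card _ _
      have h2 : (Subgroup.centralizer ({x} : Set G)).relIndex (Q : Subgroup G) ∣
          (Subgroup.centralizer ({x} : Set G)).index :=
        Cfsg.Agent.Lib.Helper34.SqfF.relIndex_dvd_index_of_normal_right _ _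
      exact dvd_prime_of_squarefree_of_dvd_pow hqp ((hsq x).squarefree_of_dvd h2) h1
    have hE : Nat.card (⁅(Q : Subgroup G), (Q : Subgroup G)⁆ : Subgroup G) ∣ q :=
      Cfsg.Agent.Lib.Helper21.Sqf.derived_card_dvd q (Q : Subgroup G) hQp hcl' hbr
    exact (Subgroup.card_dvd_of_le hle).trans hE

end Cfsg.Agent.Lib.Helper43.SqfMCC
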