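import Mathlib
import Cfsg.Agent.S0081
import Cfsg.Agent.Lib.Helper30.FStar
import Cfsg.Agent.Lib.Helper30.Cores

set_option autoImplicit false
open Cfsg

namespace Cfsg.Agent.Lib.Helper43.TwoGen

/-- If `|Q : Φ(Q)| = p²` and the normal subgroup `A` is not inside `Φ(Q)`, then `Q = ⟨x⟩A`. -/
theorem exists_zpowers_sup_eq_top {Q : Type*} [Group Q] [Finite Q] {p : ℕ} (hp : p.Prime)
    (hgen : (frattini Q).index = p ^ 2) (A : Subgroup Q) [A.Normal] (hA : ¬ A ≤ frattini Q) :
    ∃ x : Q, Subgroup.zpowers x ⊔ A = ⊤ := by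
  classical
  set B : Subgroup Q := A ⊔ frattini Q with hB
  have hΦB : frattini Q ≤ B := le_sup_right
  have hΦltB : frattini Q < B := by
    refine lt_of_le_of_ne hΦB ?_
    intro h
    apply hA
    rw [h]
    exact le_sup_left
  -- index of B divides p^2 and is not p^2
  have h1 : (frattini Q).relIndex B * B.index = p ^ 2 := by
    rw [Subgroup.relIndex_mul_index hΦB, hgen]
  have h2 : (frattini Q).relIndex B ≠ 1 := by
    intro h
    rw [Subgroup.relIndex_eq_one] at h
    exact (not_le_of_gt hΦltB) h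
  have h3 : B.index ∣ p ^ 2 := Dvd.intro_left _ h1
  obtain ⟨k, hk, hk'⟩ := (Nat.dvd_prime_pow hp).1 h3
  have hk2 : k ≠ 2 := by
    intro h
    rw [h] at hk'
    rw [hk'] at h1
    have : (frattini Q).relIndex B = 1 := by
      have hpos : 0 < p ^ 2 := pow_pos hp.pos 2
      exact Nat.eq_of_mul_eq_mul_right hpos (by rw [h1, one_mul])
    exact h2 this
  have hcyc : IsCyclic (Q ⧸ B) := by
    have hcard : Nat.card (Q ⧸ B) = B.index := rfl
    interval_cases k
    · have : Nat.card (Q ⧸ B) = 1 := by rw [hcard, hk', pow_zero]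
      have : Subsingleton (Q ⧸ B) := (Nat.card_eq_one_iff_unique.mp this).1
      exact isCyclic_of_subsingleton
    · have hc : Nat.card (Q ⧸ B) = p := by rw [hcard, hk', pow_one]
      have : Fact p.Prime := ⟨hp⟩
      exact isCyclic_of_prime_card hc
    · exact absurd rfl hk2
  obtain ⟨xb, hxb⟩ := hcyc.exists_generator
  obtain ⟨x, rfl⟩ := QuotientGroup.mk_surjective xb
  refine ⟨x, ?_⟩
  have h4 : Subgroup.zpowers x ⊔ B = ⊤ := by
    rw [eq_top_iff]
    intro g _
    obtain ⟨n, hn⟩ := Subgroup.mem_zpowers_iff.mp (hxb (g : Q ⧸ B))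
    have h5 : (x ^ n)⁻¹ * g ∈ B := by
      rw [← QuotientGroup.eq]
      rw [QuotientGroup.mk_zpow]
      exact hn
    have : g = x ^ n * ((x ^ n)⁻¹ * g) := by group
    rw [this]
    exact Subgroup.mul_mem_sup (Subgroup.zpow_mem_zpowers x n) h5
  apply frattini_nongenerating
  rw [sup_assoc]
  exact h4

/-- If `Q = ⟨x⟩A` with `A` normal then all commutators of `Q` lie in `A`. -/
theorem commutator_mem_of_zpowers_sup {Q : Type*} [Group Q] (A : Subgroup Q) [A.Normal] (x : Q)
    (h : Subgroup.zpowers x ⊔ A = ⊤) (a b : Q) : a * b * a⁻¹ * b⁻¹ ∈ A := by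
  have h1 : (Subgroup.zpowers x).map (QuotientGroup.mk' A) = ⊤ := by
    have := congrArg (Subgroup.map (QuotientGroup.mk' A)) h
    rw [Subgroup.map_sup, QuotientGroup.map_mk'_self, sup_bot_eq,
      Subgroup.map_top_of_surjective _ (QuotientGroup.mk'_surjective A)] at this
    exact this
  rw [MonoidHom.map_zpowers] at h1
  have hcomm : ∀ u v : Q ⧸ A, u * v = v * u := by
    intro u v
    have hu : u ∈ Subgroup.zpowers (QuotientGroup.mk' A x) := by rw [h1]; trivial
    have hv : v ∈ Subgroup.zpowers (QuotientGroup.mk' A x) := by rw [h1]; trivial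
    obtain ⟨m, rfl⟩ := Subgroup.mem_zpowers_iff.mp hu
    obtain ⟨n, rfl⟩ := Subgroup.mem_zpowers_iff.mp hv
    exact (Commute.zpow_zpow_self _ m n).eq
  rw [← QuotientGroup.eq_one_iff]
  have := hcomm (a : Q ⧸ A) (b : Q ⧸ A)
  simp only [QuotientGroup.mk_mul, QuotientGroup.mk_inv]
  rw [this]
  group

/-- Two normal subgroups of a group with `|Q : Φ(Q)| = p²`, meeting trivially, neither inside
`Φ(Q)`, force `Q` to be commutative. -/
theorem comm_of_two_normal {Q : Type*} [Group Q] [Finite Q] {p : ℕ} (hp : p.Prime)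
    (hgen : (frattini Q).index = p ^ 2) (A B : Subgroup Q) [A.Normal] [B.Normal]
    (hA : ¬ A ≤ frattini Q) (hB : ¬ B ≤ frattini Q) (hAB : A ⊓ B = ⊥) (a b : Q) :
    a * b = b * a := by
  obtain ⟨x, hx⟩ := exists_zpowers_sup_eq_top hp hgen A hA
  obtain ⟨y, hy⟩ := exists_zpowers_sup_eq_top hp hgen B hB
  have h1 := commutator_mem_of_zpowers_sup A x hx a b
  have h2 := commutator_mem_of_zpowers_sup B y hy a b
  have h3 : a * b * a⁻¹ * b⁻¹ ∈ A ⊓ B := ⟨h1, h2⟩
  rw [hAB, Subgroup.mem_bot] at h3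
  have : a * b = (a * b * a⁻¹ * b⁻¹) * (b * a) := by group
  rw [this, h3, one_mul]

end Cfsg.Agent.Lib.Helper43.TwoGen
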