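import Mathlib
import Cfsg.Agent.S0081
import Cfsg.Agent.Lib.Helper30.FStar
import Cfsg.Agent.Lib.Helper30.Cores
import Cfsg.Agent.Lib.Helper30.PType
import Cfsg.Agent.Lib.Helper43.TwoGenA

set_option autoImplicit false
open Cfsg

namespace Cfsg.Agent.Lib.Helper43.TwoGen

variable {G : Type*} [Group G] [Finite G] {p : ℕ} [Fact p.Prime]

/-- (A) Under `O_{p'}(G) = 1` and `core_G(Φ(P)) = 1`, no nontrivial normal subgroup meets `P`
inside `Φ(P)`. -/
theorem not_inf_le_frattini (P : Sylow p G) (hcore : Cfsg.pPrimeCore p G = ⊥)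
    (hfrat : ((frattini ↥(P : Subgroup G)).map (P : Subgroup G).subtype).normalCore = ⊥)
    (X : Subgroup G) [hX : X.Normal] (hX1 : X ≠ ⊥) :
    ¬ X ⊓ (P : Subgroup G) ≤ (frattini ↥(P : Subgroup G)).map (P : Subgroup G).subtype := by
  intro h
  obtain ⟨Q, M, hMn, hMQ⟩ := Cfsg.Agent.S0081.result P X h
  -- M is a subnormal p'-subgroup, hence trivial
  have hcop : (Nat.card M).Coprime p := by
    have h1 : Nat.card M * Nat.card (Q : Subgroup X) = Nat.card X := hMQ.card_mul_card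
    have h2 : ¬ p ∣ (Q : Subgroup X).index := Q.not_dvd_index
    have h3 : Nat.card M = (Q : Subgroup X).index := by
      have h4 := (Q : Subgroup X).card_mul_index
      have hpos : 0 < Nat.card (Q : Subgroup X) := Nat.card_pos
      have : Nat.card M * Nat.card (Q : Subgroup X) =
          (Q : Subgroup X).index * Nat.card (Q : Subgroup X) := by rw [h1, ← h4, mul_comm]
      exact Nat.eq_of_mul_eq_mul_right hpos this
    rw [h3, Nat.coprime_comm]
    exact (Nat.Prime.coprime_iff_not_dvd Fact.out).mpr h2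
  have hsub : (M.map X.subtype).IsSubnormal :=
    Subgroup.IsSubnormal.trans' hMn.isSubnormal hX.isSubnormal
  have hcop' : (Nat.card (M.map X.subtype)).Coprime p := by
    rw [Cfsg.Agent.Lib.Helper30.card_map_subtype]
    exact hcop
  have hle := Cfsg.Agent.Lib.Helper30.le_pPrimeCore_of_subnormal hsub hcop'
  rw [hcore, le_bot_iff] at hle
  have hM : M = ⊥ := (Subgroup.map_eq_bot_iff_of_injective _ (Subgroup.subtype_injective _)).mp hle
  -- so X is a p-group
  have hXp : IsPGroup p X := by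
    have h1 : Nat.card M * Nat.card (Q : Subgroup X) = Nat.card X := hMQ.card_mul_card
    rw [hM, Subgroup.card_bot, one_mul] at h1
    obtain ⟨k, hk⟩ := IsPGroup.iff_card.mp Q.isPGroup'
    exact IsPGroup.of_card (n := k) (by rw [← h1, hk])
  have hXP : X ≤ (P : Subgroup G) := hXp.le_sylow_of_normal P
  have hXF : X ≤ (frattini ↥(P : Subgroup G)).map (P : Subgroup G).subtype := by
    intro g hg
    exact h ⟨hg, hXP hg⟩
  have := (Subgroup.normal_le_normalCore (H := (frattini ↥(P : Subgroup G)).map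
    (P : Subgroup G).subtype) (N := X)).mpr hXF
  rw [hfrat, le_bot_iff] at this
  exact hX1 this

/-- transfer of `(A)` to the subgroup of `P`. -/
theorem not_subgroupOf_le_frattini (P : Sylow p G) (hcore : Cfsg.pPrimeCore p G = ⊥)
    (hfrat : ((frattini ↥(P : Subgroup G)).map (P : Subgroup G).subtype).normalCore = ⊥)
    (X : Subgroup G) [hX : X.Normal] (hX1 : X ≠ ⊥) :
    ¬ X.subgroupOf (P : Subgroup G) ≤ frattini ↥(P : Subgroup G) := by
  intro h
  apply not_inf_le_frattini P hcore hfrat X hX1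
  rintro g ⟨hgX, hgP⟩
  exact ⟨⟨g, hgP⟩, h (Subgroup.mem_subgroupOf.mpr hgX), rfl⟩

/-- (B') Any two nontrivial normal subgroups meet nontrivially. -/
theorem inf_ne_bot (P : Sylow p G) (hna : ¬ IsMulCommutative (P : Subgroup G))
    (hgen : (frattini ↥(P : Subgroup G)).index = p ^ 2) (hcore : Cfsg.pPrimeCore p G = ⊥)
    (hfrat : ((frattini ↥(P : Subgroup G)).map (P : Subgroup G).subtype).normalCore = ⊥)
    (X Y : Subgroup G) [hX : X.Normal] [hY : Y.Normal] (hX1 : X ≠ ⊥) (hY1 : Y ≠ ⊥) :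
    X ⊓ Y ≠ ⊥ := by
  intro h
  apply hna
  have hA := not_subgroupOf_le_frattini P hcore hfrat X hX1
  have hB := not_subgroupOf_le_frattini P hcore hfrat Y hY1
  have hAB : X.subgroupOf (P : Subgroup G) ⊓ Y.subgroupOf (P : Subgroup G) = ⊥ := by
    rw [Subgroup.eq_bot_iff_forall]
    rintro a ⟨ha1, ha2⟩
    have h1 : (a : G) ∈ X ⊓ Y := ⟨Subgroup.mem_subgroupOf.mp ha1, Subgroup.mem_subgroupOf.mp ha2⟩
    rw [h, Subgroup.mem_bot] at h1
    exact Subtype.ext h1
  refine ⟨⟨fun a b => ?_⟩⟩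
  exact comm_of_two_normal (Fact.out : p.Prime) hgen _ _ hA hB hAB a b

/-- (C) there is a nontrivial normal subgroup contained in every nontrivial normal subgroup. -/
theorem exists_min_normal (P : Sylow p G) (hna : ¬ IsMulCommutative (P : Subgroup G))
    (hgen : (frattini ↥(P : Subgroup G)).index = p ^ 2) (hcore : Cfsg.pPrimeCore p G = ⊥)
    (hfrat : ((frattini ↥(P : Subgroup G)).map (P : Subgroup G).subtype).normalCore = ⊥) :
    ∃ N : Subgroup G, N.Normal ∧ N ≠ ⊥ ∧ ∀ X : Subgroup G, X.Normal → X ≠ ⊥ → N ≤ X := by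
  have hne : (⊤ : Subgroup G) ≠ ⊥ := by
    intro h
    apply hna
    refine ⟨⟨fun a b => ?_⟩⟩
    have ha : (a : G) ∈ (⊤ : Subgroup G) := Subgroup.mem_top _
    have hb : (b : G) ∈ (⊤ : Subgroup G) := Subgroup.mem_top _
    rw [h, Subgroup.mem_bot] at ha hb
    have ha' : a = 1 := Subtype.ext ha
    have hb' : b = 1 := Subtype.ext hb
    rw [ha', hb']
  obtain ⟨N, hN, hmin⟩ := WellFounded.has_min (measure (fun X : Subgroup G => Nat.card X)).wf
    {X : Subgroup G | X.Normal ∧ X ≠ ⊥} ⟨⊤, inferInstance, hne⟩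
  refine ⟨N, hN.1, hN.2, fun X hX hX1 => ?_⟩
  have hNn := hN.1
  have h1 : X ⊓ N ≠ ⊥ := inf_ne_bot P hna hgen hcore hfrat X N hX1 hN.2
  have h2 : ¬ (Nat.card ↥(X ⊓ N) < Nat.card N) := hmin (X ⊓ N) ⟨inferInstance, h1⟩
  have h3 : X ⊓ N = N := Subgroup.eq_of_le_of_card_ge inf_le_right (not_lt.mp h2)
  rw [← h3]
  exact inf_le_left

/-- `P = ⟨x⟩ (P ∩ N)` for every nontrivial normal subgroup `N`. -/
theorem exists_gen (P : Sylow p G)
    (hgen : (frattini ↥(P : Subgroup G)).index = p ^ 2) (hcore : Cfsg.pPrimeCore p G = ⊥)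
    (hfrat : ((frattini ↥(P : Subgroup G)).map (P : Subgroup G).subtype).normalCore = ⊥)
    (N : Subgroup G) [N.Normal] (hN1 : N ≠ ⊥) :
    ∃ x ∈ (P : Subgroup G), ∀ g ∈ (P : Subgroup G), ∃ k : ℤ, ∃ n ∈ N, g = x ^ k * n := by
  obtain ⟨x, hx⟩ := exists_zpowers_sup_eq_top (Fact.out : p.Prime) hgen
    (N.subgroupOf (P : Subgroup G)) (not_subgroupOf_le_frattini P hcore hfrat N hN1)
  refine ⟨x, x.2, fun g hg => ?_⟩
  have h1 : (⟨g, hg⟩ : ↥(P : Subgroup G)) ∈ Subgroup.zpowers x ⊔ N.subgroupOf (P : Subgroup G) := by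
    rw [hx]; trivial
  rw [Subgroup.mem_sup_of_normal_right] at h1
  obtain ⟨y, hy, z, hz, hyz⟩ := h1
  obtain ⟨k, rfl⟩ := Subgroup.mem_zpowers_iff.mp hy
  refine ⟨k, z, Subgroup.mem_subgroupOf.mp hz, ?_⟩
  have := congrArg Subtype.val hyz
  simpa using this.symm

/-- the image of `P = ⟨x⟩(P ∩ F)` modulo `F` is cyclic. -/
theorem isCyclic_map_mk' (P : Subgroup G) (F : Subgroup G) [F.Normal] (x : G) (hx : x ∈ P)
    (h : ∀ g ∈ P, ∃ k : ℤ, ∃ n ∈ F, g = x ^ k * n) :
    IsCyclic ↥(P.map (QuotientGroup.mk' F)) := by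
  rw [isCyclic_iff_exists_zpowers_eq_top]
  refine ⟨⟨QuotientGroup.mk' F x, Subgroup.mem_map_of_mem _ hx⟩, ?_⟩
  rw [eq_top_iff]
  rintro ⟨y, hy⟩ _
  obtain ⟨g, hg, rfl⟩ := Subgroup.mem_map.mp hy
  obtain ⟨k, n, hn, rfl⟩ := h g hg
  rw [Subgroup.mem_zpowers_iff]
  refine ⟨k, ?_⟩
  apply Subtype.ext
  simp only [Subgroup.coe_zpow, QuotientGroup.mk'_apply, QuotientGroup.mk_mul,
    QuotientGroup.mk_zpow]
  rw [(QuotientGroup.eq_one_iff n).mpr hn, mul_one]

end Cfsg.Agent.Lib.Helper43.TwoGen
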