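import Mathlib

set_option autoImplicit false

namespace Cfsg.Agent.Lib.Helper43.TwoGen

open scoped IsMulCommutative

variable {G : Type*} [Group G]

/-- If every element of `S` is `x ^ k * n` with `n ∈ N`, `N ≤ S` and `N` is central in `S`,
then `S` is commutative. -/
theorem comm_of_gen (x : G) (S N : Subgroup G) (hNS : N ≤ S)
    (hS : ∀ g ∈ S, ∃ k : ℤ, ∃ n ∈ N, g = x ^ k * n)
    (hc : ∀ n ∈ N, ∀ s ∈ S, n * s = s * n) (a b : G) (ha : a ∈ S) (hb : b ∈ S) :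
    a * b = b * a := by
  obtain ⟨i, n, hn, rfl⟩ := hS a ha
  obtain ⟨j, m, hm, rfl⟩ := hS b hb
  have hxi : x ^ i ∈ S := by
    have := S.mul_mem ha (S.inv_mem (hNS hn))
    simpa using this
  have hxj : x ^ j ∈ S := by
    have := S.mul_mem hb (S.inv_mem (hNS hm))
    simpa using this
  have h1 : n * x ^ j = x ^ j * n := hc n hn _ hxj
  have h2 : m * x ^ i = x ^ i * m := hc m hm _ hxi
  have h3 : n * m = m * n := hc n hn m (hNS hm)
  have h4 : x ^ i * x ^ j = x ^ j * x ^ i := (Commute.zpow_zpow_self x i j).eq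
  calc x ^ i * n * (x ^ j * m) = x ^ i * (n * x ^ j) * m := by group
    _ = x ^ i * (x ^ j * n) * m := by rw [h1]
    _ = (x ^ i * x ^ j) * (n * m) := by group
    _ = (x ^ j * x ^ i) * (m * n) := by rw [h4, h3]
    _ = x ^ j * (x ^ i * m) * n := by group
    _ = x ^ j * (m * x ^ i) * n := by rw [h2]
    _ = x ^ j * m * (x ^ i * n) := by group

/-- The trace of a `P`-fixed element `r` of an abelian `H`-invariant subgroup `R` over `H/P`:
an `H`-fixed element of `R` congruent to `r ^ |H : P|` modulo `N`, when `H` acts trivially on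
`R/N`. -/
theorem exists_trace [Finite G] (H P R N : Subgroup G)
    (hRc : ∀ a ∈ R, ∀ b ∈ R, a * b = b * a)
    (hRn : ∀ g ∈ H, ∀ v ∈ R, g * v * g⁻¹ ∈ R)
    (hHR : ∀ g ∈ H, ∀ v ∈ R, g * v * g⁻¹ * v⁻¹ ∈ N) (r : G) (hrR : r ∈ R)
    (hr : ∀ g ∈ P, g * r = r * g) :
    ∃ t ∈ R, (∀ y ∈ H, y * t = t * y) ∧ t * (r ^ (P.relIndex H))⁻¹ ∈ N := by
  classical
  have : IsMulCommutative ↥R := ⟨⟨fun a b => Subtype.ext (hRc a a.2 b b.2)⟩⟩
  let Q := ↥H ⧸ P.subgroupOf H
  have : Fintype Q := Fintype.ofFinite Q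
  let f : Q → ↥R := fun q => ⟨((q.out : ↥H) : G) * r * ((q.out : ↥H) : G)⁻¹, hRn _ q.out.2 r hrR⟩
  let t : ↥R := ∏ q, f q
  refine ⟨t, t.2, ?_, ?_⟩
  · intro y hy
    -- conjugation by y as an endomorphism of R
    let φ : ↥R →* ↥R :=
      { toFun := fun v => ⟨y * v * y⁻¹, hRn y hy v v.2⟩
        map_one' := by apply Subtype.ext; simp
        map_mul' := by intro a b; apply Subtype.ext; simp }
    have h1 : ∀ q : Q, φ (f q) = f ((⟨y, hy⟩ : ↥H) • q) := by
      intro q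
      apply Subtype.ext
      have hq : (⟨y, hy⟩ : ↥H) • q = ((⟨y, hy⟩ * q.out : ↥H) : Q) := by
        conv_lhs => rw [← QuotientGroup.out_eq' q]
        rfl
      obtain ⟨h, hh⟩ := QuotientGroup.mk_out_eq_mul (P.subgroupOf H) (⟨y, hy⟩ * q.out)
      have hhP : ((h : ↥H) : G) ∈ P := Subgroup.mem_subgroupOf.mp h.2
      have hcomm := hr _ hhP
      show y * (((q.out : ↥H) : G) * r * ((q.out : ↥H) : G)⁻¹) * y⁻¹ =
        (((((⟨y, hy⟩ : ↥H) • q).out : ↥H) : G)) * r * (((((⟨y, hy⟩ : ↥H) • q).out : ↥H) : G))⁻¹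
      rw [hq, hh]
      simp only [Subgroup.coe_mul, mul_inv_rev]
      have : y * ((q.out : ↥H) : G) * ((h : ↥H) : G) * r *
          (((h : ↥H) : G)⁻¹ * (((q.out : ↥H) : G)⁻¹ * y⁻¹)) =
          y * ((q.out : ↥H) : G) * (((h : ↥H) : G) * r) * ((h : ↥H) : G)⁻¹ *
            ((q.out : ↥H) : G)⁻¹ * y⁻¹ := by group
      rw [this, hcomm]
      group
    have h2 : φ t = t := by
      show φ (∏ q, f q) = ∏ q, f q
      rw [map_prod]
      simp_rw [h1]
      exact Fintype.prod_equiv (MulAction.toPerm (⟨y, hy⟩ : ↥H)) _ _ (fun q => rfl)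
    have h3 : y * (t : G) * y⁻¹ = (t : G) := congrArg Subtype.val h2
    calc y * (t : G) = y * (t : G) * y⁻¹ * y := by group
      _ = (t : G) * y := by rw [h3]
  · have h1 : ∀ q : Q, f q * (⟨r, hrR⟩ : ↥R)⁻¹ ∈ N.subgroupOf R := by
      intro q
      rw [Subgroup.mem_subgroupOf]
      exact hHR _ q.out.2 r hrR
    have h2 : t * ((⟨r, hrR⟩ : ↥R) ^ (P.relIndex H))⁻¹ = ∏ q, (f q * (⟨r, hrR⟩ : ↥R)⁻¹) := by
      rw [Finset.prod_mul_distrib, Finset.prod_const, Finset.card_univ, inv_pow]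
      congr 2
      rw [← Nat.card_eq_fintype_card]
      rfl
    have h3 : t * ((⟨r, hrR⟩ : ↥R) ^ (P.relIndex H))⁻¹ ∈ N.subgroupOf R := by
      rw [h2]
      exact Subgroup.prod_mem _ (fun q _ => h1 q)
    rw [Subgroup.mem_subgroupOf] at h3
    simpa using h3

/-- A central element of a perfect subgroup `E` has `z ^ |E : S ∩ E| = 1` when `S ∩ E` is
commutative (transfer). -/
theorem central_pow_relIndex_eq_one [Finite G] (E S : Subgroup G) (hperf : ⁅E, E⁆ = E)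
    (hSc : ∀ a ∈ S ⊓ E, ∀ b ∈ S ⊓ E, a * b = b * a) (z : G) (hzE : z ∈ E)
    (hz : ∀ e ∈ E, e * z = z * e) : z ^ (S.relIndex E) = 1 := by
  have : IsMulCommutative ↥(S.subgroupOf E) :=
    ⟨⟨fun a b => Subtype.ext (Subtype.ext (hSc _ ⟨Subgroup.mem_subgroupOf.mp a.2, a.1.2⟩
      _ ⟨Subgroup.mem_subgroupOf.mp b.2, b.1.2⟩))⟩⟩
  let T : ↥E →* ↥(S.subgroupOf E) := MonoidHom.transfer (MonoidHom.id ↥(S.subgroupOf E))
  have key : ∀ (k : ℕ) (g₀ : ↥E), g₀⁻¹ * (⟨z, hzE⟩ : ↥E) ^ k * g₀ ∈ S.subgroupOf E →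
      g₀⁻¹ * (⟨z, hzE⟩ : ↥E) ^ k * g₀ = (⟨z, hzE⟩ : ↥E) ^ k := by
    intro k g₀ _
    apply Subtype.ext
    have h1 : (g₀ : G) * z ^ k = z ^ k * (g₀ : G) := by
      have := hz g₀ g₀.2
      exact ((Commute.pow_right (show Commute (g₀ : G) z from this) k)).eq
    show (g₀ : G)⁻¹ * z ^ k * (g₀ : G) = z ^ k
    rw [mul_assoc, ← h1]
    group
  have h1 : T ⟨z, hzE⟩ = ⟨(⟨z, hzE⟩ : ↥E) ^ (S.subgroupOf E).index,
      MonoidHom.transfer_eq_pow_aux _ key⟩ :=
    MonoidHom.transfer_eq_pow (MonoidHom.id ↥(S.subgroupOf E)) _ key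
  -- T kills everything since E is perfect
  have h2 : ∀ e : ↥E, T e = 1 := by
    have h3 : ⁅E, E⁆ ≤ T.ker.map E.subtype := by
      rw [Subgroup.commutator_le]
      intro a ha b hb
      rw [commutatorElement_def]
      refine ⟨(⟨a, ha⟩ : ↥E) * ⟨b, hb⟩ * (⟨a, ha⟩ : ↥E)⁻¹ * (⟨b, hb⟩ : ↥E)⁻¹, ?_, rfl⟩
      rw [SetLike.mem_coe, MonoidHom.mem_ker]
      simp only [map_mul, map_inv]
      have := mul_comm (T ⟨a, ha⟩) (T ⟨b, hb⟩)
      rw [this]
      group
    intro e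
    have he : (e : G) ∈ ⁅E, E⁆ := by rw [hperf]; exact e.2
    obtain ⟨e', he', hee'⟩ := h3 he
    have : e' = e := Subtype.ext hee'
    rw [← this]
    exact he'
  have h4 := h2 ⟨z, hzE⟩
  rw [h1] at h4
  have h5 := congrArg (fun u : ↥(S.subgroupOf E) => ((u : ↥E) : G)) h4
  show z ^ (S.subgroupOf E).index = 1
  simpa using h5

/-- a homomorphism from a perfect group to a solvable group is trivial. -/
theorem perfect_hom_trivial {K A : Type*} [Group K] [Group A] [hA : Group.IsSolvable A]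
    (hK : commutator K = ⊤) (f : K →* A) (k : K) : f k = 1 := by
  have h1 : ∀ n : ℕ, derivedSeries K n = ⊤ := by
    intro n
    induction n with
    | zero => rfl
    | succ n ih => rw [derivedSeries_succ, ih]; exact hK
  obtain ⟨n, hn⟩ := hA.solvable
  have h2 := map_derivedSeries_le_derivedSeries f n
  rw [h1, hn, le_bot_iff] at h2
  have h3 : f k ∈ (⊤ : Subgroup K).map f := Subgroup.mem_map_of_mem f (Subgroup.mem_top k)
  rw [h2, Subgroup.mem_bot] at h3
  exact h3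

/-- `|K : H ∩ K| = |HK : H|` for `K` normal. -/
theorem card_eq_card_mul_relIndex' {H K : Subgroup G} (h : H ≤ K) :
    Nat.card K = Nat.card H * H.relIndex K := by
  rw [← Subgroup.relIndex_bot_left, ← Subgroup.relIndex_bot_left,
    Subgroup.relIndex_mul_relIndex _ _ _ bot_le h]

theorem relIndex_sup_eq [Finite G] (H K : Subgroup G) [K.Normal] :
    H.relIndex (H ⊔ K) = H.relIndex K := by
  have e1 : Nat.card ↥(H ⊔ K) = Nat.card K * K.relIndex (H ⊔ K) :=
    card_eq_card_mul_relIndex' (le_sup_right : K ≤ H ⊔ K)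
  have e2 : Nat.card ↥(H ⊔ K) = Nat.card H * H.relIndex (H ⊔ K) :=
    card_eq_card_mul_relIndex' (le_sup_left : H ≤ H ⊔ K)
  have e3 : Nat.card H = Nat.card ↥(H ⊓ K) * K.relIndex H := by
    rw [← Subgroup.inf_relIndex_left]
    exact card_eq_card_mul_relIndex' (inf_le_left : H ⊓ K ≤ H)
  have e4 : Nat.card K = Nat.card ↥(H ⊓ K) * H.relIndex K := by
    rw [← Subgroup.inf_relIndex_right]
    exact card_eq_card_mul_relIndex' (inf_le_right : H ⊓ K ≤ K)
  have e5 : K.relIndex (H ⊔ K) = K.relIndex H := Subgroup.relIndex_sup_right H K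
  have hpos : 0 < Nat.card H := Nat.card_pos
  apply Nat.eq_of_mul_eq_mul_left hpos
  calc Nat.card H * H.relIndex (H ⊔ K) = Nat.card ↥(H ⊔ K) := e2.symm
    _ = Nat.card K * K.relIndex H := by rw [e1, e5]
    _ = Nat.card ↥(H ⊓ K) * H.relIndex K * K.relIndex H := by rw [← e4]
    _ = Nat.card ↥(H ⊓ K) * K.relIndex H * H.relIndex K := by ring
    _ = Nat.card H * H.relIndex K := by rw [← e3]

theorem not_dvd_relIndex_normal [Finite G] {p : ℕ} [Fact p.Prime] (P : Sylow p G)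
    (K : Subgroup G) [K.Normal] : ¬ p ∣ (P : Subgroup G).relIndex K := by
  rw [← relIndex_sup_eq]
  intro h
  apply P.not_dvd_index
  rw [← Subgroup.relIndex_mul_index (le_sup_left : (P : Subgroup G) ≤ (P : Subgroup G) ⊔ K)]
  exact dvd_mul_of_dvd_left h _

end Cfsg.Agent.Lib.Helper43.TwoGen
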