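import Mathlib
import Cfsg.Agent.Lib.Helper43.TwoGenB
import Cfsg.Agent.Lib.Helper43.TwoGenC

set_option autoImplicit false
open Cfsg

namespace Cfsg.Agent.Lib.Helper43.TwoGen

open Cfsg.Agent.Lib.Helper30
open scoped IsMulCommutative

variable {G : Type*} [Group G] [Finite G] {p : ℕ} [Fact p.Prime]

/-- the minimal normal subgroup is central in every nontrivial normal `p`-subgroup. -/
theorem min_central (N : Subgroup G) (hmin : ∀ X : Subgroup G, X.Normal → X ≠ ⊥ → N ≤ X)
    (X : Subgroup G) [hX : X.Normal] (hXp : IsPGroup p X) (hX1 : X ≠ ⊥) :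
    ∀ n ∈ N, ∀ v ∈ X, n * v = v * n := by
  have hnt : Nontrivial ↥X := (Subgroup.nontrivial_iff_ne_bot X).mpr hX1
  have hZ : (Subgroup.center ↥X) ≠ ⊥ := by
    have := hXp.center_nontrivial
    exact (Subgroup.nontrivial_iff_ne_bot _).mp this
  have hZn : ((Subgroup.center ↥X).map X.subtype).Normal := inferInstance
  have hZ1 : (Subgroup.center ↥X).map X.subtype ≠ ⊥ := by
    rw [Ne, Subgroup.map_eq_bot_iff_of_injective _ (Subgroup.subtype_injective _)]
    exact hZ
  intro n hn v hv
  obtain ⟨c, hc, rfl⟩ := hmin _ hZn hZ1 hn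
  have := Subgroup.mem_center_iff.mp hc ⟨v, hv⟩
  exact (congrArg Subtype.val this).symm

/-- the non-commutative case. -/
theorem noncomm_case (hcore : Cfsg.pPrimeCore p G = ⊥) (N : Subgroup G) [hN : N.Normal]
    (hmin : ∀ X : Subgroup G, X.Normal → X ≠ ⊥ → N ≤ X)
    (hnc : ¬ ∀ a ∈ N, ∀ b ∈ N, a * b = b * a) :
    fittingSubgroup G = ⊥ ∧ Subgroup.centralizer (N : Set G) = ⊥ ∧
      ∀ K : Subgroup G, IsComponent K → K ≤ N := by
  have hF : fittingSubgroup G = ⊥ := by
    by_contra h
    have hFn : (fittingSubgroup G).Normal := fitting_normal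
    have hFp : IsPGroup p (fittingSubgroup G) := by
      rw [fitting_eq_pCore_of_pPrimeCore_eq_bot p hcore]
      exact pCore_isPGroup p
    have h1 := min_central N hmin (fittingSubgroup G) hFp h
    apply hnc
    intro a ha b hb
    exact h1 a ha b (hmin _ hFn h hb)
  have hC : Subgroup.centralizer (N : Set G) = ⊥ := by
    by_contra h
    have h1 := hmin _ inferInstance h
    apply hnc
    intro a ha b hb
    exact (Subgroup.mem_centralizer_iff.mp (h1 ha) b hb).symm
  refine ⟨hF, hC, fun K hK => ?_⟩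
  rcases component_le_or_commutator_eq_bot hK hN.isSubnormal with h | h
  · exact h
  · exfalso
    have h1 := Subgroup.commutator_eq_bot_iff_le_centralizer.mp h
    rw [hC, le_bot_iff] at h1
    exact comp_ne_bot hK h1

/-- coprime-order trick: a `p`-element whose `m`-th power lies in `N` (`p ∤ m`) lies in `N`. -/
theorem mem_of_pow_mem (N : Subgroup G) [N.Normal] {y : G} {m j : ℕ} (hm : ¬ p ∣ m)
    (hy : y ^ p ^ j = 1) (hym : y ^ m ∈ N) : y ∈ N := by
  rw [← QuotientGroup.eq_one_iff] at hym ⊢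
  have h1 : orderOf (y : G ⧸ N) ∣ m := by
    apply orderOf_dvd_of_pow_eq_one
    rw [← QuotientGroup.mk_pow]; exact hym
  have h2 : orderOf (y : G ⧸ N) ∣ p ^ j := by
    apply orderOf_dvd_of_pow_eq_one
    rw [← QuotientGroup.mk_pow, hy, QuotientGroup.mk_one]
  have hcop : Nat.Coprime m (p ^ j) :=
    Nat.Coprime.pow_right j ((Nat.coprime_comm).mp ((Nat.Prime.coprime_iff_not_dvd Fact.out).mpr hm))
  exact orderOf_eq_one_iff.mp (Nat.Coprime.eq_one_of_dvd (hcop.coprime_dvd_left h1) h2)

/-- the commutative case. -/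
theorem comm_case (P : Sylow p G) (hna : ¬ IsMulCommutative (P : Subgroup G))
    (hgen : (frattini ↥(P : Subgroup G)).index = p ^ 2) (hcore : Cfsg.pPrimeCore p G = ⊥)
    (hfrat : ((frattini ↥(P : Subgroup G)).map (P : Subgroup G).subtype).normalCore = ⊥)
    (N : Subgroup G) [hN : N.Normal] (hN1 : N ≠ ⊥)
    (hmin : ∀ X : Subgroup G, X.Normal → X ≠ ⊥ → N ≤ X)
    (hc : ∀ a ∈ N, ∀ b ∈ N, a * b = b * a) :
    fittingSubgroup G ≤ N ∧ layer G = ⊥ := by
  set R := fittingSubgroup G with hRdef
  have hRn : R.Normal := fitting_normal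
  have hRp : IsPGroup p R := by
    rw [hRdef, fitting_eq_pCore_of_pPrimeCore_eq_bot p hcore]
    exact pCore_isPGroup p
  have hNR : N ≤ R := by
    apply le_fitting_of_subnormal_nilpotent hN.isSubnormal
    have : IsMulCommutative ↥N := ⟨⟨fun a b => Subtype.ext (hc a a.2 b b.2)⟩⟩
    exact CommGroup.isNilpotent
  have hR1 : R ≠ ⊥ := fun h => hN1 (le_bot_iff.mp (h ▸ hNR))
  have hRP : R ≤ (P : Subgroup G) := hRp.le_sylow_of_normal P
  have hNP : N ≤ (P : Subgroup G) := hNR.trans hRP
  have hNZ := min_central N hmin R hRp hR1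
  obtain ⟨x, hxP, hx⟩ := exists_gen P hgen hcore hfrat N hN1
  -- P is abelian modulo N
  have hPN : ∀ g ∈ (P : Subgroup G), ∀ v ∈ (P : Subgroup G), g * v * g⁻¹ * v⁻¹ ∈ N := by
    intro g hg v hv
    obtain ⟨i, n, hn, rfl⟩ := hx g hg
    obtain ⟨j, m, hm, rfl⟩ := hx v hv
    rw [← QuotientGroup.eq_one_iff]
    simp only [QuotientGroup.mk_mul, QuotientGroup.mk_inv, QuotientGroup.mk_zpow,
      (QuotientGroup.eq_one_iff n).mpr hn, (QuotientGroup.eq_one_iff m).mpr hm, mul_one]
    group
  have hPcomm_of : (∀ n ∈ N, n * x = x * n) → False := by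
    intro hxN
    apply hna
    have key := comm_of_gen x (P : Subgroup G) N hNP hx (by
      intro n hn s hs
      obtain ⟨j, m, hm, rfl⟩ := hx s hs
      have h1 : n * x ^ j = x ^ j * n :=
        (Commute.zpow_right (show Commute n x from hxN n hn) j).eq
      calc n * (x ^ j * m) = (n * x ^ j) * m := by group
        _ = x ^ j * (n * m) := by rw [h1]; group
        _ = x ^ j * (m * n) := by rw [hc n hn m hm]
        _ = x ^ j * m * n := by group)
    exact ⟨⟨fun a b => Subtype.ext (key a b a.2 b.2)⟩⟩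
  constructor
  · by_contra hRN
    obtain ⟨r', hr'R, hr'N⟩ := SetLike.not_le_iff_exists.mp hRN
    obtain ⟨k, n, hn, hr'⟩ := hx r' (hRP hr'R)
    have hrR : x ^ k ∈ R := by
      have : x ^ k = r' * n⁻¹ := by rw [hr']; group
      rw [this]
      exact R.mul_mem hr'R (R.inv_mem (hNR hn))
    have hrN : x ^ k ∉ N := by
      intro h
      apply hr'N
      rw [hr']
      exact N.mul_mem h hn
    have hrP : ∀ g ∈ (P : Subgroup G), g * x ^ k = x ^ k * g := by
      intro g hg
      obtain ⟨j, m, hm, rfl⟩ := hx g hg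
      have h1 : m * x ^ k = x ^ k * m := hNZ m hm _ hrR
      have h2 : x ^ j * x ^ k = x ^ k * x ^ j := (Commute.zpow_zpow_self x j k).eq
      calc x ^ j * m * x ^ k = x ^ j * (m * x ^ k) := by group
        _ = (x ^ j * x ^ k) * m := by rw [h1]; group
        _ = x ^ k * (x ^ j * m) := by rw [h2]; group
    have hRc : ∀ a ∈ R, ∀ b ∈ R, a * b = b * a :=
      fun a ha b hb => comm_of_gen x R N hNR (fun g hg => hx g (hRP hg)) hNZ a b ha hb
    have hRmapn : (R.map (QuotientGroup.mk' N)).Normal :=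
      Subgroup.Normal.map hRn _ (QuotientGroup.mk'_surjective N)
    set H : Subgroup G := (Subgroup.centralizer
      ((R.map (QuotientGroup.mk' N) : Subgroup (G ⧸ N)) : Set (G ⧸ N))).comap
      (QuotientGroup.mk' N) with hHdef
    have hHn : H.Normal := Subgroup.Normal.comap inferInstance _
    have hHR : ∀ g ∈ H, ∀ v ∈ R, g * v * g⁻¹ * v⁻¹ ∈ N := by
      intro g hg v hv
      have h1 : (QuotientGroup.mk' N v) * (QuotientGroup.mk' N g) =
          (QuotientGroup.mk' N g) * (QuotientGroup.mk' N v) :=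
        Subgroup.mem_centralizer_iff.mp (Subgroup.mem_comap.mp hg) _
          (Subgroup.mem_map_of_mem _ hv)
      rw [← QuotientGroup.eq_one_iff]
      simp only [QuotientGroup.mk'_apply] at h1
      simp only [QuotientGroup.mk_mul, QuotientGroup.mk_inv]
      rw [← h1]
      group
    have hPH : (P : Subgroup G) ≤ H := by
      intro g hg
      rw [hHdef, Subgroup.mem_comap, Subgroup.mem_centralizer_iff]
      rintro w ⟨v, hv, rfl⟩
      have h1 := hPN g hg v (hRP hv)
      rw [← QuotientGroup.eq_one_iff] at h1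
      simp only [QuotientGroup.mk_mul, QuotientGroup.mk_inv] at h1
      simp only [QuotientGroup.mk'_apply]
      have h2 : (g : G ⧸ N) * (v : G ⧸ N) =
          ((g : G ⧸ N) * (v : G ⧸ N) * (g : G ⧸ N)⁻¹ * (v : G ⧸ N)⁻¹) *
            ((v : G ⧸ N) * (g : G ⧸ N)) := by group
      rw [h2, h1, one_mul]
    obtain ⟨t, htR, htH, htN⟩ := exists_trace H (P : Subgroup G) R N hRc
      (fun g _ v hv => hRn.conj_mem v hv g) hHR (x ^ k) hrR hrP
    have htN' : t ∉ N := by
      intro ht
      apply hrN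
      have h1 : (x ^ k) ^ ((P : Subgroup G).relIndex H) ∈ N := by
        have := N.mul_mem (N.inv_mem htN) ht
        simpa using this
      have h2 : ¬ p ∣ (P : Subgroup G).relIndex H := by
        intro hdvd
        exact P.not_dvd_index (hdvd.trans (Subgroup.relIndex_dvd_index_of_le hPH))
      obtain ⟨j, hj⟩ := P.isPGroup' ⟨x ^ k, (P : Subgroup G).zpow_mem hxP k⟩
      have hj' : (x ^ k) ^ p ^ j = 1 := by simpa using congrArg Subtype.val hj
      exact mem_of_pow_mem N h2 hj' h1
    have hCn : (R ⊓ Subgroup.centralizer (H : Set G)).Normal := inferInstance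
    have htC : t ∈ R ⊓ Subgroup.centralizer (H : Set G) :=
      ⟨htR, Subgroup.mem_centralizer_iff.mpr htH⟩
    have hC1 : R ⊓ Subgroup.centralizer (H : Set G) ≠ ⊥ := by
      intro h
      rw [h, Subgroup.mem_bot] at htC
      exact htN' (htC ▸ N.one_mem)
    have hNC := hmin _ hCn hC1
    apply hPcomm_of
    intro n hn
    exact (Subgroup.mem_centralizer_iff.mp (hNC hn).2 x (hPH hxP)).symm
  · by_contra hE
    have hEn : (layer G).Normal := layer_normal
    have hNE : N ≤ layer G := hmin _ hEn hE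
    have hEN : ∀ e ∈ layer G, ∀ n ∈ N, e * n = n * e := fun e he n hn =>
      commute_of_commutator_eq_bot layer_commutator_fitting e he n (hNR hn)
    have hSc : ∀ a ∈ (P : Subgroup G) ⊓ layer G, ∀ b ∈ (P : Subgroup G) ⊓ layer G,
        a * b = b * a :=
      fun a ha b hb => comm_of_gen x ((P : Subgroup G) ⊓ layer G) N (le_inf hNP hNE)
        (fun g hg => hx g hg.1) (fun n hn s hs => (hEN s hs.2 n hn).symm) a b ha hb
    apply hN1
    rw [Subgroup.eq_bot_iff_forall]
    intro z hz
    have h1 := central_pow_relIndex_eq_one (layer G) (P : Subgroup G) layer_perfect hSc z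
      (hNE hz) (fun e he => hEN e he z hz)
    have h2 := not_dvd_relIndex_normal P (layer G)
    obtain ⟨j, hj⟩ := P.isPGroup' ⟨z, hNP hz⟩
    have hj' : z ^ p ^ j = 1 := by simpa using congrArg Subtype.val hj
    have h3 : z ∈ (⊥ : Subgroup G) := mem_of_pow_mem ⊥ h2 hj' (by rw [h1]; exact Subgroup.one_mem _)
    exact Subgroup.mem_bot.mp h3

end Cfsg.Agent.Lib.Helper43.TwoGen
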