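import Mathlib
import Cfsg.Agent.Lib.Helper43.TwoGenD
import Cfsg.Agent.Lib.Helper30.Conj

set_option autoImplicit false
open Cfsg

namespace Cfsg.Agent.Lib.Helper43.TwoGen

open Cfsg.Agent.Lib.Helper30
open scoped IsMulCommutative

variable {G : Type*} [Group G] [Finite G] {p : ℕ} [Fact p.Prime]

/-- `F*(G)` is the unique minimal normal subgroup. -/
theorem genFitting_eq (P : Sylow p G) (hna : ¬ IsMulCommutative (P : Subgroup G))
    (hgen : (frattini ↥(P : Subgroup G)).index = p ^ 2) (hcore : Cfsg.pPrimeCore p G = ⊥)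
    (hfrat : ((frattini ↥(P : Subgroup G)).map (P : Subgroup G).subtype).normalCore = ⊥)
    (N : Subgroup G) [hN : N.Normal] (hN1 : N ≠ ⊥)
    (hmin : ∀ X : Subgroup G, X.Normal → X ≠ ⊥ → N ≤ X) :
    generalizedFittingSubgroup G = N := by
  have hFn : (generalizedFittingSubgroup G).Normal := genFitting_normal
  have hF1 : generalizedFittingSubgroup G ≠ ⊥ := by
    intro h
    have h1 := centralizer_genFitting_le (G := G)
    rw [h] at h1
    have h2 : N ≤ Subgroup.centralizer (((⊥ : Subgroup G)) : Set G) := by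
      intro n _
      rw [Subgroup.mem_centralizer_iff]
      intro h hh
      have : h = 1 := Subgroup.mem_bot.mp hh
      rw [this]; simp
    exact hN1 (le_bot_iff.mp (h2.trans h1))
  apply le_antisymm _ (hmin _ hFn hF1)
  unfold generalizedFittingSubgroup
  by_cases hc : ∀ a ∈ N, ∀ b ∈ N, a * b = b * a
  · obtain ⟨h1, h2⟩ := comm_case P hna hgen hcore hfrat N hN1 hmin hc
    rw [h2, bot_sup_eq]; exact h1
  · obtain ⟨h1, -, h3⟩ := noncomm_case hcore N hmin hc
    rw [h1, sup_bot_eq]
    exact sSup_le (fun K hK => h3 K hK)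

/-- Tate inside `MP`: a `P`-invariant subgroup containing a component is not inside `Φ(P)`. -/
theorem not_subgroupOf_le_frattini_of_comp (P : Sylow p G) (hcore : Cfsg.pPrimeCore p G = ⊥)
    (M : Subgroup G) (hMP : ∀ y ∈ (P : Subgroup G), ∀ g ∈ M, y * g * y⁻¹ ∈ M)
    (K : Subgroup G) (hK : IsComponent K) (hKM : K ≤ M) :
    ¬ M.subgroupOf (P : Subgroup G) ≤ frattini ↥(P : Subgroup G) := by
  intro hle
  have hPH : (P : Subgroup G) ≤ M ⊔ (P : Subgroup G) := le_sup_right
  have hMH : M ≤ M ⊔ (P : Subgroup G) := le_sup_left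
  let P₀ : Sylow p (M ⊔ (P : Subgroup G) : Subgroup G) := P.subtype hPH
  have hMn : (M.subgroupOf (M ⊔ (P : Subgroup G))).Normal := by
    apply Subgroup.normal_subgroupOf_of_le_normalizer
    apply sup_le Subgroup.le_normalizer
    intro y hy
    rw [Subgroup.mem_normalizer_iff]
    intro g
    constructor
    · exact hMP y hy g
    · intro h
      have := hMP y⁻¹ (inv_mem hy) _ h
      simpa [mul_assoc] using this
  have h1 : M.subgroupOf (M ⊔ (P : Subgroup G)) ⊓ (P₀ : Subgroup (M ⊔ (P : Subgroup G) : Subgroup G))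
      ≤ (frattini ↥(P₀ : Subgroup (M ⊔ (P : Subgroup G) : Subgroup G))).map
        (P₀ : Subgroup (M ⊔ (P : Subgroup G) : Subgroup G)).subtype := by
    rintro u ⟨huM, huP⟩
    have huP' : (u : G) ∈ (P : Subgroup G) := huP
    have h2 : (⟨(u : G), huP'⟩ : ↥(P : Subgroup G)) ∈ frattini ↥(P : Subgroup G) :=
      hle (Subgroup.mem_subgroupOf.mpr huM)
    have h3 := frattini_le_comap_frattini_of_surjective
      (φ := (Subgroup.subgroupOfEquivOfLe hPH).symm.toMonoidHom)
      (Subgroup.subgroupOfEquivOfLe hPH).symm.surjective h2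
    refine ⟨⟨u, huP⟩, ?_, rfl⟩
    have h4 : (Subgroup.subgroupOfEquivOfLe hPH).symm ⟨(u : G), huP'⟩ = ⟨u, huP⟩ := by
      rw [MulEquiv.symm_apply_eq]
      apply Subtype.ext
      rw [Subgroup.subgroupOfEquivOfLe_apply_coe]
    have h5 : (Subgroup.subgroupOfEquivOfLe hPH).symm ⟨(u : G), huP'⟩ ∈
        frattini ↥((P : Subgroup G).subgroupOf (M ⊔ (P : Subgroup G))) := h3
    rw [h4] at h5
    exact h5
  obtain ⟨Q, C, hCn, hCQ⟩ := Cfsg.Agent.S0081.result P₀ (M.subgroupOf (M ⊔ (P : Subgroup G))) h1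
  -- the quotient by C is a p-group, C is a p'-group
  have hcard : Nat.card C * Nat.card (Q : Subgroup (M.subgroupOf (M ⊔ (P : Subgroup G)))) =
      Nat.card (M.subgroupOf (M ⊔ (P : Subgroup G))) := hCQ.card_mul_card
  have hCcop : (Nat.card C).Coprime p := by
    have h2 := Q.not_dvd_index
    have h3 : Nat.card C = (Q : Subgroup (M.subgroupOf (M ⊔ (P : Subgroup G)))).index := by
      have h4 := (Q : Subgroup (M.subgroupOf (M ⊔ (P : Subgroup G)))).card_mul_index
      have hpos : 0 < Nat.card (Q : Subgroup (M.subgroupOf (M ⊔ (P : Subgroup G)))) := Nat.card_pos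
      apply Nat.eq_of_mul_eq_mul_right hpos
      rw [hcard, ← h4, mul_comm]
    rw [h3, Nat.coprime_comm]
    exact (Nat.Prime.coprime_iff_not_dvd Fact.out).mpr h2
  have hquot : IsPGroup p (↥(M.subgroupOf (M ⊔ (P : Subgroup G))) ⧸ C) := by
    obtain ⟨k, hk⟩ := IsPGroup.iff_card.mp Q.isPGroup'
    apply IsPGroup.of_card (n := k)
    have h5 : Nat.card (↥(M.subgroupOf (M ⊔ (P : Subgroup G))) ⧸ C) = C.index := rfl
    have h4 := C.card_mul_index
    have hpos : 0 < Nat.card C := Nat.card_pos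
    rw [h5, ← hk]
    apply Nat.eq_of_mul_eq_mul_left hpos
    rw [h4, hcard]
  have hsolv : Group.IsSolvable (↥(M.subgroupOf (M ⊔ (P : Subgroup G))) ⧸ C) := by
    have := hquot.isNilpotent
    infer_instance
  let ι : ↥K →* ↥(M.subgroupOf (M ⊔ (P : Subgroup G))) :=
    (Subgroup.subgroupOfEquivOfLe hMH).symm.toMonoidHom.comp (Subgroup.inclusion hKM)
  have hιinj : Function.Injective ι := by
    intro a b hab
    have := (Subgroup.subgroupOfEquivOfLe hMH).symm.injective hab
    exact Subgroup.inclusion_injective hKM this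
  have hperf : commutator ↥K = ⊤ := Group.isPerfect_def.mp hK.2.1
  have hker : ∀ k : ↥K, ι k ∈ C := by
    intro k
    have := perfect_hom_trivial hperf ((QuotientGroup.mk' C).comp ι) k
    exact (QuotientGroup.eq_one_iff _).mp this
  have hKcop : (Nat.card ↥K).Coprime p := by
    have h2 : ι.range ≤ C := by
      rintro _ ⟨k, rfl⟩
      exact hker k
    have h3 : Nat.card ↥K = Nat.card ↥ι.range :=
      Nat.card_congr (MonoidHom.ofInjective hιinj).toEquiv
    rw [h3]
    exact Nat.Coprime.coprime_dvd_left (Subgroup.card_dvd_of_le h2) hCcop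
  have := le_pPrimeCore_of_subnormal hK.1 hKcop
  rw [hcore, le_bot_iff] at this
  exact comp_ne_bot hK this

/-- `P` is transitive on the components when the minimal normal subgroup is not commutative. -/
theorem transitive_on_components (P : Sylow p G) (hna : ¬ IsMulCommutative (P : Subgroup G))
    (hgen : (frattini ↥(P : Subgroup G)).index = p ^ 2) (hcore : Cfsg.pPrimeCore p G = ⊥)
    (N : Subgroup G) (hCN : Subgroup.centralizer (N : Set G) = ⊥) (hNE : N ≤ layer G)
    (K L : Subgroup G) (hK : IsComponent K) (hL : IsComponent L) :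
    ∃ x ∈ (P : Subgroup G), L = K.map (MulAut.conj x).toMonoidHom := by
  by_contra hno
  push Not at hno
  let I := {M : Subgroup G // IsComponent M ∧
    ∀ x ∈ (P : Subgroup G), M ≠ K.map (MulAut.conj x).toMonoidHom}
  let S₁ : ↥(P : Subgroup G) → Subgroup G := fun x => K.map (MulAut.conj (x : G)).toMonoidHom
  let S₂ : I → Subgroup G := fun M => (M : Subgroup G)
  set N₁ : Subgroup G := ⨆ x, S₁ x with hN₁
  set N₂ : Subgroup G := ⨆ M, S₂ M with hN₂
  have hK1 : K ≤ N₁ := by
    have h1 : K ≤ S₁ 1 := by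
      intro z hz
      show z ∈ K.map (MulAut.conj ((1 : ↥(P : Subgroup G)) : G)).toMonoidHom
      rw [mem_map_conj_iff]
      simpa using hz
    exact h1.trans (le_iSup S₁ 1)
  have hL2 : L ≤ N₂ := le_iSup S₂ ⟨L, hL, hno⟩
  have hcomm : ∀ a ∈ N₁, ∀ b ∈ N₂, a * b = b * a := by
    have h1 : N₁ ≤ Subgroup.centralizer (N₂ : Set G) := by
      apply iSup_le
      intro x
      rw [Subgroup.le_centralizer_iff]
      apply iSup_le
      rintro ⟨M, hM, hMne⟩
      rw [← Subgroup.commutator_eq_bot_iff_le_centralizer]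
      exact components_commute hM (isComponent_map_equiv (MulAut.conj (x : G)) hK) (hMne x x.2)
    intro a ha b hb
    exact (Subgroup.mem_centralizer_iff.mp (h1 ha) b hb).symm
  have hinf : N₁ ⊓ N₂ = ⊥ := by
    rw [Subgroup.eq_bot_iff_forall]
    rintro g ⟨hg1, hg2⟩
    have h1 : layer G ≤ Subgroup.centralizer ({g} : Set G) := by
      apply sSup_le
      intro M hM
      by_cases h : ∃ x ∈ (P : Subgroup G), M = K.map (MulAut.conj x).toMonoidHom
      · obtain ⟨x, hx, rfl⟩ := h
        intro m hm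
        rw [Subgroup.mem_centralizer_iff]
        intro h' hh'
        rw [Set.mem_singleton_iff.mp hh']
        have hm1 : m ∈ N₁ := le_iSup S₁ ⟨x, hx⟩ hm
        exact (hcomm m hm1 g hg2).symm
      · push Not at h
        intro m hm
        rw [Subgroup.mem_centralizer_iff]
        intro h' hh'
        rw [Set.mem_singleton_iff.mp hh']
        have hm2 : m ∈ N₂ := le_iSup S₂ ⟨M, hM, h⟩ hm
        exact hcomm g hg1 m hm2
    have h2 : g ∈ Subgroup.centralizer (N : Set G) := by
      rw [Subgroup.mem_centralizer_iff]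
      intro n hn
      exact (Subgroup.mem_centralizer_iff.mp (h1 (hNE hn)) g (Set.mem_singleton g)).symm
    rw [hCN] at h2
    exact Subgroup.mem_bot.mp h2
  have hinv1 : ∀ y ∈ (P : Subgroup G), ∀ g ∈ N₁, y * g * y⁻¹ ∈ N₁ := by
    intro y hy g hg
    refine Subgroup.iSup_induction S₁ (C := fun g => y * g * y⁻¹ ∈ N₁) hg ?_ ?_ ?_
    · intro x z hz
      have h1 : y * z * y⁻¹ ∈ S₁ ⟨y * x, mul_mem hy x.2⟩ := by
        show y * z * y⁻¹ ∈ K.map (MulAut.conj (y * (x : G))).toMonoidHom
        have hz' : z ∈ K.map (MulAut.conj (x : G)).toMonoidHom := hz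
        rw [mem_map_conj_iff] at hz' ⊢
        have : (y * (x : G))⁻¹ * (y * z * y⁻¹) * (y * (x : G)) = (x : G)⁻¹ * z * (x : G) := by
          group
        rw [this]; exact hz'
      exact le_iSup S₁ ⟨y * x, mul_mem hy x.2⟩ h1
    · simp
    · intro a b ha hb
      have : y * (a * b) * y⁻¹ = (y * a * y⁻¹) * (y * b * y⁻¹) := by group
      rw [this]; exact mul_mem ha hb
  have hinv2 : ∀ y ∈ (P : Subgroup G), ∀ g ∈ N₂, y * g * y⁻¹ ∈ N₂ := by
    intro y hy g hg
    refine Subgroup.iSup_induction S₂ (C := fun g => y * g * y⁻¹ ∈ N₂) hg ?_ ?_ ?_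
    · rintro ⟨M, hM, hMne⟩ z hz
      have hM' : IsComponent (M.map (MulAut.conj y).toMonoidHom) :=
        isComponent_map_equiv (MulAut.conj y) hM
      have hne' : ∀ x ∈ (P : Subgroup G),
          M.map (MulAut.conj y).toMonoidHom ≠ K.map (MulAut.conj x).toMonoidHom := by
        intro x hx heq
        apply hMne (y⁻¹ * x) (mul_mem (inv_mem hy) hx)
        ext w
        rw [mem_map_conj_iff]
        have h1 : w ∈ M ↔ y * w * y⁻¹ ∈ M.map (MulAut.conj y).toMonoidHom := by
          rw [mem_map_conj_iff]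
          have : y⁻¹ * (y * w * y⁻¹) * y = w := by group
          rw [this]
        rw [h1, heq, mem_map_conj_iff]
        have : x⁻¹ * (y * w * y⁻¹) * x = (y⁻¹ * x)⁻¹ * w * (y⁻¹ * x) := by group
        rw [this]
      have hz' : z ∈ M := hz
      exact le_iSup S₂ ⟨_, hM', hne'⟩ (conj_mem_map_conj y hz')
    · simp
    · intro a b ha hb
      have : y * (a * b) * y⁻¹ = (y * a * y⁻¹) * (y * b * y⁻¹) := by group
      rw [this]; exact mul_mem ha hb
  have hA := not_subgroupOf_le_frattini_of_comp P hcore N₁ hinv1 K hK hK1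
  have hB := not_subgroupOf_le_frattini_of_comp P hcore N₂ hinv2 L hL hL2
  have hAn : (N₁.subgroupOf (P : Subgroup G)).Normal := ⟨fun n hn g => by
    rw [Subgroup.mem_subgroupOf] at hn ⊢
    exact hinv1 g g.2 n hn⟩
  have hBn : (N₂.subgroupOf (P : Subgroup G)).Normal := ⟨fun n hn g => by
    rw [Subgroup.mem_subgroupOf] at hn ⊢
    exact hinv2 g g.2 n hn⟩
  have hAB : N₁.subgroupOf (P : Subgroup G) ⊓ N₂.subgroupOf (P : Subgroup G) = ⊥ := by
    rw [Subgroup.eq_bot_iff_forall]
    rintro a ⟨ha1, ha2⟩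
    have h1 : (a : G) ∈ N₁ ⊓ N₂ := ⟨Subgroup.mem_subgroupOf.mp ha1, Subgroup.mem_subgroupOf.mp ha2⟩
    rw [hinf, Subgroup.mem_bot] at h1
    exact Subtype.ext h1
  apply hna
  exact ⟨⟨fun a b => comm_of_two_normal (Fact.out : p.Prime) hgen _ _ hA hB hAB a b⟩⟩

end Cfsg.Agent.Lib.Helper43.TwoGen
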